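/-
Every Chevalley group of exceptional type, and of type B2 or D4, over a finite field is generated by two elements.
-/
import Cfsg.Agent.Chev.Certs
import Cfsg.Agent.Chev.CoxCheck
import Cfsg.Agent.Chev.BN
import Cfsg.Agent.Chev.TwistUnip

set_option autoImplicit false

universe u

namespace Cfsg.Agent.LeadWork.TwoGenerators

open Cfsg.Lie Cfsg.Agent.Chev
open scoped Matrix

variable {D : ChevalleyDatum} {F : Type u} [Field F] (C : Cert.{u} D)

/-- All elements of a root subgroup lie in the subgroup. -/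
def Full (K : Subgroup (GL D.Idx F)) (r : ℕ) : Prop := ∀ t : F, C.xu r t ∈ K

theorem Full.mem {K : Subgroup (GL D.Idx F)} {r : ℕ} (h : Full C K r) (t : F) : C.xu r t ∈ K := h t

theorem sum_two_squares [Finite F] (x : F) : ∃ a b : F, a ^ 2 + b ^ 2 = x := by
  classical
  haveI := Fintype.ofFinite F
  by_cases h2 : ringChar F = 2
  · obtain ⟨a, ha⟩ := FiniteField.isSquare_of_char_two h2 x
    exact ⟨a, 0, by rw [ha]; ring⟩
  · obtain ⟨a, b, hab⟩ := FiniteField.exists_root_sum_quadratic (R := F) (f := (Polynomial.X : Polynomial F) ^ 2)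
      (g := Polynomial.X ^ 2 - Polynomial.C x) (Polynomial.degree_X_pow 2)
      (Polynomial.degree_X_pow_sub_C (by decide) _) (FiniteField.odd_card_of_char_ne_two h2)
    refine ⟨a, b, ?_⟩
    simp only [Polynomial.eval_C, Polynomial.eval_X, Polynomial.eval_pow, Polynomial.eval_sub] at hab
    rw [← sub_eq_zero, add_sub_assoc]
    exact hab

/-- A non-zero parameter, carried by a scaling with the square of every unit, gives the whole root subgroup. -/
theorem full_of_squares [Finite F] {K : Subgroup (GL D.Idx F)} {r : ℕ} {c : F} (hc : c ≠ 0)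
    (h : C.xu r c ∈ K) (hs : ∀ (a t : F), a ≠ 0 → C.xu r t ∈ K → C.xu r (a ^ 2 * t) ∈ K) : Full C K r := by
  intro t
  obtain ⟨a, b, hab⟩ := sum_two_squares (t / c)
  have h1 : ∀ a : F, C.xu r (a ^ 2 * c) ∈ K := by
    intro a
    by_cases ha : a = 0
    · subst ha; rw [zero_pow two_ne_zero, zero_mul, C.xu_zero]; exact one_mem K
    · exact hs a c ha h
  have := mul_mem (h1 a) (h1 b)
  rwa [C.xu_add, ← add_mul, hab, div_mul_cancel₀ _ hc] at this

/-- Over a prime field of at most three elements every non-zero parameter gives the whole root subgroup. -/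
theorem full_of_small [Finite F] (hq : ∀ a : F, a ≠ 0 → a ^ 2 = 1) {K : Subgroup (GL D.Idx F)} {r : ℕ} {c : F}
    (hc : c ≠ 0) (h : C.xu r c ∈ K) : Full C K r :=
  full_of_squares C hc h fun a t ha ht => by rw [hq a ha, one_mul]; exact ht

/-- A torus element given by a list of roots and exponents. -/
def tor (ζ : F) : List (ℕ × ℤ) → GL D.Idx F
  | [] => 1
  | p :: L => C.hu p.1 (ζ ^ p.2) * tor ζ L

/-- The exponent of the character of a torus element. -/
def pw (D : ChevalleyDatum) : List (ℕ × ℤ) → ℕ → ℤ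
  | [], _ => 0
  | p :: L, s => p.2 * pairInt D p.1 s + pw D L s

theorem tor_mem_diagonal {ζ : F} (hz : ζ ≠ 0) : ∀ {L : List (ℕ × ℤ)}, (∀ p ∈ L, p.1 < D.nroots) →
    tor C ζ L ∈ D.diagonalSubgroup F := by
  intro L
  induction L with
  | nil => intro _; exact one_mem _
  | cons p L ih =>
    intro h
    rw [List.forall_mem_cons] at h
    exact mul_mem (Subgroup.subset_closure ⟨p.1, ζ ^ p.2, h.1, zpow_ne_zero _ hz, C.coe_hu _ _⟩) (ih h.2)

theorem tor_conj {ζ : F} (hz : ζ ≠ 0) {s : ℕ} (hs : s < D.nroots) : ∀ {L : List (ℕ × ℤ)},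
    (∀ p ∈ L, p.1 < D.nroots) → ∀ t : F,
      tor C ζ L * C.xu s t * (tor C ζ L)⁻¹ = C.xu s (ζ ^ pw D L s * t) := by
  intro L
  induction L with
  | nil => intro _ t; simp [tor, pw]
  | cons p L ih =>
    intro h t
    rw [List.forall_mem_cons] at h
    show C.hu p.1 (ζ ^ p.2) * tor C ζ L * C.xu s t * (C.hu p.1 (ζ ^ p.2) * tor C ζ L)⁻¹ = _
    rw [show C.hu p.1 (ζ ^ p.2) * tor C ζ L * C.xu s t * (C.hu p.1 (ζ ^ p.2) * tor C ζ L)⁻¹ =
      C.hu p.1 (ζ ^ p.2) * (tor C ζ L * C.xu s t * (tor C ζ L)⁻¹) * (C.hu p.1 (ζ ^ p.2))⁻¹ by group, ih h.2 t,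
      C.hu_conj_xu h.1 hs (zpow_ne_zero _ hz), mul_inv_cancel_right]
    congr 1
    show (ζ ^ p.2) ^ pairInt D p.1 s * (ζ ^ pw D L s * t) = ζ ^ (p.2 * pairInt D p.1 s + pw D L s) * t
    rw [← zpow_mul, ← mul_assoc, ← zpow_add₀ hz]

theorem conj_pow_xu {h : GL D.Idx F} {s : ℕ} {χ : F} (e : ∀ t : F, h * C.xu s t * h⁻¹ = C.xu s (χ * t))
    (j : ℕ) (t : F) : h ^ j * C.xu s t * (h ^ j)⁻¹ = C.xu s (χ ^ j * t) := by
  induction j generalizing t with
  | zero => simp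
  | succ j ih =>
    rw [pow_succ, show h ^ j * h * C.xu s t * (h ^ j * h)⁻¹ = h ^ j * (h * C.xu s t * h⁻¹) * (h ^ j)⁻¹ by group,
      e t, ih, ← mul_assoc, pow_succ]

/-- A torus element in the subgroup scaling a root by a suitable power of a generator gives the root subgroup. -/
theorem full_of_scale [Finite F] {K : Subgroup (GL D.Idx F)} {ζ : Fˣ} (hζ : ∀ u : Fˣ, u ∈ Subgroup.zpowers ζ)
    {h : GL D.Idx F} (hh : h ∈ K) {r : ℕ} {m : ℤ} (hm : m ∈ [1, -1, 2, -2])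
    (e : ∀ t : F, h * C.xu r t * h⁻¹ = C.xu r ((ζ : F) ^ m * t)) {c : F} (hc : c ≠ 0) (hr : C.xu r c ∈ K) :
    Full C K r := by
  refine full_of_squares C hc hr fun a t ha ht => ?_
  have hj : ∀ (j : ℕ), C.xu r (((ζ : F) ^ m) ^ j * t) ∈ K := fun j => by
    rw [← conj_pow_xu C e]
    exact mul_mem (mul_mem (pow_mem hh j) ht) (inv_mem (pow_mem hh j))
  obtain ⟨j, hj'⟩ : ∃ j : ℕ, ((ζ : F) ^ m) ^ j = a ^ 2 := by
    obtain ⟨i, hi⟩ := Subgroup.mem_zpowers_iff.mp (hζ (Units.mk0 a ha))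
    have hfin : ∀ k : ℤ, ∃ j : ℕ, ((ζ ^ m) ^ j : Fˣ) = (ζ ^ m) ^ k := fun k =>
      ⟨(k % (orderOf (ζ ^ m) : ℤ)).toNat, by
        rw [← zpow_natCast, Int.toNat_of_nonneg (Int.emod_nonneg _ (by
          simpa using (orderOf_pos (ζ ^ m)).ne')), zpow_mod_orderOf]⟩
    simp only [List.mem_cons, List.not_mem_nil, or_false] at hm
    obtain ⟨k, hk⟩ : ∃ k : ℤ, m * k = i * 2 := by
      rcases hm with rfl | rfl | rfl | rfl
      exacts [⟨i * 2, by ring⟩, ⟨-(i * 2), by ring⟩, ⟨i, by ring⟩, ⟨-i, by ring⟩]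
    obtain ⟨j, hj⟩ := hfin k
    refine ⟨j, ?_⟩
    have := congrArg Units.val hj
    rw [← zpow_mul, hk, zpow_mul, hi] at this
    simpa [Units.val_zpow_eq_zpow_val, zpow_ofNat] using this
  rw [← hj']
  exact hj j

/-- A step: move a full root by the Weyl word, or solve a commutator for one term. -/
abbrev Op := ℕ × ℕ × ℕ × ℕ

/-- A term which is trivial, or whose root is known. -/
def okTerm (two : Bool) (S : List ℕ) (q : ℕ × ℤ × ℕ × ℕ) : Bool :=
  S.contains q.1 || (two && q.2.1 % 2 == 0)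

/-- A coefficient which is a unit. -/
def unitCoef (two : Bool) (c : ℤ) : Bool := c == 1 || c == -1 || (two && c % 2 == 1)

/-- The new root of a commutator step. -/
def commOp (D : ChevalleyDatum) (two : Bool) (S : List ℕ) (a b i : ℕ) : List ℕ :=
  match (D.commTerms a b)[i]? with
  | none => []
  | some (g, c, x, y) =>
    if S.contains a && S.contains b && decide (a < D.nroots) && decide (b < D.nroots) && (b != a) &&
        (b != D.neg a) && unitCoef two c && (x == 1 || y == 1) &&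
        ((D.commTerms a b).take i).all (okTerm two S) && ((D.commTerms a b).drop (i + 1)).all (okTerm two S)
    then [g] else []

/-- Running a list of steps. -/
def run (D : ChevalleyDatum) (two : Bool) (L : List ℕ) : List Op → List ℕ → List ℕ
  | [], S => S
  | (0, r, _, _) :: ops, S =>
    run D two L ops (if S.contains r && decide (r < D.nroots) then act D L r :: S else S)
  | (_ + 1, a, b, i) :: ops, S => run D two L ops (commOp D two S a b i ++ S)

theorem full_rot {K : Subgroup (GL D.Idx F)} {L : List ℕ} (hL : ∀ a ∈ L, a < D.rank)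
    (hn : C.nWordElt F L ∈ K) {r : ℕ} (hr : r < D.nroots) (h : Full C K r) : Full C K (act D L r) := by
  intro t
  obtain ⟨c, hc, e⟩ := C.nWordElt_conj_xu (F := F) hL hr
  have := mul_mem (mul_mem hn (h (t / c))) (inv_mem hn)
  rwa [e, mul_div_cancel₀ _ hc] at this

theorem has_rot {K : Subgroup (GL D.Idx F)} {L : List ℕ} (hL : ∀ a ∈ L, a < D.rank)
    (hn : C.nWordElt F L ∈ K) {r : ℕ} (hr : r < D.nroots) {t : F} (ht : t ≠ 0) (h : C.xu r t ∈ K) :
    ∃ c : F, c ≠ 0 ∧ C.xu (act D L r) c ∈ K := by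
  obtain ⟨c, hc, e⟩ := C.nWordElt_conj_xu (F := F) hL hr
  exact ⟨c * t, mul_ne_zero hc ht, e t ▸ mul_mem (mul_mem hn h) (inv_mem hn)⟩

theorem prod_term {G : Type*} [Group G] (K : Subgroup G) {A B : List G} {x : G} (hA : ∀ a ∈ A, a ∈ K)
    (hB : ∀ b ∈ B, b ∈ K) (h : (A ++ x :: B).prod ∈ K) : x ∈ K := by
  rw [List.prod_append, List.prod_cons, ← mul_assoc] at h
  have h2 := mul_mem (mul_mem (inv_mem (list_prod_mem hA)) h) (inv_mem (list_prod_mem hB))
  rwa [show A.prod⁻¹ * (A.prod * x * B.prod) * B.prod⁻¹ = x by group] at h2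

theorem full_comm {K : Subgroup (GL D.Idx F)} {two : Bool} (h2 : two = true → CharP F 2) {S : List ℕ}
    (hS : ∀ r ∈ S, Full C K r) {a b i g : ℕ} (hg : g ∈ commOp D two S a b i) : Full C K g := by
  unfold commOp at hg
  cases e : (D.commTerms a b)[i]? with
  | none => rw [e] at hg; simp at hg
  | some q =>
    obtain ⟨g', c, x, y⟩ := q
    rw [e] at hg
    simp only at hg
    split_ifs at hg with h
    swap
    · simp at hg
    simp only [Bool.and_eq_true, List.contains_iff_mem, decide_eq_true_eq, bne_iff_ne, Bool.or_eq_true,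
      beq_iff_eq, List.all_eq_true] at h
    obtain ⟨⟨⟨⟨⟨⟨⟨⟨⟨ha, hb⟩, hal⟩, hbl⟩, hne⟩, hneg⟩, hc⟩, hxy⟩, hpre⟩, hsuf⟩ := h
    rw [List.mem_singleton] at hg
    subst hg
    have hcne : (c : F) * c = 1 := by
      simp only [unitCoef, Bool.or_eq_true, beq_iff_eq, Bool.and_eq_true] at hc
      rcases hc with (hc | hc) | ⟨ht, hc⟩
      · simp [hc]
      · simp [hc]
      · haveI := h2 ht
        have : ((c : ℤ) : F) = 1 := by
          have := (CharP.intCast_eq_intCast F 2 (a := c) (b := 1)).2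
            (show c % ((2 : ℕ) : ℤ) = 1 % ((2 : ℕ) : ℤ) by omega)
          simpa using this
        rw [this, mul_one]
    intro w
    obtain ⟨t, v, htv⟩ : ∃ t v : F, (c : F) * (-t) ^ x * v ^ y = w := by
      rcases hxy with rfl | rfl
      · exact ⟨-((c : F) * w), 1, by rw [neg_neg, pow_one, one_pow, mul_one, ← mul_assoc, hcne, one_mul]⟩
      · exact ⟨-1, (c : F) * w, by rw [neg_neg, one_pow, mul_one, pow_one, ← mul_assoc, hcne, one_mul]⟩
    have hmem : C.wu (D.commWord F a b t v) ∈ K := by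
      have := mul_mem (inv_mem (mul_mem (hS a ha t) (hS b hb v))) (mul_mem (hS b hb v) (hS a ha t))
      rwa [C.xu_comm hal hbl hne hneg t v, inv_mul_cancel_left] at this
    obtain ⟨hi, he⟩ := List.getElem?_eq_some_iff.mp e
    have hsplit : D.commTerms a b =
        (D.commTerms a b).take i ++ (g, c, x, y) :: (D.commTerms a b).drop (i + 1) := by
      rw [← he, List.cons_getElem_drop_succ, List.take_append_drop]
    rw [ChevalleyDatum.commWord, Cert.wu, List.map_map, hsplit, List.map_append, List.map_cons] at hmem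
    have hok : ∀ q : ℕ × ℤ × ℕ × ℕ, okTerm two S q = true →
        C.xu q.1 ((q.2.1 : F) * (-t) ^ q.2.2.1 * v ^ q.2.2.2) ∈ K := by
      intro q hq
      simp only [okTerm, Bool.or_eq_true, List.contains_iff_mem, Bool.and_eq_true, beq_iff_eq] at hq
      rcases hq with hq | ⟨ht, hq⟩
      · exact hS _ hq _
      · haveI := h2 ht
        rw [show ((q.2.1 : ℤ) : F) = 0 from (CharP.intCast_eq_zero_iff F 2 _).mpr (Int.dvd_of_emod_eq_zero hq),
          zero_mul, zero_mul, C.xu_zero]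
        exact one_mem K
    have := prod_term K (fun z hz => ?_) (fun z hz => ?_) hmem
    · simpa [htv] using this
    · obtain ⟨q, hq, rfl⟩ := List.mem_map.mp hz
      exact hok q (hpre q hq)
    · obtain ⟨q, hq, rfl⟩ := List.mem_map.mp hz
      exact hok q (hsuf q hq)

theorem full_run {K : Subgroup (GL D.Idx F)} {two : Bool} (h2 : two = true → CharP F 2) {L : List ℕ}
    (hL : ∀ a ∈ L, a < D.rank) (hn : C.nWordElt F L ∈ K) :
    ∀ (ops : List Op) {S : List ℕ}, (∀ r ∈ S, Full C K r) → ∀ r ∈ run D two L ops S, Full C K r := by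
  intro ops
  induction ops with
  | nil => intro S hS; exact hS
  | cons op ops ih =>
    obtain ⟨o, a, b, i⟩ := op
    intro S hS
    cases o with
    | zero =>
      unfold run
      refine ih ?_
      split_ifs with h
      · simp only [Bool.and_eq_true, List.contains_iff_mem, decide_eq_true_eq] at h
        exact List.forall_mem_cons.mpr ⟨full_rot C hL hn h.2 (hS a h.1), hS⟩
      · exact hS
    | succ o =>
      unfold run
      exact ih fun r hr => (List.mem_append.mp hr).elim (full_comm C h2 hS) (hS r)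

/-- The certificate that a run reaches all fundamental roots and their negatives. -/
def reaches (D : ChevalleyDatum) (two : Bool) (L : List ℕ) (ops : List Op) (S : List ℕ) : Bool :=
  (List.range D.rank).all fun i =>
    (run D two L ops S).contains (D.simple i) && (run D two L ops S).contains (D.neg (D.simple i))

theorem group_le {K : Subgroup (GL D.Idx F)} {two : Bool} (h2 : two = true → CharP F 2) {L : List ℕ}
    (hL : ∀ a ∈ L, a < D.rank) (hn : C.nWordElt F L ∈ K) {ops : List Op} {S : List ℕ}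
    (hS : ∀ r ∈ S, Full C K r) (hr : reaches D two L ops S = true) : D.group F ≤ K := by
  simp only [reaches, List.all_eq_true, List.mem_range, Bool.and_eq_true, List.contains_iff_mem] at hr
  have h := full_run C h2 hL hn ops hS
  rw [C.group_eq_closure, Subgroup.closure_le]
  rintro g ⟨r, hr', t, rfl⟩
  refine C.xu_mem_of_simple (fun j hj v => h _ (hr j hj).1 v) (fun j hj => ?_) hr' t
  rw [C.nu_eq]
  exact mul_mem (mul_mem (h _ (hr j hj).1 _) (h _ (hr j hj).2 _)) (h _ (hr j hj).1 _)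

theorem nWordElt_mem_group (L : List ℕ) : C.nWordElt F L ∈ D.group F :=
  list_prod_mem fun x hx => by obtain ⟨i, -, rfl⟩ := List.mem_map.mp hx; exact C.nu_mem_group _ _

theorem tor_mem_group (ζ : F) : ∀ L : List (ℕ × ℤ), tor C ζ L ∈ D.group F
  | [] => one_mem _
  | p :: L => mul_mem (by rw [C.hu_eq]; exact mul_mem (C.nu_mem_group _ _) (C.nu_mem_group _ _)) (tor_mem_group ζ L)

theorem pair_generates {a b : GL D.Idx F} (ha : a ∈ D.group F) (hb : b ∈ D.group F)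
    (h : D.group F ≤ Subgroup.closure ({a, b} : Set (GL D.Idx F))) :
    ∃ a b : ↥(D.group F), Subgroup.closure ({a, b} : Set ↥(D.group F)) = ⊤ := by
  refine ⟨⟨a, ha⟩, ⟨b, hb⟩, Subgroup.map_injective (D.group F).subtype_injective ?_⟩
  rw [← MonoidHom.range_eq_map, Subgroup.range_subtype, MonoidHom.map_closure, Set.image_pair]
  exact le_antisymm ((Subgroup.closure_le _).mpr (Set.pair_subset ha hb)) h

/-- Two commuting elements of coprime orders lie in the group of their product. -/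
theorem split_mul {G : Type*} [Group G] {x h : G} {K : Subgroup G} (hxh : x * h ∈ K) (hc : Commute x h) {p m : ℕ}
    (hx : x ^ p = 1) (hh : h ^ m = 1) (hpm : Nat.Coprime p m) : x ∈ K ∧ h ∈ K := by
  have hb : (1 : ℤ) = p * Nat.gcdA p m + m * Nat.gcdB p m := by
    rw [← Nat.gcd_eq_gcd_ab, hpm.gcd_eq_one, Nat.cast_one]
  have hh' : h ∈ K := by
    have e : (x * h) ^ ((p : ℤ) * Nat.gcdA p m) = h := by
      rw [hc.mul_zpow, zpow_mul, zpow_natCast, hx, one_zpow, one_mul]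
      calc h ^ ((p : ℤ) * Nat.gcdA p m) = h ^ ((p : ℤ) * Nat.gcdA p m) * h ^ ((m : ℤ) * Nat.gcdB p m) := by
            rw [zpow_mul h (m : ℤ), zpow_natCast, hh, one_zpow, mul_one]
        _ = h := by rw [← zpow_add, ← hb, zpow_one]
    rw [← e]; exact zpow_mem hxh _
  exact ⟨by simpa using mul_mem hxh (inv_mem hh'), hh'⟩

theorem xu_pow (r : ℕ) (t : F) (n : ℕ) : C.xu r t ^ n = C.xu r ((n : F) * t) := by
  induction n with
  | zero => simp [C.xu_zero]
  | succ n ih => rw [pow_succ, ih, C.xu_add, Nat.cast_succ, add_mul, one_mul]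

theorem tor_pow_card [Fintype F] {ζ : F} (hz : ζ ≠ 0) {L : List (ℕ × ℤ)} (hL : ∀ p ∈ L, p.1 < D.nroots) :
    tor C ζ L ^ (Fintype.card F - 1) = 1 := by
  obtain ⟨χ, -, hne, e⟩ := C.diagonal_char (tor_mem_diagonal C hz hL)
  refine Units.ext ?_
  rw [Units.val_pow_eq_pow_val, e, dMat, Matrix.diagonal_pow, Units.val_one, ← Matrix.diagonal_one]
  congr 1
  funext x
  rw [Pi.pow_apply]
  rcases x with k | k
  · exact one_pow _
  · exact FiniteField.pow_card_sub_one_eq_one _ (hne _)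

theorem exists_gen (F : Type u) [Field F] [Finite F] : ∃ ζ : Fˣ, ∀ u : Fˣ, u ∈ Subgroup.zpowers ζ :=
  IsCyclic.exists_generator

/-- A root element times a torus element fixing it, split. -/
theorem split_root [Finite F] {K : Subgroup (GL D.Idx F)} {ζ : F} (hz : ζ ≠ 0) {L : List (ℕ × ℤ)}
    (hL : ∀ p ∈ L, p.1 < D.nroots) {u : GL D.Idx F} (hu : ∀ n : ℕ, (n : F) = 0 → u ^ n = 1)
    (hc : Commute u (tor C ζ L)) (h : u * tor C ζ L ∈ K) : u ∈ K ∧ tor C ζ L ∈ K := by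
  haveI := Fintype.ofFinite F
  obtain ⟨p, hp⟩ := CharP.exists F
  haveI := hp
  obtain ⟨n, hprime, hcard⟩ := FiniteField.card F p
  refine split_mul h hc (p := p) (hu p (CharP.cast_eq_zero F p)) (tor_pow_card C hz hL) ?_
  refine (hprime.coprime_iff_not_dvd).mpr fun hd => ?_
  have h1 : 1 ≤ Fintype.card F := Fintype.card_pos
  have h3 : p ∣ Fintype.card F := hcard ▸ dvd_pow_self p n.ne_zero
  exact hprime.one_lt.ne' (Nat.dvd_one.mp (by simpa [Nat.sub_sub_self h1] using Nat.dvd_sub h3 hd))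

theorem commute_tor {ζ : F} (hz : ζ ≠ 0) {L : List (ℕ × ℤ)} (hL : ∀ p ∈ L, p.1 < D.nroots) {r : ℕ}
    (hr : r < D.nroots) (h0 : pw D L r = 0) (t : F) : Commute (C.xu r t) (tor C ζ L) := by
  have := tor_conj C hz hr hL t
  rw [h0, zpow_zero, one_mul, mul_inv_eq_iff_eq_mul] at this
  exact this.symm

/-- The roots visited by a word. -/
def iterAct (D : ChevalleyDatum) (L : List ℕ) : ℕ → ℕ → ℕ
  | 0, r => r
  | k + 1, r => act D L (iterAct D L k r)

theorem iterAct_lt (C : Cert.{u} D) {L : List ℕ} (hL : ∀ a ∈ L, a < D.rank) {r : ℕ} (hr : r < D.nroots) :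
    ∀ k, iterAct D L k r < D.nroots
  | 0 => hr
  | k + 1 => C.act_lt hL (iterAct_lt C hL hr k)

theorem has_iter {K : Subgroup (GL D.Idx F)} {L : List ℕ} (hL : ∀ a ∈ L, a < D.rank)
    (hn : C.nWordElt F L ∈ K) {r : ℕ} (hr : r < D.nroots) {t : F} (ht : t ≠ 0) (h : C.xu r t ∈ K) :
    ∀ k, ∃ c : F, c ≠ 0 ∧ C.xu (iterAct D L k r) c ∈ K
  | 0 => ⟨t, ht, h⟩
  | k + 1 => by
    obtain ⟨c, hc, h'⟩ := has_iter hL hn hr ht h k
    exact has_rot C hL hn (iterAct_lt C hL hr k) hc h'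

include C in
/-- One fundamental orbit suffices. -/
theorem one_orbit [Finite F] {α g k : ℕ} (ops : List Op)
    (hd : α < D.nroots ∧ g < D.nroots ∧ pw D [(g, 1)] α = 0 ∧
      pw D [(g, 1)] (iterAct D (List.range D.rank) k α) ∈ [1, -1, 2, -2] ∧
      reaches D false (List.range D.rank) ops [iterAct D (List.range D.rank) k α] = true) :
    ∃ a b : ↥(D.group F), Subgroup.closure ({a, b} : Set ↥(D.group F)) = ⊤ := by
  obtain ⟨hα, hg, h0, hm, hr⟩ := hd
  set L := List.range D.rank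
  have hL : ∀ a ∈ L, a < D.rank := fun a ha => List.mem_range.mp ha
  obtain ⟨ζ, hζ⟩ := exists_gen F
  have hT : ∀ p ∈ [((g : ℕ), (1 : ℤ))], p.1 < D.nroots := by simpa using hg
  refine pair_generates (a := C.xu α (1 : F) * tor C (ζ : F) [(g, 1)]) (b := C.nWordElt F L)
    (mul_mem (C.xu_mem_group _ _) (tor_mem_group C _ _)) (nWordElt_mem_group C L) ?_
  set K := Subgroup.closure ({C.xu α (1 : F) * tor C (ζ : F) [(g, 1)], C.nWordElt F L} : Set (GL D.Idx F))
  have hn : C.nWordElt F L ∈ K := Subgroup.subset_closure (Or.inr rfl)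
  obtain ⟨hx, hh⟩ := split_root C (K := K) ζ.ne_zero hT (u := C.xu α (1 : F))
    (fun n h => by rw [xu_pow, h, zero_mul, C.xu_zero]) (commute_tor C ζ.ne_zero hT hα h0 1)
    (Subgroup.subset_closure (Or.inl rfl))
  obtain ⟨c, hc, hc'⟩ := has_iter C hL hn hα one_ne_zero hx k
  have hfull := full_of_scale C hζ hh hm (tor_conj C ζ.ne_zero (iterAct_lt C hL hα k) hT) hc hc'
  exact group_le C (two := false) (fun e => absurd e Bool.false_ne_true) hL hn
    (fun r hr' => by rw [List.mem_singleton] at hr'; exact hr' ▸ hfull) hr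

theorem char_diag {ζ : F} (hz : ζ ≠ 0) {L : List (ℕ × ℤ)} (hT : ∀ p ∈ L, p.1 < D.nroots) {W : List ℕ}
    (hW : ∀ a ∈ W, a < D.rank) (hneg : ∀ r < D.nroots, pw D L (act D W r) = - pw D L r) :
    C.nWordElt F W * tor C ζ L * (C.nWordElt F W)⁻¹ = (tor C ζ L)⁻¹ := by
  set n := C.nWordElt F W with hn
  set h := tor C ζ L with hh
  have hd : n * h * n⁻¹ * h ∈ D.diagonalSubgroup F :=
    mul_mem (C.monomial_conj_diagonal (C.nWordElt_mem hW) (tor_mem_diagonal C hz hT)) (tor_mem_diagonal C hz hT)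
  obtain ⟨χ, hχ, -, e⟩ := C.diagonal_char hd
  rw [eq_inv_iff_mul_eq_one]
  refine Units.ext ?_
  rw [e, Units.val_one, ← dMat_one]
  refine dMat_congr fun s hs => ?_
  have key : n * h * n⁻¹ * h * C.xu s 1 * (n * h * n⁻¹ * h)⁻¹ = C.xu s (χ s) := by
    have : n * h * n⁻¹ * h * C.xu s 1 = C.xu s (χ s * 1) * (n * h * n⁻¹ * h) :=
      Units.ext (by
        show (n * h * n⁻¹ * h : GL D.Idx F).1 * (C.xu s 1).1 = (C.xu s (χ s * 1)).1 * (n * h * n⁻¹ * h : GL D.Idx F).1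
        rw [e, C.coe_xu, C.coe_xu]
        exact C.dMat_conj hχ hs 1)
    rw [this, mul_inv_cancel_right, mul_one]
  obtain ⟨r, hr, hrs⟩ : ∃ r < D.nroots, act D W r = s :=
    ⟨act D W.reverse s, C.act_lt (fun a ha => hW a (List.mem_reverse.mp ha)) hs, act_reverse_right C hW hs⟩
  obtain ⟨c, hc, ec⟩ := C.nWordElt_conj_xu (F := F) hW hr
  rw [hrs] at ec
  have h1 : n * h * n⁻¹ * h * C.xu s 1 * (n * h * n⁻¹ * h)⁻¹ = C.xu s 1 := by
    rw [show n * h * n⁻¹ * h * C.xu s 1 * (n * h * n⁻¹ * h)⁻¹ =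
      n * h * n⁻¹ * (h * C.xu s 1 * h⁻¹) * n * h⁻¹ * n⁻¹ by group, hh, tor_conj C hz hs hT, mul_one, ← hh]
    have ec' : C.xu s (ζ ^ pw D L s) = n * C.xu r (c⁻¹ * ζ ^ pw D L s) * n⁻¹ := by
      rw [ec, mul_inv_cancel_left₀ hc]
    rw [ec', show n * h * n⁻¹ * (n * C.xu r (c⁻¹ * ζ ^ pw D L s) * n⁻¹) * n * h⁻¹ * n⁻¹ =
      n * (h * C.xu r (c⁻¹ * ζ ^ pw D L s) * h⁻¹) * n⁻¹ by group, hh, tor_conj C hz hr hT, ec]
    congr 1
    rw [← hrs, hneg r hr, zpow_neg]
    field_simp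
  exact C.xu_inj hs (key.symm.trans h1)

include C in
/-- A Weyl word inverting a torus element. -/
theorem inverted_torus [Finite F] {α β m : ℕ} {L : List (ℕ × ℤ)} {W : List ℕ} (ops ops' : List Op)
    (hd : α < D.nroots ∧ β < D.nroots ∧ (∀ a ∈ W, a < D.rank) ∧ (∀ p ∈ L, p.1 < D.nroots) ∧
      (∀ r < D.nroots, pw D L (act D W r) = - pw D L r) ∧ pw D L α = 0 ∧ pw D L β ∈ [1, -1, 2, -2] ∧
      m < D.nroots ∧ m ∈ run D false W ops [β] ∧ D.neg m ∈ run D false W ops [β] ∧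
      pw D [(m, 1)] α ∈ [1, -1, 2, -2] ∧ reaches D false W ops' [α, β] = true)
    (hq : ∀ ζ : Fˣ, (∀ u : Fˣ, u ∈ Subgroup.zpowers ζ) → (ζ : F) ^ pw D L β ≠ 1) :
    ∃ a b : ↥(D.group F), Subgroup.closure ({a, b} : Set ↥(D.group F)) = ⊤ := by
  obtain ⟨hα, hβ, hW, hT, hneg, h0, hm1, hm, hmem, hmem', hm2, hr⟩ := hd
  obtain ⟨ζ, hζ⟩ := exists_gen F
  have hz : (ζ : F) ≠ 0 := ζ.ne_zero
  set n := C.nWordElt F W with hn_def
  refine pair_generates (a := C.xu α (1 : F) * tor C (ζ : F) L) (b := C.xu β (1 : F) * n)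
    (mul_mem (C.xu_mem_group _ _) (tor_mem_group C _ _)) (mul_mem (C.xu_mem_group _ _) (nWordElt_mem_group C W)) ?_
  set K := Subgroup.closure ({C.xu α (1 : F) * tor C (ζ : F) L, C.xu β (1 : F) * n} : Set (GL D.Idx F))
  obtain ⟨hx, hh⟩ := split_root C (K := K) hz hT (u := C.xu α (1 : F))
    (fun n h => by rw [xu_pow, h, zero_mul, C.xu_zero]) (commute_tor C hz hT hα h0 1)
    (Subgroup.subset_closure (Or.inl rfl))
  have hb : C.xu β (1 : F) * n ∈ K := Subgroup.subset_closure (Or.inr rfl)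
  set χ : F := (ζ : F) ^ pw D L β
  have hsmall : C.xu β (1 - χ⁻¹) ∈ K := by
    have h3 : C.xu β (1 : F) * n * tor C (ζ : F) L * (C.xu β (1 : F) * n)⁻¹ * tor C (ζ : F) L ∈ K :=
      mul_mem (mul_mem (mul_mem hb hh) (inv_mem hb)) hh
    rw [show C.xu β (1 : F) * n * tor C (ζ : F) L * (C.xu β (1 : F) * n)⁻¹ * tor C (ζ : F) L =
      C.xu β 1 * (n * tor C (ζ : F) L * n⁻¹) * (C.xu β (1 : F))⁻¹ * tor C (ζ : F) L by group, hn_def,
      char_diag C hz hT hW hneg, C.xu_inv] at h3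
    have e1 : (tor C (ζ : F) L)⁻¹ * C.xu β (-1) * tor C (ζ : F) L = C.xu β (-χ⁻¹) := by
      have := tor_conj C hz hβ hT (-χ⁻¹)
      rw [mul_inv_eq_iff_eq_mul, show χ * -χ⁻¹ = -1 by
        rw [mul_neg, mul_inv_cancel₀ (zpow_ne_zero _ hz)]] at this
      rw [mul_assoc, ← this, inv_mul_cancel_left]
    rw [mul_assoc (C.xu β (1 : F)), mul_assoc (C.xu β (1 : F)), e1, C.xu_add, ← sub_eq_add_neg] at h3
    exact h3
  have hne : (1 : F) - χ⁻¹ ≠ 0 := sub_ne_zero.mpr fun e => hq ζ hζ (inv_eq_one.mp e.symm)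
  have hfull := full_of_scale C hζ hh hm1 (tor_conj C hz hβ hT) hne hsmall
  have hn : n ∈ K := by simpa using mul_mem (inv_mem (hfull 1)) hb
  have h2 : false = true → CharP F 2 := fun e => absurd e Bool.false_ne_true
  have hrun := full_run C h2 hW hn ops (S := [β]) (fun r hr' => by rw [List.mem_singleton] at hr'; exact hr' ▸ hfull)
  have hhu : tor C (ζ : F) [(m, 1)] ∈ K := by
    refine mul_mem ?_ (one_mem _)
    rw [C.hu_eq, C.nu_eq, C.nu_eq]
    refine mul_mem ?_ ?_ <;>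
      exact mul_mem (mul_mem (hrun m hmem _) (hrun _ hmem' _)) (hrun m hmem _)
  have hfa := full_of_scale C hζ hhu hm2 (tor_conj C hz hα (L := [(m, 1)]) (by simpa using hm)) one_ne_zero hx
  refine group_le C h2 hW hn (fun r hr' => ?_) hr
  simp only [List.mem_cons, List.not_mem_nil, or_false] at hr'
  rcases hr' with rfl | rfl
  exacts [hfa, hfull]

/-! ### Type F4 -/

theorem f4_data : (∀ r ∈ [0, 9, 15, 19], r < chevF4.nroots) ∧
    act chevF4 (List.range 4) 0 = 15 ∧ act chevF4 (List.range 4) 9 = 19 ∧ iterAct chevF4 (List.range 4) 2 19 = 33 ∧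
    pw chevF4 [(33, -1), (27, -1), (25, -1)] 0 = 0 ∧ pw chevF4 [(33, -1), (27, -1), (25, -1)] 9 = 0 ∧
    pw chevF4 [(33, -1), (27, -1), (25, -1)] 15 = -1 ∧ pw chevF4 [(33, -1), (27, -1), (25, -1)] 19 = 0 ∧
    pw chevF4 [(33, -1), (27, -1), (25, -1)] 33 = -1 ∧
    (∀ p ∈ ([(33, -1), (27, -1), (25, -1)] : List (ℕ × ℤ)), p.1 < chevF4.nroots) ∧
    (∀ p ∈ [(0, 9), (15, 19), (0, 15), (0, 19), (9, 15), (7, 15), (7, 19)], p.2 ≠ p.1 ∧ p.2 ≠ chevF4.neg p.1 ∧
      chevF4.commTerms p.1 p.2 = []) ∧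
    chevF4.commTerms 9 19 = [(7, -1, 1, 1)] ∧ 19 ≠ chevF4.neg 9 ∧ 7 < chevF4.nroots ∧
    reaches chevF4 false (List.range 4) [(0, 15, 0, 0), (0, 33, 0, 0), (0, 21, 0, 0), (0, 27, 0, 0), (0, 41, 0, 0), (0, 35, 0, 0), (0, 45, 0, 0), (0, 38, 0, 0), (0, 46, 0, 0), (0, 28, 0, 0), (0, 36, 0, 0), (0, 14, 0, 0), (1, 15, 47, 0), (0, 42, 0, 0), (0, 30, 0, 0), (0, 43, 0, 0), (0, 31, 0, 0), (0, 25, 0, 0), (0, 24, 0, 0), (0, 5, 0, 0), (0, 17, 0, 0), (0, 4, 0, 0), (0, 16, 0, 0), (0, 22, 0, 0)] [15, 33] = true ∧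
    reaches chevF4 true (List.range 4) [(0, 0, 0, 0), (0, 9, 0, 0), (0, 15, 0, 0), (0, 19, 0, 0), (0, 21, 0, 0), (0, 11, 0, 0), (0, 41, 0, 0), (0, 33, 0, 0), (0, 45, 0, 0), (0, 27, 0, 0), (0, 35, 0, 0), (0, 38, 0, 0), (0, 28, 0, 0), (0, 36, 0, 0), (0, 14, 0, 0), (1, 0, 46, 0), (0, 23, 0, 0), (0, 42, 0, 0), (0, 30, 0, 0), (0, 43, 0, 0), (0, 31, 0, 0), (0, 25, 0, 0), (0, 24, 0, 0), (0, 5, 0, 0), (0, 17, 0, 0), (0, 4, 0, 0), (0, 16, 0, 0)] [0, 9] = true ∧
    9 ∈ run chevF4 true (List.range 4) [(0, 7, 0, 0), (0, 8, 0, 0), (0, 18, 0, 0), (0, 34, 0, 0), (0, 37, 0, 0), (1, 7, 44, 0), (0, 33, 0, 0), (0, 27, 0, 0), (0, 35, 0, 0), (0, 38, 0, 0), (0, 28, 0, 0), (0, 36, 0, 0), (0, 14, 0, 0), (0, 20, 0, 0), (0, 12, 0, 0)] [7] := by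
  decide +kernel

theorem xu_commute_of_nil {a b : ℕ} (ha : a < D.nroots) (hb : b < D.nroots) (h : b ≠ a ∧ b ≠ D.neg a ∧
    D.commTerms a b = []) (t v : F) : Commute (C.xu a t) (C.xu b v) := by
  have := C.xu_comm ha hb h.1 h.2.1 t v
  simp only [ChevalleyDatum.commWord, h.2.2, List.map_nil, Cert.wu, List.prod_nil, mul_one] at this
  exact this.symm

theorem f4_two_gen [Finite F] : ∃ a b : ↥(chevF4.group F), Subgroup.closure ({a, b} : Set ↥(chevF4.group F)) = ⊤ := by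
  obtain ⟨hlt, e0, e9, e33, p0, p9, p15, p19, p33, hT, hcom, t79, hn79, h7, hA, hC, hB⟩ := f4_data
  set Cf : Cert.{u} chevF4 := certF4
  set W := List.range 4
  set L : List (ℕ × ℤ) := [(33, -1), (27, -1), (25, -1)]
  have hW : ∀ a ∈ W, a < chevF4.rank := fun a ha => List.mem_range.mp ha
  obtain ⟨ζ, hζ⟩ := exists_gen F
  have hz : (ζ : F) ≠ 0 := ζ.ne_zero
  have l0 := hlt 0 (by simp)
  have l9 := hlt 9 (by simp)
  have l15 := hlt 15 (by simp)
  have l19 := hlt 19 (by simp)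
  have c09 : ∀ t v : F, Commute (Cf.xu 0 t) (Cf.xu 9 v) := xu_commute_of_nil Cf l0 l9 (hcom (0, 9) (by simp))
  refine pair_generates (a := Cf.xu 0 (1 : F) * Cf.xu 9 1 * tor Cf (ζ : F) L) (b := Cf.nWordElt F W)
    (mul_mem (mul_mem (Cf.xu_mem_group _ _) (Cf.xu_mem_group _ _)) (tor_mem_group Cf _ _))
    (nWordElt_mem_group Cf W) ?_
  set K := Subgroup.closure
    ({Cf.xu 0 (1 : F) * Cf.xu 9 1 * tor Cf (ζ : F) L, Cf.nWordElt F W} : Set (GL chevF4.Idx F))
  have hn : Cf.nWordElt F W ∈ K := Subgroup.subset_closure (Or.inr rfl)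
  obtain ⟨hu, hh⟩ := split_root Cf (K := K) hz hT (u := Cf.xu 0 (1 : F) * Cf.xu 9 1)
    (fun n h => by rw [(c09 1 1).mul_pow, xu_pow, xu_pow, h, zero_mul, Cf.xu_zero, Cf.xu_zero, one_mul])
    ((commute_tor Cf hz hT l0 p0 1).mul_left (commute_tor Cf hz hT l9 p9 1))
    (Subgroup.subset_closure (Or.inl rfl))
  obtain ⟨c, hc, ec⟩ := Cf.nWordElt_conj_xu (F := F) hW l0
  obtain ⟨d, hd, ed⟩ := Cf.nWordElt_conj_xu (F := F) hW l9
  rw [e0] at ec
  rw [e9] at ed
  have hv : Cf.xu 15 c * Cf.xu 19 d ∈ K := by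
    have := mul_mem (mul_mem hn hu) (inv_mem hn)
    rwa [← MulAut.conj_apply, map_mul, MulAut.conj_apply, MulAut.conj_apply, ec, ed, mul_one, mul_one] at this
  by_cases hq : (ζ : F) ^ (-1 : ℤ) = 1
  · have h1 : ∀ a : F, a ≠ 0 → a = 1 := by
      intro a ha
      obtain ⟨i, hi⟩ := Subgroup.mem_zpowers_iff.mp (hζ (Units.mk0 a ha))
      have := congrArg Units.val hi
      rw [zpow_neg_one, inv_eq_one] at hq
      rw [Units.val_zpow_eq_zpow_val, hq, one_zpow] at this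
      exact this.symm
    haveI : CharP F 2 := by
      have h2 : (2 : F) = 0 := by
        have := h1 (-1) (neg_ne_zero.mpr one_ne_zero)
        linear_combination -this
      exact CharTwo.of_one_ne_zero_of_two_eq_zero one_ne_zero h2
    have hsq : ∀ a : F, a ≠ 0 → a ^ 2 = 1 := fun a ha => by rw [h1 a ha, one_pow]
    rw [h1 c hc, h1 d hd] at hv
    have h7' : Cf.xu 7 (1 : F) ∈ K := by
      have e7 : Cf.xu 9 (1 : F) * Cf.xu 19 1 * (Cf.xu 9 (1 : F))⁻¹ = Cf.xu 19 1 * Cf.xu 7 1 := by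
        rw [Cf.conj_xu l9 l19 (by decide) hn79 1 1]
        simp [ChevalleyDatum.commWord, t79, Cert.wu, CharTwo.neg_eq]
      have a1 := (xu_commute_of_nil Cf l0 l15 (hcom (0, 15) (by simp)) (1 : F) 1)
      have a2 := (xu_commute_of_nil Cf l0 l19 (hcom (0, 19) (by simp)) (1 : F) 1)
      have a3 := (xu_commute_of_nil Cf l9 l15 (hcom (9, 15) (by simp)) (1 : F) 1)
      have a4 := (xu_commute_of_nil Cf h7 l15 (hcom (7, 15) (by simp)) (1 : F) 1)
      have a5 := (xu_commute_of_nil Cf h7 l19 (hcom (7, 19) (by simp)) (1 : F) 1)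
      have a6 := (xu_commute_of_nil Cf l15 l19 (hcom (15, 19) (by simp)) (1 : F) 1)
      set x0 := Cf.xu 0 (1 : F)
      set x9 := Cf.xu 9 (1 : F)
      set x15 := Cf.xu 15 (1 : F)
      set x19 := Cf.xu 19 (1 : F)
      set x7 := Cf.xu 7 (1 : F)
      have b1 : x9 * (x15 * x19) * x9⁻¹ = x15 * x19 * x7 := by
        rw [show x9 * (x15 * x19) * x9⁻¹ = (x9 * x15 * x9⁻¹) * (x9 * x19 * x9⁻¹) by group,
          a3.eq, mul_inv_cancel_right, e7, mul_assoc]
      have b2 : x0 * (x15 * x19 * x7) * x0⁻¹ = x15 * x19 * (x0 * x7 * x0⁻¹) := by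
        rw [show x0 * (x15 * x19 * x7) * x0⁻¹ = (x0 * x15 * x0⁻¹) * (x0 * x19 * x0⁻¹) * (x0 * x7 * x0⁻¹) by group,
          a1.eq, mul_inv_cancel_right, a2.eq, mul_inv_cancel_right]
      have hm : x0 * x7 * x0⁻¹ ∈ K := by
        have := mul_mem (inv_mem hv) (mul_mem (mul_mem hu hv) (inv_mem hu))
        rwa [show x0 * x9 * (x15 * x19) * (x0 * x9)⁻¹ = x0 * (x9 * (x15 * x19) * x9⁻¹) * x0⁻¹ by group, b1, b2,
          inv_mul_cancel_left] at this
      have e' : x9 * x0 = x0 * x9 := (c09 1 1).symm.eq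
      have := mul_mem (mul_mem (inv_mem hu) hm) hu
      rw [show (x0 * x9)⁻¹ * (x0 * x7 * x0⁻¹) * (x0 * x9) = x9⁻¹ * x7 * x9 by group] at this
      rwa [(xu_commute_of_nil Cf l9 h7 (by decide +kernel) (1 : F) 1).inv_left.eq, inv_mul_cancel_right] at this
    have h9 := full_run Cf (two := true) (fun _ => ‹CharP F 2›) hW hn [(0, 7, 0, 0), (0, 8, 0, 0), (0, 18, 0, 0), (0, 34, 0, 0), (0, 37, 0, 0), (1, 7, 44, 0), (0, 33, 0, 0), (0, 27, 0, 0), (0, 35, 0, 0), (0, 38, 0, 0), (0, 28, 0, 0), (0, 36, 0, 0), (0, 14, 0, 0), (0, 20, 0, 0), (0, 12, 0, 0)] (S := [7])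
      (fun r hr' => by rw [List.mem_singleton] at hr'; exact hr' ▸ full_of_small Cf hsq one_ne_zero h7') 9 hB
    have h0 : Cf.xu 0 (1 : F) ∈ K := by simpa using mul_mem hu (inv_mem (h9 1))
    refine group_le Cf (two := true) (fun _ => ‹CharP F 2›) hW hn (fun r hr' => ?_) hC
    simp only [List.mem_cons, List.not_mem_nil, or_false] at hr'
    rcases hr' with rfl | rfl
    exacts [full_of_small Cf hsq one_ne_zero h0, h9]
  · have h15 : Cf.xu 15 (((ζ : F) ^ (-1 : ℤ) - 1) * c) ∈ K := by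
      have := mul_mem (mul_mem (mul_mem hh hv) (inv_mem hh)) (inv_mem hv)
      rw [← MulAut.conj_apply, map_mul, MulAut.conj_apply, MulAut.conj_apply, tor_conj Cf hz l15 hT,
        tor_conj Cf hz l19 hT, p15, p19, zpow_zero, one_mul, mul_inv_rev, mul_assoc (Cf.xu 15 _),
        mul_inv_cancel_left, Cf.xu_inv, Cf.xu_add] at this
      rwa [sub_mul, one_mul, sub_eq_add_neg]
    have f15 := full_of_scale Cf hζ hh (show (-1 : ℤ) ∈ [1, -1, 2, -2] by decide)
      (fun t => p15 ▸ tor_conj Cf hz l15 hT t) (mul_ne_zero (sub_ne_zero.mpr hq) hc) h15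
    have h19 : Cf.xu 19 d ∈ K := by simpa using mul_mem (inv_mem (f15 c)) hv
    obtain ⟨c', hc', h33⟩ := has_iter Cf hW hn l19 hd h19 2
    rw [e33] at h33
    have l33 : 33 < chevF4.nroots := by decide +kernel
    have f33 := full_of_scale Cf hζ hh (show (-1 : ℤ) ∈ [1, -1, 2, -2] by decide)
      (fun t => p33 ▸ tor_conj Cf hz l33 hT t) hc' h33
    refine group_le Cf (two := false) (fun e => absurd e Bool.false_ne_true) hW hn (fun r hr' => ?_) hA
    simp only [List.mem_cons, List.not_mem_nil, or_false] at hr'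
    rcases hr' with rfl | rfl
    exacts [f15, f33]

/-! ### Type D4 over the two smallest fields -/

/-- The root gained by a step with a root element times a Weyl element. -/
def step2 (D : ChevalleyDatum) (W : List ℕ) (β : ℕ) (S : List ℕ) : Op → List ℕ
  | (1, a, b, i) => commOp D false S a b i
  | (2, r, _, _) =>
    if decide (r < D.nroots) && S.contains r &&
        (act D W r == β || (act D W r != D.neg β && (D.commTerms β (act D W r)).isEmpty))
    then [act D W r] else []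
  | (3, r, _, _) =>
    if decide (r < D.nroots) && S.contains (act D W r) &&
        (act D W r == β || (act D W r != D.neg β && (D.commTerms β (act D W r)).isEmpty))
    then [r] else []
  | (4, r, _, _) =>
    match D.commTerms β (act D W r) with
    | [(g, e, 1, 1)] =>
      if decide (r < D.nroots) && S.contains r && S.contains (act D W r) && act D W r != β &&
          act D W r != D.neg β && (e == 1 || e == -1)
      then [g] else []
    | _ => []
  | (5, r, _, _) =>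
    match D.commTerms β (act D W r) with
    | [(g, _, 1, 1)] =>
      if decide (r < D.nroots) && S.contains r && S.contains g && act D W r != β && act D W r != D.neg β
      then [act D W r] else []
    | _ => []
  | _ => []

/-- Steps with a root element times a Weyl element. -/
def run2 (D : ChevalleyDatum) (W : List ℕ) (β : ℕ) : List Op → List ℕ → List ℕ
  | [], S => S
  | op :: ops, S => run2 D W β ops (step2 D W β S op ++ S)

theorem full_run2 [Finite F] (hq : ∀ a : F, a ≠ 0 → a ^ 2 = 1) {K : Subgroup (GL D.Idx F)} {W : List ℕ}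
    (hW : ∀ a ∈ W, a < D.rank) {β : ℕ} (hβ : β < D.nroots) (hb : C.xu β (1 : F) * C.nWordElt F W ∈ K) :
    ∀ (ops : List Op) {S : List ℕ}, (∀ r ∈ S, Full C K r) → ∀ r ∈ run2 D W β ops S, Full C K r := by
  set b := C.xu β (1 : F) * C.nWordElt F W
  have conj_plain : ∀ {r : ℕ}, r < D.nroots →
      (act D W r = β ∨ (act D W r ≠ D.neg β ∧ D.commTerms β (act D W r) = [])) →
      ∃ c : F, c ≠ 0 ∧ b * C.xu r 1 * b⁻¹ = C.xu (act D W r) c := by
    intro r hr h
    obtain ⟨c, hc, e⟩ := C.nWordElt_conj_xu (F := F) hW hr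
    refine ⟨c, hc, ?_⟩
    rw [show b * C.xu r 1 * b⁻¹ = C.xu β 1 * (C.nWordElt F W * C.xu r 1 * (C.nWordElt F W)⁻¹) * (C.xu β 1)⁻¹ by
      simp only [b]; group, e, mul_one]
    by_cases hβc : act D W r = β
    · rw [hβc, C.xu_inv, C.xu_add, C.xu_add]; congr 1; ring
    · have h' := h.resolve_left hβc
      rw [(xu_commute_of_nil C hβ (C.act_lt hW hr) ⟨hβc, h'.1, h'.2⟩ 1 c).eq, mul_inv_cancel_right]
  have conj_one : ∀ {r g : ℕ} {e : ℤ}, r < D.nroots → act D W r ≠ β → act D W r ≠ D.neg β →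
      D.commTerms β (act D W r) = [(g, e, 1, 1)] →
      ∃ c : F, c ≠ 0 ∧ b * C.xu r 1 * b⁻¹ = C.xu (act D W r) c * C.xu g ((e : F) * c) := by
    intro r g e hr h1 h2 h3
    obtain ⟨c, hc, ec⟩ := C.nWordElt_conj_xu (F := F) hW hr
    refine ⟨c, hc, ?_⟩
    rw [show b * C.xu r 1 * b⁻¹ = C.xu β 1 * (C.nWordElt F W * C.xu r 1 * (C.nWordElt F W)⁻¹) * (C.xu β 1)⁻¹ by
      simp only [b]; group, ec, mul_one, C.conj_xu hβ (C.act_lt hW hr) h1 h2]
    simp [ChevalleyDatum.commWord, h3, Cert.wu]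
  have hstep : ∀ (op : Op) {S : List ℕ}, (∀ r ∈ S, Full C K r) → ∀ g ∈ step2 D W β S op, Full C K g := by
    intro op S hS g hg
    unfold step2 at hg
    split at hg
    · exact full_comm C (fun e => absurd e Bool.false_ne_true) hS hg
    · rename_i r x y
      split_ifs at hg with h
      swap
      · simp at hg
      rw [List.mem_singleton] at hg
      subst hg
      simp only [Bool.and_eq_true, decide_eq_true_eq, List.contains_iff_mem, Bool.or_eq_true, beq_iff_eq, bne_iff_ne,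
        List.isEmpty_iff] at h
      obtain ⟨⟨hr, hS1⟩, h2⟩ := h
      obtain ⟨c, hc, e⟩ := conj_plain hr h2
      exact full_of_small C hq hc (e ▸ mul_mem (mul_mem hb (hS r hS1 1)) (inv_mem hb))
    · rename_i r x y
      split_ifs at hg with h
      swap
      · simp at hg
      rw [List.mem_singleton] at hg
      subst hg
      simp only [Bool.and_eq_true, decide_eq_true_eq, List.contains_iff_mem, Bool.or_eq_true, beq_iff_eq, bne_iff_ne,
        List.isEmpty_iff] at h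
      obtain ⟨⟨hr, hS1⟩, h2⟩ := h
      obtain ⟨c, hc, e⟩ := conj_plain hr h2
      have := mul_mem (mul_mem (inv_mem hb) (hS _ hS1 c)) hb
      rw [← e, show b⁻¹ * (b * C.xu g 1 * b⁻¹) * b = C.xu g 1 by group] at this
      exact full_of_small C hq one_ne_zero this
    · rename_i r x y
      split at hg
      · rename_i g' e heq
        split_ifs at hg with h
        swap
        · simp at hg
        rw [List.mem_singleton] at hg
        subst hg
        simp only [Bool.and_eq_true, decide_eq_true_eq, List.contains_iff_mem, Bool.or_eq_true, beq_iff_eq,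
          bne_iff_ne] at h
        obtain ⟨⟨⟨⟨⟨hr, hS1⟩, hS2⟩, h1⟩, h2⟩, he⟩ := h
        obtain ⟨c, hc, ec⟩ := conj_one hr h1 h2 heq
        have h4 : C.xu (act D W r) c * C.xu g ((e : F) * c) ∈ K :=
          ec ▸ mul_mem (mul_mem hb (hS r hS1 1)) (inv_mem hb)
        have := mul_mem (inv_mem (hS _ hS2 c)) h4
        rw [inv_mul_cancel_left] at this
        refine full_of_small C hq ?_ this
        rcases he with he | he <;> simp [he, hc]
      · simp at hg
    · rename_i r x y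
      split at hg
      · rename_i g' e heq
        split_ifs at hg with h
        swap
        · simp at hg
        rw [List.mem_singleton] at hg
        subst hg
        simp only [Bool.and_eq_true, decide_eq_true_eq, List.contains_iff_mem, bne_iff_ne] at h
        obtain ⟨⟨⟨⟨hr, hS1⟩, hS2⟩, h1⟩, h2⟩ := h
        obtain ⟨c, hc, ec⟩ := conj_one hr h1 h2 heq
        have h4 : C.xu (act D W r) c * C.xu g' ((e : F) * c) ∈ K :=
          ec ▸ mul_mem (mul_mem hb (hS r hS1 1)) (inv_mem hb)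
        have := mul_mem h4 (inv_mem (hS g' hS2 ((e : F) * c)))
        rw [mul_inv_cancel_right] at this
        exact full_of_small C hq hc this
      · simp at hg
    · simp at hg
  intro ops
  induction ops with
  | nil => intro S hS; exact hS
  | cons op ops ih =>
    intro S hS
    exact ih fun r hr => (List.mem_append.mp hr).elim (hstep op hS r) (hS r)

theorem d4_small [Finite F] (hq : ∀ a : F, a ≠ 0 → a ^ 2 = 1) :
    ∃ a b : ↥(chevD4.group F), Subgroup.closure ({a, b} : Set ↥(chevD4.group F)) = ⊤ := by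
  set Cd : Cert.{u} chevD4 := certD4
  set W := List.range 4
  have hW : ∀ a ∈ W, a < chevD4.rank := fun a ha => List.mem_range.mp ha
  have hd : 2 < chevD4.nroots ∧ 2 ∈ run2 chevD4 W 2 [(3, 9, 0, 0), (3, 5, 0, 0), (3, 22, 0, 0), (1, 1, 9, 0), (2, 0, 0, 0), (3, 4, 0, 0), (3, 17, 0, 0), (3, 23, 0, 0), (1, 1, 23, 0), (4, 14, 0, 0), (3, 18, 0, 0), (4, 1, 0, 0), (2, 12, 0, 0), (3, 16, 0, 0), (5, 7, 0, 0), (2, 11, 0, 0), (1, 1, 12, 0)] [1] ∧
      reaches chevD4 false W [(0, 6, 0, 0), (0, 2, 0, 0), (0, 8, 0, 0), (0, 10, 0, 0), (0, 21, 0, 0), (0, 15, 0, 0)] (run2 chevD4 W 2 [(3, 9, 0, 0), (3, 5, 0, 0), (3, 22, 0, 0), (1, 1, 9, 0), (2, 0, 0, 0), (3, 4, 0, 0), (3, 17, 0, 0), (3, 23, 0, 0), (1, 1, 23, 0), (4, 14, 0, 0), (3, 18, 0, 0), (4, 1, 0, 0), (2, 12, 0, 0), (3, 16, 0, 0), (5, 7, 0, 0), (2, 11, 0, 0), (1, 1, 12, 0)] [1]) = true := by decide +kernel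
  refine pair_generates (a := Cd.xu 1 (1 : F)) (b := Cd.xu 2 (1 : F) * Cd.nWordElt F W)
    (Cd.xu_mem_group _ _) (mul_mem (Cd.xu_mem_group _ _) (nWordElt_mem_group Cd W)) ?_
  set K := Subgroup.closure ({Cd.xu 1 (1 : F), Cd.xu 2 (1 : F) * Cd.nWordElt F W} : Set (GL chevD4.Idx F))
  have hb : Cd.xu 2 (1 : F) * Cd.nWordElt F W ∈ K := Subgroup.subset_closure (Or.inr rfl)
  have hS := full_run2 Cd hq hW hd.1 hb [(3, 9, 0, 0), (3, 5, 0, 0), (3, 22, 0, 0), (1, 1, 9, 0), (2, 0, 0, 0), (3, 4, 0, 0), (3, 17, 0, 0), (3, 23, 0, 0), (1, 1, 23, 0), (4, 14, 0, 0), (3, 18, 0, 0), (4, 1, 0, 0), (2, 12, 0, 0), (3, 16, 0, 0), (5, 7, 0, 0), (2, 11, 0, 0), (1, 1, 12, 0)] (S := [1]) fun r hr' => by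
    rw [List.mem_singleton] at hr'
    exact hr' ▸ full_of_small Cd hq one_ne_zero (Subgroup.subset_closure (Or.inl rfl))
  have hn : Cd.nWordElt F W ∈ K := by simpa using mul_mem (inv_mem (hS 2 hd.2.1 1)) hb
  exact group_le Cd (two := false) (fun e => absurd e Bool.false_ne_true) hW hn hS hd.2.2

theorem not_one_of_gen {ζ : Fˣ} (hζ : ∀ u : Fˣ, u ∈ Subgroup.zpowers ζ) {m : ℤ}
    (hF : ∃ x : F, x ≠ 0 ∧ x ^ m ≠ 1) : (ζ : F) ^ m ≠ 1 := by
  obtain ⟨x, hx, hxm⟩ := hF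
  intro e
  apply hxm
  obtain ⟨i, hi⟩ := Subgroup.mem_zpowers_iff.mp (hζ (Units.mk0 x hx))
  have := congrArg Units.val hi
  rw [Units.val_zpow_eq_zpow_val, Units.val_mk0] at this
  rw [← this, ← zpow_mul, mul_comm, zpow_mul, e, one_zpow]

/-- Two generators in all seven types. -/
theorem main [Finite F] (D : ChevalleyDatum)
    (hD : D ∈ [chevG2, chevB2, chevD4, chevF4, chevE6, chevE7, chevE8])
    (hF : D ∈ [chevB2, chevG2] → ∃ x : F, x ≠ 0 ∧ x ≠ 1) :
    ∃ a b : ↥(D.group F), Subgroup.closure ({a, b} : Set ↥(D.group F)) = ⊤ := by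
  have hinv : ∀ x : F, x ≠ 0 → x ≠ 1 → ∃ x : F, x ≠ 0 ∧ x ^ (-1 : ℤ) ≠ 1 := fun x hx hx1 =>
    ⟨x, hx, fun e => hx1 (by rwa [zpow_neg_one, inv_eq_one] at e)⟩
  simp only [List.mem_cons, List.not_mem_nil, or_false] at hD hF
  rcases hD with rfl | rfl | rfl | rfl | rfl | rfl | rfl
  · obtain ⟨x, hx, hx1⟩ := hF (Or.inr rfl)
    refine inverted_torus (certG2.{u}) (α := 7) (β := 6) (m := 6) (L := [(0, 1)]) (W := [0, 1, 0, 1, 0, 1])
      [(0, 6, 0, 0)] [(0, 7, 0, 0), (0, 6, 0, 0)] (by decide +kernel) fun ζ hζ => ?_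
    rw [show pw chevG2 [(0, 1)] 6 = -1 by decide +kernel]
    exact not_one_of_gen hζ (hinv x hx hx1)
  · obtain ⟨x, hx, hx1⟩ := hF (Or.inl rfl)
    refine inverted_torus (certB2.{u}) (α := 4) (β := 5) (m := 5) (L := [(0, 1)]) (W := [0, 1, 0, 1])
      [(0, 5, 0, 0)] [(0, 4, 0, 0), (0, 5, 0, 0)] (by decide +kernel) fun ζ hζ => ?_
    rw [show pw chevB2 [(0, 1)] 5 = -1 by decide +kernel]
    exact not_one_of_gen hζ (hinv x hx hx1)
  · by_cases hq : ∀ a : F, a ≠ 0 → a ^ 2 = 1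
    · exact d4_small hq
    · push Not at hq
      obtain ⟨x, hx, hx2⟩ := hq
      refine inverted_torus (certD4.{u}) (α := 1) (β := 2) (m := 2) (L := [(13, -1), (12, 1)])
        (W := List.range 4) [(0, 2, 0, 0), (0, 8, 0, 0), (0, 10, 0, 0)] [(0, 1, 0, 0), (0, 2, 0, 0), (0, 18, 0, 0), (0, 8, 0, 0), (0, 14, 0, 0), (0, 10, 0, 0), (0, 22, 0, 0), (0, 21, 0, 0), (0, 5, 0, 0), (0, 15, 0, 0), (1, 1, 21, 0), (0, 11, 0, 0), (0, 20, 0, 0), (0, 16, 0, 0)] (by decide +kernel) fun ζ hζ => ?_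
      rw [show pw chevD4 [(13, -1), (12, 1)] 2 = 2 by decide +kernel]
      exact not_one_of_gen hζ ⟨x, hx, by simpa [zpow_ofNat] using hx2⟩
  · exact f4_two_gen
  · exact one_orbit (certE6.{u}) (α := 56) (g := 0) (k := 2) [(0, 47, 0, 0), (0, 59, 0, 0), (0, 52, 0, 0), (0, 39, 0, 0), (0, 37, 0, 0), (0, 36, 0, 0), (0, 8, 0, 0), (0, 28, 0, 0), (0, 23, 0, 0), (0, 11, 0, 0), (0, 56, 0, 0), (1, 47, 59, 0), (0, 64, 0, 0), (0, 69, 0, 0), (0, 54, 0, 0), (0, 40, 0, 0), (1, 47, 37, 0), (0, 48, 0, 0), (0, 60, 0, 0), (0, 15, 0, 0), (0, 29, 0, 0), (0, 24, 0, 0), (0, 12, 0, 0), (0, 19, 0, 0), (0, 32, 0, 0), (0, 34, 0, 0), (1, 47, 38, 0), (0, 49, 0, 0), (0, 25, 0, 0), (0, 13, 0, 0), (0, 20, 0, 0), (0, 6, 0, 0), (0, 27, 0, 0), (0, 22, 0, 0)] (by decide +kernel)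
  · exact one_orbit (certE7.{u}) (α := 78) (g := 0) (k := 1) [(0, 95, 0, 0), (0, 84, 0, 0), (0, 104, 0, 0), (0, 113, 0, 0), (0, 88, 0, 0), (0, 107, 0, 0), (0, 76, 0, 0), (0, 82, 0, 0), (0, 47, 0, 0), (0, 30, 0, 0), (0, 41, 0, 0), (0, 21, 0, 0), (0, 12, 0, 0), (0, 37, 0, 0), (0, 18, 0, 0), (0, 49, 0, 0), (0, 43, 0, 0), (1, 95, 82, 0), (0, 105, 0, 0), (0, 75, 0, 0), (0, 81, 0, 0), (0, 98, 0, 0), (0, 32, 0, 0), (0, 52, 0, 0), (0, 46, 0, 0), (0, 29, 0, 0), (0, 40, 0, 0), (0, 20, 0, 0), (0, 50, 0, 0), (0, 44, 0, 0), (0, 27, 0, 0), (0, 93, 0, 0), (1, 95, 32, 0), (0, 74, 0, 0), (0, 80, 0, 0), (0, 97, 0, 0), (0, 86, 0, 0), (0, 69, 0, 0), (0, 66, 0, 0), (0, 64, 0, 0), (0, 63, 0, 0), (0, 23, 0, 0), (0, 51, 0, 0), (0, 45, 0, 0), (0, 28, 0, 0), (0, 39, 0, 0), (0, 56, 0, 0), (0, 59, 0, 0), (0, 61, 0, 0)] (by decide +kernel)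
  · exact one_orbit (certE8.{u}) (α := 162) (g := 0) (k := 6) [(0, 190, 0, 0), (0, 153, 0, 0), (0, 179, 0, 0), (0, 192, 0, 0), (0, 154, 0, 0), (0, 180, 0, 0), (0, 138, 0, 0), (0, 145, 0, 0), (0, 168, 0, 0), (0, 77, 0, 0), (0, 104, 0, 0), (0, 97, 0, 0), (0, 74, 0, 0), (0, 90, 0, 0), (0, 63, 0, 0), (0, 49, 0, 0), (0, 86, 0, 0), (0, 60, 0, 0), (0, 47, 0, 0), (0, 85, 0, 0), (0, 59, 0, 0), (0, 101, 0, 0), (0, 94, 0, 0), (0, 71, 0, 0), (0, 162, 0, 0), (1, 190, 145, 0), (0, 212, 0, 0), (0, 198, 0, 0), (0, 157, 0, 0), (0, 182, 0, 0), (0, 139, 0, 0), (0, 146, 0, 0), (0, 98, 0, 0), (0, 75, 0, 0), (0, 91, 0, 0), (0, 64, 0, 0), (0, 50, 0, 0), (0, 31, 0, 0), (0, 44, 0, 0), (0, 28, 0, 0), (0, 42, 0, 0), (0, 27, 0, 0), (0, 41, 0, 0), (0, 82, 0, 0), (0, 57, 0, 0), (0, 100, 0, 0), (0, 93, 0, 0), (1, 190, 74, 0), (0, 151, 0, 0), (0, 130, 0, 0), (0, 126, 0, 0), (0, 123, 0, 0), (0, 121, 0, 0), (0, 120, 0, 0), (0, 66, 0, 0), (0, 103, 0, 0),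 (0, 96, 0, 0), (0, 73, 0, 0), (0, 89, 0, 0), (0, 62, 0, 0), (0, 102, 0, 0), (0, 95, 0, 0), (0, 72, 0, 0), (0, 88, 0, 0), (0, 109, 0, 0), (0, 113, 0, 0), (0, 116, 0, 0), (0, 118, 0, 0)] (by decide +kernel)

end Cfsg.Agent.LeadWork.TwoGenerators
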