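import Cfsg.Agent.Fusion.Abelian
import Mathlib.GroupTheory.OrderOfElement
import Mathlib.Data.ZMod.Basic

/-!
Abelian `2`-groups with pairwise distinct cyclic factors: no automorphisms of odd order.
-/

set_option autoImplicit false
set_option linter.unusedSectionVars false
set_option linter.unusedVariables false

namespace Cfsg.Agent.LeadWork.DistinctCyclic

variable {n : ℕ} {a : Fin n → ℕ}

/-- The elements killed by two in the multiples of `2 ^ k`, componentwise. -/
def Layer (a : Fin n → ℕ) (k : ℕ) (x : (i : Fin n) → ZMod (2 ^ a i)) : Prop :=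
  2 • x = 0 ∧ ∀ j, a j ≤ k → x j = 0

theorem eq_of_two_smul {m : ℕ} {u v : ZMod (2 ^ m)} (hu : 2 • u = 0) (hv : 2 • v = 0) (hu0 : u ≠ 0)
    (hv0 : v ≠ 0) : u = v := by
  have key : ∀ w : ZMod (2 ^ m), 2 • w = 0 → w ≠ 0 → 2 * w.val = 2 ^ m := by
    intro w hw hw0
    have hlt : w.val < 2 ^ m := w.val_lt
    have hd : 2 ^ m ∣ 2 * w.val := by
      rw [← ZMod.natCast_eq_zero_iff, Nat.cast_mul, ZMod.natCast_rightInverse, ← nsmul_eq_mul]
      exact hw
    obtain ⟨c, hc⟩ := hd
    have hpos : 0 < w.val := Nat.pos_of_ne_zero fun h => hw0 ((ZMod.val_eq_zero w).1 h)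
    rcases c with _ | _ | c
    · omega
    · omega
    · nlinarith
  have h1 := key u hu hu0
  have h2 := key v hv hv0
  exact ZMod.val_injective _ (by omega)

theorem layer_sub_of_not (ha : StrictMono a) {k : ℕ} {x y : (i : Fin n) → ZMod (2 ^ a i)}
    (hx : Layer a k x) (hy : Layer a k y) (hx' : ¬ Layer a (k + 1) x) (hy' : ¬ Layer a (k + 1) y) :
    Layer a (k + 1) (x - y) := by
  refine ⟨by rw [smul_sub, hx.1, hy.1, sub_zero], fun j hj => ?_⟩
  rcases Nat.lt_or_ge k (a j) with hjk | hjk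
  swap
  · simp [hx.2 j hjk, hy.2 j hjk]
  have haj : a j = k + 1 := by omega
  have hne : ∀ z : (i : Fin n) → ZMod (2 ^ a i), Layer a k z → ¬ Layer a (k + 1) z → z j ≠ 0 := by
    intro z hz hz' hzj
    refine hz' ⟨hz.1, fun i hi => ?_⟩
    rcases Nat.lt_or_ge k (a i) with h | h
    · rw [show i = j from ha.injective (by omega)]; exact hzj
    · exact hz.2 i h
  have h := eq_of_two_smul (by simpa using congrFun hx.1 j) (by simpa using congrFun hy.1 j)
    (hne x hx hx') (hne y hy hy')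
  simp [h]

/-- A multiple of `2 ^ k` killed by two lies in the layer. -/
theorem layer_iff (k : ℕ) (x : (i : Fin n) → ZMod (2 ^ a i)) :
    Layer a k x ↔ 2 • x = 0 ∧ ∃ y, 2 ^ k • y = x := by
  refine ⟨fun h => ⟨h.1, ?_⟩, fun ⟨h1, y, hy⟩ => ⟨h1, fun j hj => ?_⟩⟩
  · refine ⟨fun j => ((x j).val / 2 ^ k : ℕ), funext fun j => ?_⟩
    by_cases h0 : x j = 0
    · simp [h0]
    have hk : k < a j := lt_of_not_ge fun h' => h0 (h.2 j h')
    have h2 : 2 • x j = 0 := by simpa using congrFun h.1 j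
    have hv : ((2 ^ (a j - 1) : ℕ) : ZMod (2 ^ a j)) = x j := by
      refine eq_of_two_smul ?_ h2 ?_ h0
      · rw [nsmul_eq_mul, ← Nat.cast_mul, ← pow_succ', show a j - 1 + 1 = a j by omega,
          ZMod.natCast_self]
      · rw [Ne, ZMod.natCast_eq_zero_iff]
        intro hd
        have := Nat.le_of_dvd (pow_pos two_pos _) hd
        have := Nat.pow_lt_pow_right (a := 2) (by norm_num) (show a j - 1 < a j by omega)
        omega
    have hval : (x j).val = 2 ^ (a j - 1) := by
      rw [← hv, ZMod.val_natCast, Nat.mod_eq_of_lt]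
      exact Nat.pow_lt_pow_right (by norm_num) (by omega)
    rw [Pi.smul_apply, nsmul_eq_mul, ← Nat.cast_mul, Nat.mul_div_cancel' ?_, ZMod.natCast_rightInverse]
    rw [hval]; exact pow_dvd_pow 2 (by omega)
  · rw [← hy, Pi.smul_apply, nsmul_eq_mul]
    have : ((2 ^ k : ℕ) : ZMod (2 ^ a j)) = 0 := (ZMod.natCast_eq_zero_iff _ _).2 (pow_dvd_pow 2 hj)
    rw [this, zero_mul]

variable (α : AddAut ((i : Fin n) → ZMod (2 ^ a i)))

theorem fixed_of_add_order {x c : (i : Fin n) → ZMod (2 ^ a i)} {m : ℕ} (hm : Odd m)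
    (hαm : ∀ z, (α : ((i : Fin n) → ZMod (2 ^ a i)) → _)^[m] z = z) (hc : α x = x + c) (hcf : α c = c)
    (hc2 : 2 • c = 0) : α x = x := by
  have h : ∀ j : ℕ, (α : ((i : Fin n) → ZMod (2 ^ a i)) → _)^[j] x = x + j • c := by
    intro j
    induction j with
    | zero => simp
    | succ j ih => rw [Function.iterate_succ_apply', ih, map_add, map_nsmul, hc, hcf, succ_nsmul']; abel
  have h1 := h m
  rw [hαm, left_eq_add] at h1
  obtain ⟨t, rfl⟩ := hm
  rw [add_nsmul, mul_comm, mul_nsmul', hc2, one_nsmul, smul_zero, zero_add] at h1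
  rw [hc, h1, add_zero]

theorem layer_fixed (ha : StrictMono a) {m : ℕ} (hm : Odd m)
    (hαm : ∀ z, (α : ((i : Fin n) → ZMod (2 ^ a i)) → _)^[m] z = z) :
    ∀ x : (i : Fin n) → ZMod (2 ^ a i), Layer a 0 x → α x = x := by
  have hinv : ∀ k z, Layer a k (α z) ↔ Layer a k z := by
    intro k z
    rw [layer_iff, layer_iff, ← map_nsmul, EmbeddingLike.map_eq_zero_iff]
    refine and_congr_right fun _ => ⟨fun ⟨y, hy⟩ => ⟨α.symm y, ?_⟩, fun ⟨y, hy⟩ => ⟨α y, ?_⟩⟩
    · apply α.injective; rw [map_nsmul, AddEquiv.apply_symm_apply, hy]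
    · rw [← map_nsmul, hy]
  suffices H : ∀ (d k : ℕ), (∀ j, a j ≤ k + d) → ∀ x, Layer a k x → α x = x from
    H (∑ i, a i) 0 (fun j => le_add_left (Finset.single_le_sum (fun _ _ => Nat.zero_le _) (Finset.mem_univ j)))
  intro d
  induction d with
  | zero =>
    intro k hk x hx
    rw [show x = 0 from funext fun j => hx.2 j (by simpa using hk j), map_zero]
  | succ d ih =>
    intro k hk x hx
    have ih' := ih (k + 1) (fun j => by have := hk j; omega)
    by_cases hx' : Layer a (k + 1) x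
    · exact ih' x hx'
    have hy' : ¬ Layer a (k + 1) (α x) := fun h => hx' ((hinv _ _).1 h)
    have hc := layer_sub_of_not ha ((hinv k x).2 hx) hx hy' hx'
    exact fixed_of_add_order α hm hαm (c := α x - x) (by abel) (ih' _ hc) hc.1

theorem eq_id_of_odd (ha : StrictMono a) {m : ℕ} (hm : Odd m)
    (hαm : ∀ z, (α : ((i : Fin n) → ZMod (2 ^ a i)) → _)^[m] z = z)
    (x : (i : Fin n) → ZMod (2 ^ a i)) : α x = x := by
  suffices H : ∀ (k : ℕ) x, 2 ^ k • x = 0 → α x = x by
    refine H (∑ i, a i) x (funext fun j => ?_)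
    rw [Pi.smul_apply, nsmul_eq_mul, Pi.zero_apply,
      (ZMod.natCast_eq_zero_iff _ _).2 (pow_dvd_pow 2 (Finset.single_le_sum (fun _ _ => Nat.zero_le _)
        (Finset.mem_univ j))), zero_mul]
  intro k
  induction k with
  | zero => intro x hx; rw [pow_zero, one_nsmul] at hx; rw [hx, map_zero]
  | succ k ih =>
    intro x hx
    have h2 := ih (2 • x) (by rwa [← mul_nsmul', ← pow_succ])
    have hc2 : 2 • (α x - x) = 0 := by rw [smul_sub, ← map_nsmul, h2, sub_self]
    have hL : Layer a 0 (α x - x) := ⟨hc2, fun j hj => by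
      haveI : Subsingleton (ZMod (2 ^ a j)) := by
        rw [Nat.le_zero.1 hj, pow_zero]; infer_instance
      exact Subsingleton.elim _ _⟩
    exact fixed_of_add_order α hm hαm (c := α x - x) (by abel) (layer_fixed α ha hm hαm _ hL) hc2

end Cfsg.Agent.LeadWork.DistinctCyclic
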