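/-
Centralisers in a Chevalley group in characteristic two of products of root elements for dominant roots.
-/
import Cfsg.Agent.Chev.BNPairChev
import Cfsg.Agent.Chev.Parabolic

set_option autoImplicit false

universe u

namespace Cfsg.Agent.LeadWork.RootCent

open Cfsg.Lie Cfsg.Agent.Chev
open scoped Matrix

/-- The combinatorial conditions: `R` are dominant roots, each the only dominant root of its class under `len`,
and `S` the nodes orthogonal to all of them. -/
structure CentData (D : ChevalleyDatum) (R S : List ℕ) (len : ℕ → Bool) : Prop where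
  root_lt : ∀ r ∈ R, r < D.nroots
  nodes_lt : ∀ i ∈ S, i < D.rank
  len_refl : ∀ i < D.rank, ∀ r < D.nroots, len (D.reflectRoot i r) = len r
  dom : ∀ r ∈ R, ∀ i < D.rank, 0 ≤ D.cartan i r
  unique : ∀ r ∈ R, ∀ s < D.nroots, len s = len r → (∀ i < D.rank, 0 ≤ D.cartan i s) → s = r
  orth : ∀ i < D.rank, (∀ r ∈ R, D.cartan i r = 0) → i ∈ S
  cover : ∀ i < D.rank, i ∉ S → ∃ r ∈ R, ∀ k < D.rank, D.cartan k r = if k = i then 1 else 0
  odd : ∀ s < D.nroots, ∃ j < D.rank, D.cartan j s % 2 ≠ 0
  comm : ∀ r ∈ R, ∀ s < D.nroots, D.IsPosRoot s ∨ (∃ i ∈ S, s = D.simple i ∨ s = D.neg (D.simple i)) → s ≠ r →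
    r ≠ D.neg s ∧ ∀ c ∈ D.commTerms s r, c.2.1 % 2 = 0

variable {D : ChevalleyDatum} {R S : List ℕ} {len : ℕ → Bool} (H : CentData D R S len)
  {F : Type u} [Field F] (C : Cert.{u} D)
include H C

theorem len_act {L : List ℕ} (hL : ∀ i ∈ L, i < D.rank) {r : ℕ} (hr : r < D.nroots) :
    len (act D L r) = len r := by
  induction L with
  | nil => rfl
  | cons a L ih =>
    rw [List.forall_mem_cons] at hL
    rw [act_cons, H.len_refl a hL.1 _ (C.act_lt hL.2 hr), ih hL.2]

/-- A dominant root is the highest one of its class. -/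
theorem coef_le {r : ℕ} (hr : r ∈ R) {s : ℕ} (hs : s < D.nroots) (hlen : len s = len r) :
    ∀ k < D.rank, C.coef s k ≤ C.coef r k := by
  classical
  by_contra hc
  let V := (Finset.range D.nroots).filter fun s => len s = len r ∧ ¬ ∀ k < D.rank, C.coef s k ≤ C.coef r k
  obtain ⟨m, hm, hmax⟩ := V.exists_max_image C.ht
    ⟨s, Finset.mem_filter.mpr ⟨Finset.mem_range.mpr hs, hlen, hc⟩⟩
  rw [Finset.mem_filter, Finset.mem_range] at hm
  obtain ⟨hmlt, hml, hmc⟩ := hm
  by_cases hdom : ∀ i < D.rank, 0 ≤ D.cartan i m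
  · exact hmc (fun k hk => (H.unique r hr m hmlt hml hdom) ▸ le_rfl)
  · push Not at hdom
    obtain ⟨i, hi, hneg⟩ := hdom
    have h1 := hmax (D.reflectRoot i m) (Finset.mem_filter.mpr ⟨Finset.mem_range.mpr (C.refl_lt i hi m hmlt),
      (H.len_refl i hi m hmlt).trans hml, fun h => hmc fun k hk => by
        have h2 := h k hk
        rw [C.coef_refl i hi m hmlt k hk] at h2
        split_ifs at h2 <;> omega⟩)
    rw [C.ht_refl hi hmlt] at h1
    omega

/-- A word fixing the roots of `R` can invert only nodes of `S`. -/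
theorem mem_of_inverts {L : List ℕ} (hL : ∀ i ∈ L, i < D.rank) (hfix : ∀ r ∈ R, act D L r = r) {i : ℕ}
    (hi : i < D.rank) (hneg : D.IsNegRoot (act D L (D.simple i))) : i ∈ S := by
  refine H.orth i hi fun r hr => ?_
  by_contra hne
  have hpos : 0 < D.cartan i r := lt_of_le_of_ne (H.dom r hr i hi) (Ne.symm hne)
  have hr' := H.root_lt r hr
  have hp := C.simple_lt i hi
  have hlen : len (act D L (D.reflectRoot i r)) = len r := by
    rw [len_act H C hL (C.refl_lt i hi r hr'), H.len_refl i hi r hr']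
  have hnp := (C.negRoot_iff _ (C.act_lt hL hp)).mp hneg
  have hzero : ∀ k < D.rank, C.coef (act D L (D.simple i)) k = 0 := by
    intro k hk
    have h1 := coef_le H C hr (C.act_lt hL (C.refl_lt i hi r hr')) hlen k hk
    have e1 := C.act_coef hL (C.refl_lt i hi r hr') k hk
    have e2 := C.act_coef hL hr' k hk
    rw [hfix r hr] at e2
    rw [e1, Finset.sum_congr rfl fun j hj => by
      rw [C.coef_refl i hi r hr' j (Finset.mem_range.mp hj), sub_mul, ite_mul, zero_mul],
      Finset.sum_sub_distrib, ← e2, Finset.sum_ite_eq', if_pos (Finset.mem_range.mpr hi)] at h1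
    have h2 := hnp k hk
    nlinarith
  exact C.not_pos_and_neg ((C.pos_iff _ (C.act_lt hL hp)).mpr fun k hk => (hzero k hk).ge) hneg

variable (R S) in
omit H in
/-- The product of the root elements. -/
noncomputable def zElt (c : ℕ → F) : GL D.Idx F := C.wu (R.map fun r => (r, c r))

variable (S) in
omit H C in
/-- The negative fundamental roots of the nodes in `S`. -/
def negS : ℕ → Prop := fun s => ∃ i ∈ S, s = D.neg (D.simple i)

variable (S F) in
omit H C in
/-- The subgroup generated by `U` and the root groups of `S`. -/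
def levPar : Subgroup (GL D.Idx F) := D.posUnipotent F ⊔ spanGroup D F (negS (D := D) S)

variable [CharP F 2]

theorem xu_comm_R {s : ℕ} (hs : s < D.nroots)
    (h : D.IsPosRoot s ∨ ∃ i ∈ S, s = D.simple i ∨ s = D.neg (D.simple i)) (t : F) {r : ℕ} (hr : r ∈ R) (v : F) :
    Commute (C.xu s t) (C.xu r v) := by
  by_cases he : s = r
  · subst he
    exact (C.xu_add _ _ _).trans ((congrArg _ (add_comm t v)).trans (C.xu_add _ _ _).symm)
  obtain ⟨hn, hc⟩ := H.comm r hr s hs h he
  have e := C.conj_xu hs (H.root_lt r hr) (Ne.symm he) hn t v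
  have hw : C.wu (D.commWord F s r (-t) v) = 1 := by
    refine (List.prod_eq_one fun x hx => ?_)
    obtain ⟨p, hp, rfl⟩ := List.mem_map.mp hx
    obtain ⟨c, hcm, rfl⟩ := List.mem_map.mp hp
    have h0 : ((c.2.1 : ℤ) : F) = 0 := (CharP.intCast_eq_zero_iff F 2 _).mpr (Int.dvd_of_emod_eq_zero (hc c hcm))
    simp [h0, C.xu_zero]
  rw [hw, mul_one] at e
  exact mul_inv_eq_iff_eq_mul.mp e

theorem commute_of_mem {g : GL D.Idx F} (hg : g ∈ levPar S F) {r : ℕ} (hr : r ∈ R) (v : F) :
    Commute g (C.xu r v) := by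
  have h : levPar (D := D) S F ≤ Subgroup.centralizer {C.xu r v} := by
    refine sup_le (?_ : spanGroup D F D.IsPosRoot ≤ _) ?_
    · exact C.span_le fun s hs t => Subgroup.mem_centralizer_singleton_iff.mpr (xu_comm_R H C hs.1 (Or.inl hs) t hr v)
    · refine C.span_le fun s ⟨i, hi, e⟩ t => Subgroup.mem_centralizer_singleton_iff.mpr ?_
      exact xu_comm_R H C (e ▸ C.neg_lt _ (C.simple_lt i (H.nodes_lt i hi))) (Or.inr ⟨i, hi, Or.inr e⟩) t hr v
  exact Subgroup.mem_centralizer_singleton_iff.mp (h hg)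

theorem commute_zElt {g : GL D.Idx F} (h : ∀ r ∈ R, ∀ v : F, Commute g (C.xu r v)) (c : ℕ → F) :
    Commute g (zElt R C c) := by
  refine Commute.list_prod_right _ _ fun x hx => ?_
  obtain ⟨p, hp, rfl⟩ := List.mem_map.mp hx
  obtain ⟨r, hr, rfl⟩ := List.mem_map.mp hp
  exact h r hr _

theorem node_mem {i : ℕ} (hi : i ∈ S) (t : F) :
    C.xu (D.simple i) t ∈ levPar S F ∧ C.xu (D.neg (D.simple i)) t ∈ levPar S F :=
  ⟨Subgroup.mem_sup_left (C.xu_mem_pos (C.pos_simple (H.nodes_lt i hi)) t),
    Subgroup.mem_sup_right (C.xu_mem_span (P := negS S) ⟨i, hi, rfl⟩ t)⟩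

theorem nu_mem {i : ℕ} (hi : i ∈ S) (t : F) : C.nu (D.simple i) t ∈ levPar S F := by
  rw [C.nu_eq]
  exact mul_mem (mul_mem (node_mem H C hi _).1 (node_mem H C hi _).2) (node_mem H C hi _).1

/-- A diagonal element fixing the root elements lies in the subgroup. -/
theorem diagonal_mem {h : GL D.Idx F} (hh : h ∈ D.diagonalSubgroup F)
    (hfix : ∀ r ∈ R, Commute h (C.xu r (1 : F))) : h ∈ levPar S F := by
  obtain ⟨c, hc, rfl⟩ := C.mem_diagonal_iff.mp hh
  have hχ : IsChar D (∏ k ∈ Finset.range D.rank, cartChar D k (c k)) :=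
    Finset.prod_induction _ (IsChar D) (fun a b ha hb => ha.mul hb) isChar_one fun k hk =>
      C.isChar_cartChar (Finset.mem_range.mp hk) (hc k (Finset.mem_range.mp hk))
  have hcoe : (C.torusElt c : Matrix D.Idx D.Idx F) = dMat D (∏ k ∈ Finset.range D.rank, cartChar D k (c k)) := by
    rw [C.coe_torusElt hc]; congr 1; funext s; exact (Finset.prod_apply s _ _).symm
  have hone : ∀ i < D.rank, i ∉ S → c i = 1 := by
    intro i hi hiS
    obtain ⟨r, hr, hcart⟩ := H.cover i hi hiS
    have e1 : C.torusElt c * C.xu r (1 : F) =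
        C.xu r ((∏ k ∈ Finset.range D.rank, cartChar D k (c k)) r * 1) * C.torusElt c :=
      Units.ext (by simp [hcoe, C.dMat_conj hχ (H.root_lt r hr) (1 : F)])
    rw [(hfix r hr).eq] at e1
    have e2 := mul_right_cancel e1
    rw [mul_one] at e2
    have e3 : (∏ k ∈ Finset.range D.rank, cartChar D k (c k)) r = c i := by
      rw [Finset.prod_apply, Finset.prod_eq_single i]
      · simp [cartChar, hcart i hi]
      · intro k hk hki; simp [cartChar, hcart k (Finset.mem_range.mp hk), hki]
      · intro h; exact absurd (Finset.mem_range.mpr hi) h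
    rw [e3] at e2
    have e4 : C.xu r (1 - c i) = 1 := by
      rw [sub_eq_add_neg, ← C.xu_add, e2, C.xu_add, add_neg_cancel, C.xu_zero]
    exact (sub_eq_zero.mp (C.xu_eq_one (H.root_lt r hr) e4)).symm
  show C.wu _ ∈ _
  have key : ∀ L : List ℕ, (∀ k ∈ L, k < D.rank) →
      C.wu (L.flatMap fun k => D.hWord (D.simple k) (c k)) ∈ levPar S F := by
    intro L
    induction L with
    | nil => intro _; simp [Cert.wu]
    | cons k L ih =>
      intro hL
      rw [List.flatMap_cons, C.wu_append]
      refine mul_mem ?_ (ih fun j hj => hL j (List.mem_cons_of_mem _ hj))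
      show C.hu (D.simple k) (c k) ∈ _
      by_cases hkS : k ∈ S
      · rw [C.hu_eq]; exact mul_mem (nu_mem H C hkS _) (nu_mem H C hkS _)
      · rw [hone k (hL k List.mem_cons_self) hkS, C.hu_one]; exact one_mem _
  exact key _ fun k hk => List.mem_range.mp hk

/-- Elements of `N` centralising the root elements. -/
theorem monomial_mem {M : CoxeterMatrix (Fin D.rank)} (hM : CoxOK D M) :
    ∀ m ∈ D.monomialSubgroup F, (∀ r ∈ R, Commute m (C.xu r (1 : F))) → m ∈ levPar S F := by
  suffices key : ∀ k, ∀ m ∈ D.monomialSubgroup F, invCount D F m = k →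
      (∀ r ∈ R, Commute m (C.xu r (1 : F))) → m ∈ levPar S F from fun m hm h => key _ m hm rfl h
  intro k
  induction k using Nat.strong_induction_on with
  | _ k ih =>
    intro m hm hk hfix
    by_cases hH : m ∈ D.diagonalSubgroup F
    · exact diagonal_mem H C hH hfix
    obtain ⟨i, hi, hinv⟩ := C.exists_descent hM hm hH
    obtain ⟨L, ⟨h, hh, e⟩, hconj⟩ := C.monomial_conj_xu hM hm
    have hLlt := C.fin_word_lt L
    have hfix' : ∀ r ∈ R, act D (L.map Fin.val) r = r := by
      intro r hr
      obtain ⟨c, hc, ec⟩ := hconj r (H.root_lt r hr)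
      have h1 : C.xu r (1 : F) = C.xu (act D (L.map Fin.val) r) (c * 1) := by
        rw [← ec, (hfix r hr).eq, mul_inv_cancel_right]
      by_contra hne
      obtain ⟨j, hj, hodd⟩ := H.odd r (H.root_lt r hr)
      have h2 := congrArg (fun g : GL D.Idx F => ((g : Matrix D.Idx D.Idx F) *ᵥ hv D F j) (Sum.inr ⟨r, H.root_lt r hr⟩)) h1
      simp only [C.coe_xu, x_mulVec_hv (H.root_lt r hr) hj, x_mulVec_hv (C.act_lt hLlt (H.root_lt r hr)) hj] at h2
      simp [hv, rv, Ne.symm hne] at h2
      exact hodd (Int.emod_eq_zero_of_dvd ((CharP.intCast_eq_zero_iff F 2 _).mp h2))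
    have hneg := (C.inverts_iff (C.pos_simple hi) (C.act_lt hLlt (C.simple_lt i hi))
      (C.map_rootSubgroup (hconj _ (C.simple_lt i hi)))).mp hinv
    have hiS := mem_of_inverts H C hLlt hfix' hi hneg
    have hnu := nu_mem H C hiS (1 : F)
    have h2 := C.invCount_descend hM hi (C.isRefl_nu_inv hi) hm hinv
    have h3 := ih _ (by omega) (m * (C.nu (D.simple i) (1 : F))⁻¹)
      (mul_mem hm (inv_mem (C.nu_mem_monomial hi))) rfl
      fun r hr => (hfix r hr).mul_left (commute_of_mem H C (inv_mem hnu) hr 1)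
    simpa using mul_mem h3 hnu

/-- The centraliser. -/
theorem centralizer_eq {M : CoxeterMatrix (Fin D.rank)} (hM : CoxOK D M)
    (huniq : ∀ m ∈ D.monomialSubgroup F, Commute m (zElt R C fun _ => 1) → ∀ r ∈ R, Commute m (C.xu r (1 : F)))
    {t : GL D.Idx F} (ht : t = zElt R C fun _ => 1) :
    D.group F ⊓ Subgroup.centralizer {t} = levPar S F := by
  subst ht
  refine le_antisymm ?_ (le_inf ?_ ?_)
  · intro g hg
    obtain ⟨hgG, hgz⟩ := Subgroup.mem_inf.mp hg
    rw [Subgroup.mem_centralizer_singleton_iff] at hgz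
    obtain ⟨n, hn, hcell⟩ := C.exists_bruhat hM hgG
    obtain ⟨b, hb, w, hw, rfl⟩ := C.exists_canonical hM hn hcell
    obtain ⟨a, ha, h, hh, rfl⟩ := C.mem_borel.mp hb
    have haK : a ∈ levPar S F := Subgroup.mem_sup_left ha
    have hwK : w ∈ levPar S F := Subgroup.mem_sup_left (C.span_mono (fun r hr => hr.1) hw)
    have hca := commute_zElt H C (fun r hr v => commute_of_mem H C haK hr v) (fun _ => (1 : F))
    have hcw := commute_zElt H C (fun r hr v => commute_of_mem H C hwK hr v) (fun _ => (1 : F))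
    have hm : Commute (h * n) (zElt R C fun _ => (1 : F)) := by
      have h1 := (hca.inv_left.mul_left (show Commute (a * h * n * w) _ from hgz)).mul_left hcw.inv_left
      rwa [show a⁻¹ * (a * h * n * w) * w⁻¹ = h * n by group] at h1
    have hmN := mul_mem (C.diagonal_le_monomial hh) hn
    have hmK := monomial_mem H C hM _ hmN (huniq _ hmN hm)
    have := mul_mem (mul_mem haK hmK) hwK
    simpa [mul_assoc] using this
  · refine sup_le (C.pos_le_borel.trans C.borel_le_group) (C.span_le fun s _ v => C.xu_mem_group s v)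
  · exact fun g hg => Subgroup.mem_centralizer_singleton_iff.mpr
      (commute_zElt H C (fun r hr v => commute_of_mem H C hg hr v) _)

end Cfsg.Agent.LeadWork.RootCent
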