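/-
The centralisers of the highest root elements in characteristic two, and of their product in type F4.
-/
import Cfsg.Agent.LeadWork.RootCentralizer
import Cfsg.Agent.Chev.Certs
import Cfsg.Agent.Chev.CoxCheck
import Cfsg.Prelude.Def_LieChev

set_option autoImplicit false

universe u

namespace Cfsg.Agent.LeadWork.RootCent

open Cfsg.Lie Cfsg.Agent.Chev
open scoped Matrix

variable {D : ChevalleyDatum} {R S : List ℕ} {len : ℕ → Bool}
  {F : Type u} [Field F] [CharP F 2]

theorem cast_odd {a : ℤ} (h : a % 2 ≠ 0) : (a : F) ≠ 0 := fun e =>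
  h (Int.emod_eq_zero_of_dvd ((CharP.intCast_eq_zero_iff F 2 a).mp e))

/-- A single root element determines its root. -/
theorem uniq_single {r : ℕ} (H : CentData D [r] S len) (C : Cert.{u} D) {m : GL D.Idx F}
    (hm : Commute m (zElt [r] C fun _ => (1 : F))) : ∀ r' ∈ [r], Commute m (C.xu r' (1 : F)) := by
  intro r' hr'
  obtain rfl := List.mem_singleton.mp hr'
  simpa [zElt, Cert.wu] using hm

/-- A product of two root elements from different classes determines them. -/
theorem uniq_pair {r r' : ℕ} (H : CentData D [r, r'] S len) (hlen : len r ≠ len r')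
    (hchain : D.chainEntry r r' = []) (hrr1 : r' ≠ D.neg r) (C : Cert.{u} D) {M : CoxeterMatrix (Fin D.rank)} (hM : CoxOK D M)
    (j : ℕ) (hj : j < D.rank) (hjr : D.cartan j r = 1) (hjr' : D.cartan j r' = 0)
    {m : GL D.Idx F} (hmN : m ∈ D.monomialSubgroup F) (hm : Commute m (zElt [r, r'] C fun _ => (1 : F))) :
    ∀ s ∈ [r, r'], Commute m (C.xu s (1 : F)) := by
  have hr := H.root_lt r (by simp)
  have hr' := H.root_lt r' (by simp)
  obtain ⟨L, -, hconj⟩ := C.monomial_conj_xu hM hmN
  have hL := C.fin_word_lt L
  set act' := fun x => act D (L.map Fin.val) x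
  have hs := C.act_lt hL hr
  have hs' := C.act_lt hL hr'
  have hls := len_act H C hL hr
  have hls' := len_act H C hL hr'
  have hchain' : D.chainEntry (act D (L.map Fin.val) r) (act D (L.map Fin.val) r') = [] := by
    clear hconj hs hs' hls hls'
    induction L with
    | nil => exact hchain
    | cons a L ih =>
      rw [List.map_cons, act_cons, act_cons,
        C.chain_equiv a a.isLt _ (C.act_lt (C.fin_word_lt L) hr) _ (C.act_lt (C.fin_word_lt L) hr'),
        ih (C.fin_word_lt L)]
      rfl
  obtain ⟨a, -, ea⟩ := hconj r hr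
  obtain ⟨b, -, eb⟩ := hconj r' hr'
  have hz : C.xu (act D (L.map Fin.val) r) (a * 1) * C.xu (act D (L.map Fin.val) r') (b * 1) =
      C.xu r (1 : F) * C.xu r' (1 : F) := by
    have h1 : m * (C.xu r (1 : F) * C.xu r' (1 : F)) * m⁻¹ = C.xu r (1 : F) * C.xu r' (1 : F) := by
      have h2 : zElt [r, r'] C (fun _ => (1 : F)) = C.xu r (1 : F) * C.xu r' (1 : F) := by simp [zElt, Cert.wu]
      rw [h2] at hm
      rw [hm.eq, mul_inv_cancel_right]
    rw [← ea, ← eb]
    conv_rhs => rw [← h1]
    group
  set s := act D (L.map Fin.val) r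
  set s' := act D (L.map Fin.val) r'
  have hss : s' ≠ s := fun e => hlen (hls.symm.trans (by rw [← e]; exact hls'))
  have hssn : s' ≠ D.neg s := by
    intro e
    refine hrr1 ?_
    have e' : act D (L.map Fin.val) r' = act D (L.map Fin.val) (D.neg r) := by rw [C.act_neg hL hr]; exact e
    have h3 := congrArg (act D (L.map Fin.val).reverse) e'
    rwa [act_reverse_left C hL hr', act_reverse_left C hL (C.neg_lt r hr)] at h3
  have hcol : ∀ x y c d, x < D.nroots → y < D.nroots → y ≠ x → y ≠ D.neg x → D.chainEntry x y = [] → ∀ k < D.rank,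
      ((C.xu x c * C.xu y d : GL D.Idx F) : Matrix D.Idx D.Idx F) *ᵥ hv D F k =
        hv D F k + (-((D.cartan k x : ℤ) : F) * c) • rv D F x + (-((D.cartan k y : ℤ) : F) * d) • rv D F y := by
    intro x y c d hx hy hne hnn hxy k hk
    rw [Units.val_mul, ← Matrix.mulVec_mulVec, C.coe_xu, C.coe_xu, x_mulVec_hv hy hk, Matrix.mulVec_add,
      x_mulVec_hv hx hk, Matrix.mulVec_smul, C.x_mulVec_rv hx hy hne hnn, hxy]
    simp
  have hrr0 : r' ≠ r := fun e => hlen (by rw [e])
  have hrow : ∀ k < D.rank, ∀ x, ∀ hx : x < D.nroots,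
      (-((D.cartan k s : ℤ) : F) * (a * 1)) * (if x = s then 1 else 0) +
        (-((D.cartan k s' : ℤ) : F) * (b * 1)) * (if x = s' then 1 else 0) =
      (-((D.cartan k r : ℤ) : F) * 1) * (if x = r then 1 else 0) +
        (-((D.cartan k r' : ℤ) : F) * 1) * (if x = r' then 1 else 0) := by
    intro k hk x hx
    have h1 := congrArg (fun g : GL D.Idx F => ((g : Matrix D.Idx D.Idx F) *ᵥ hv D F k) (Sum.inr ⟨x, hx⟩)) hz
    simp only [hcol s s' _ _ hs hs' hss hssn hchain' k hk, hcol r r' _ _ hr hr' hrr0 hrr1 hchain k hk] at h1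
    simp only [hv, rv, Pi.add_apply, Pi.smul_apply, Sum.elim_inr, zero_add, smul_eq_mul] at h1
    exact h1
  have hsr : s = r := by
    by_contra hne
    have h1 := hrow j hj r hr
    have hne' : r ≠ s' := fun e => hlen (by rw [e]; exact hls')
    rw [if_neg (Ne.symm hne), if_neg hne', if_pos rfl, if_neg (Ne.symm hrr0), hjr] at h1
    simp at h1
  have hsr' : s' = r' := by
    by_contra hne
    obtain ⟨k, hk, hodd⟩ := H.odd r' hr'
    have h1 := hrow k hk r' hr'
    have hne' : r' ≠ s := by rw [hsr]; exact hrr0
    rw [if_neg hne', if_neg (Ne.symm hne), if_neg hrr0, if_pos rfl] at h1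
    simp only [mul_zero, add_zero, mul_one, zero_add] at h1
    exact cast_odd hodd (neg_eq_zero.mp h1.symm)
  have ha : a * 1 = 1 := by
    have h1 := hrow j hj r hr
    rw [hsr, hsr', if_pos rfl, if_neg (Ne.symm hrr0), hjr] at h1
    simpa using h1
  rw [hsr, hsr', ha] at hz
  rw [hsr] at ea
  rw [hsr'] at eb
  have e1 : Commute m (C.xu r (1 : F)) := by
    have := ea 1
    rw [ha] at this
    exact mul_inv_eq_iff_eq_mul.mp this
  have e2 : Commute m (C.xu r' (1 : F)) := by
    have := eb 1
    rw [mul_left_cancel hz] at this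
    exact mul_inv_eq_iff_eq_mul.mp this
  intro x hx
  rcases List.mem_cons.mp hx with rfl | hx
  · exact e1
  · obtain rfl := List.mem_singleton.mp hx
    exact e2

theorem levPar_eq_closure {S T : List ℕ} (h : ∀ s, s ∈ T ↔ ∃ i ∈ S, s = D.neg (D.simple i)) :
    levPar (D := D) S F = D.posUnipotent F ⊔
      Subgroup.closure {g : GL D.Idx F | ∃ s ∈ T, ∃ c : F, (g : Matrix D.Idx D.Idx F) = D.x F s c} := by
  unfold levPar spanGroup negS
  congr 2
  ext g
  exact ⟨fun ⟨s, t, hs, e⟩ => ⟨s, (h s).mpr hs, t, e⟩, fun ⟨s, hs, t, e⟩ => ⟨s, t, (h s).mp hs, e⟩⟩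

theorem closure_cons (s : ℕ) (T : List ℕ) :
    Subgroup.closure {g : GL D.Idx F | ∃ x ∈ s :: T, ∃ c : F, (g : Matrix D.Idx D.Idx F) = D.x F x c} =
      D.rootSubgroup F s ⊔ Subgroup.closure {g : GL D.Idx F | ∃ x ∈ T, ∃ c : F, (g : Matrix D.Idx D.Idx F) = D.x F x c} := by
  rw [ChevalleyDatum.rootSubgroup, ← Subgroup.closure_union]
  congr 1
  ext g
  simp [or_and_right, exists_or]

theorem closure_nil :
    Subgroup.closure {g : GL D.Idx F | ∃ x ∈ ([] : List ℕ), ∃ c : F, (g : Matrix D.Idx D.Idx F) = D.x F x c} = ⊥ := by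
  simp

/-- The long roots of type F4. -/
def longF4 (r : ℕ) : Bool :=
  [0, 1, 2, 4, 5, 6, 15, 16, 17, 21, 22, 23, 24, 25, 26, 30, 31, 32, 41, 42, 43, 45, 46, 47].contains r

theorem dataE6 : CentData chevE6 [71] [0, 2, 3, 4, 5] (fun _ => true) where
  root_lt := by decide +kernel
  nodes_lt := by decide +kernel
  len_refl := by decide +kernel
  dom := by decide +kernel
  unique := by decide +kernel
  orth := by decide +kernel
  cover := by decide +kernel
  odd := by decide +kernel
  comm := by decide +kernel

theorem dataE7 : CentData chevE7 [125] [1, 2, 3, 4, 5, 6] (fun _ => true) where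
  root_lt := by decide +kernel
  nodes_lt := by decide +kernel
  len_refl := by decide +kernel
  dom := by decide +kernel
  unique := by decide +kernel
  orth := by decide +kernel
  cover := by decide +kernel
  odd := by decide +kernel
  comm := by decide +kernel

theorem dataE8 : CentData chevE8 [239] [0, 1, 2, 3, 4, 5, 6] (fun _ => true) where
  root_lt := by decide +kernel
  nodes_lt := by decide +kernel
  len_refl := by decide +kernel
  dom := by decide +kernel
  unique := by decide +kernel
  orth := by decide +kernel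
  cover := by decide +kernel
  odd := by decide +kernel
  comm := by decide +kernel

theorem dataF4long : CentData chevF4 [47] [0, 1, 2] longF4 where
  root_lt := by decide +kernel
  nodes_lt := by decide +kernel
  len_refl := by decide +kernel
  dom := by decide +kernel
  unique := by decide +kernel
  orth := by decide +kernel
  cover := by decide +kernel
  odd := by decide +kernel
  comm := by decide +kernel

theorem dataF4short : CentData chevF4 [44] [1, 2, 3] longF4 where
  root_lt := by decide +kernel
  nodes_lt := by decide +kernel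
  len_refl := by decide +kernel
  dom := by decide +kernel
  unique := by decide +kernel
  orth := by decide +kernel
  cover := by decide +kernel
  odd := by decide +kernel
  comm := by decide +kernel

theorem dataF4both : CentData chevF4 [47, 44] [1, 2] longF4 where
  root_lt := by decide +kernel
  nodes_lt := by decide +kernel
  len_refl := by decide +kernel
  dom := by decide +kernel
  unique := by decide +kernel
  orth := by decide +kernel
  cover := by decide +kernel
  odd := by decide +kernel
  comm := by decide +kernel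

theorem dataG2long : CentData chevG2 [11] [0] (fun r => [0, 1, 5, 6, 10, 11].contains r) where
  root_lt := by decide +kernel
  nodes_lt := by decide +kernel
  len_refl := by decide +kernel
  dom := by decide +kernel
  unique := by decide +kernel
  orth := by decide +kernel
  cover := by decide +kernel
  odd := by decide +kernel
  comm := by decide +kernel

end Cfsg.Agent.LeadWork.RootCent
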