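/-
The centraliser of a short root involution of G2 in characteristic two.
-/
import Cfsg.Agent.LeadWork.RootCentralizerData

set_option autoImplicit false

set_option synthInstance.maxSize 1024

universe u

namespace Cfsg.Agent.LeadWork.RootCent.G

open Cfsg.Lie Cfsg.Agent.Chev Cfsg.Agent.LeadWork.RootCent
open scoped Matrix

/-- The roots left out. -/
def out4 : List ℕ := [7, 8]

/-- The generating roots of the centraliser. -/
def PK (s : ℕ) : Prop := (chevG2.IsPosRoot s ∧ s ∉ out4) ∨ s = 5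

/-- The roots of the radical. -/
def PQ (s : ℕ) : Prop := chevG2.IsPosRoot s ∧ ¬ chevG2.InRootSub ({1} : Set ℕ) s

/-- The central part of the radical. -/
def PN0 (s : ℕ) : Prop := s ∈ [9, 10, 11]

/-- The roots occurring in the conjugates. -/
def three : List ℕ := [9, 11, 10]

/-- The long roots of type G2. -/
abbrev longG2 (r : ℕ) : Bool := [0, 1, 5, 6, 10, 11].contains r

variable {F : Type u} [Field F] [CharP F 2]

/-- The certificate. -/
noncomputable abbrev cG : Cert.{u} chevG2 := certG2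

theorem wu_comm_trivial {s r : ℕ} (hs : s < 12) (hr : r < 12) (hne : r ≠ s) (hn : r ≠ chevG2.neg s)
    (hc : ∀ c ∈ chevG2.commTerms s r, c.2.1 % 2 = 0) (t v : F) :
    cG.xu s t * cG.xu r v * (cG.xu s t)⁻¹ = cG.xu r v := by
  have e := cG.conj_xu (show s < chevG2.nroots from hs) (show r < chevG2.nroots from hr) hne hn t v
  have hw : cG.wu (chevG2.commWord F s r (-t) v) = 1 := by
    refine (List.prod_eq_one fun x hx => ?_)
    obtain ⟨p, hp, rfl⟩ := List.mem_map.mp hx
    obtain ⟨c, hcm, rfl⟩ := List.mem_map.mp hp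
    have h0 : ((c.2.1 : ℤ) : F) = 0 := (CharP.intCast_eq_zero_iff F 2 _).mpr (Int.dvd_of_emod_eq_zero (hc c hcm))
    simp [h0, cG.xu_zero]
  rwa [hw, mul_one] at e

theorem conj_one_term {s r g : ℕ} (hs : s < 12) (hr : r < 12) (hne : r ≠ s) (hn : r ≠ chevG2.neg s)
    (hc : ∀ c ∈ chevG2.commTerms s r, (c.1, c.2.1 % 2, c.2.2.1, c.2.2.2) = (g, 1, 1, 1))
    (hlen : (chevG2.commTerms s r).length = 1) (t v : F) :
    cG.xu s t * cG.xu r v * (cG.xu s t)⁻¹ = cG.xu r v * cG.xu g (t * v) := by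
  have e := cG.conj_xu (show s < chevG2.nroots from hs) (show r < chevG2.nroots from hr) hne hn t v
  obtain ⟨c, hce⟩ := List.length_eq_one_iff.mp hlen
  have h1 := hc c (by simp [hce])
  simp only [Prod.mk.injEq] at h1
  rw [e]
  congr 1
  simp only [ChevalleyDatum.commWord, hce, List.map_cons, List.map_nil, Cert.wu, List.prod_cons, List.prod_nil,
    mul_one, h1.1, h1.2.2.1, h1.2.2.2, pow_one]
  have hodd : ((c.2.1 : ℤ) : F) = 1 := by
    have := (CharP.intCast_eq_intCast F 2 (a := c.2.1) (b := 1)).2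
      (show c.2.1 % ((2 : ℕ) : ℤ) = 1 % ((2 : ℕ) : ℤ) by simpa using h1.2.1)
    simpa using this
  rw [hodd, one_mul, CharTwo.neg_eq, CharTwo.neg_eq]

theorem mem_PK_commute {g : GL chevG2.Idx F} (hg : g ∈ spanGroup chevG2 F PK) (a : F) :
    Commute g (cG.xu 9 a) := by
  have key : ∀ s < 12, (chevG2.IsPosRoot s ∧ s ∉ out4) ∨ s = 5 → 9 ≠ s →
      9 ≠ chevG2.neg s ∧ ∀ c ∈ chevG2.commTerms s 9, c.2.1 % 2 = 0 := by decide +kernel
  have h : spanGroup chevG2 F PK ≤ Subgroup.centralizer {cG.xu 9 a} := by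
    refine cG.span_le fun s hs t => Subgroup.mem_centralizer_singleton_iff.mpr ?_
    have hlt : s < 12 := by
      rcases hs with ⟨h, -⟩ | rfl
      · exact h.1
      · decide
    by_cases he : 9 = s
    · subst he
      exact (cG.xu_add _ _ _).trans ((congrArg _ (add_comm t a)).trans (cG.xu_add _ _ _).symm)
    · obtain ⟨hn, hc⟩ := key s hlt hs he
      exact mul_inv_eq_iff_eq_mul.mp (wu_comm_trivial hlt (by decide) he hn hc t a)
  exact Subgroup.mem_centralizer_singleton_iff.mp (h hg)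

/-- The radical is spanned by the central part and the four roots left out. -/
theorem radical_decomp {q : GL chevG2.Idx F} (hq : q ∈ spanGroup chevG2 F PQ) :
    ∃ n ∈ spanGroup chevG2 F PN0, ∃ r p : F,
      q = n * (cG.xu 8 p * cG.xu 7 r) := by
  let P1 : ℕ → Prop := fun s => PN0 s ∨ s = 8
  let P2 : ℕ → Prop := fun s => P1 s ∨ s = 7
  have hclosed : ∀ s ∈ [8, 7], ∀ r < 12, (PN0 r ∨ r ∈ out4) → r ≠ s →
      r ≠ chevG2.neg s ∧ ∀ c ∈ chevG2.commTerms s r, PN0 c.1 := by unfold PN0; decide +kernel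
  have hlt : ∀ s, (PN0 s ∨ s ∈ out4) → s < 12 := by
    intro s h
    simp only [PN0, out4, List.mem_cons, List.not_mem_nil, or_false] at h
    omega
  have step : ∀ (P : ℕ → Prop) (s : ℕ), s ∈ [8, 7] → (∀ r, PN0 r → P r) →
      (∀ r, P r → PN0 r ∨ r ∈ out4) → ∀ x ∈ spanGroup chevG2 F (fun r => P r ∨ r = s),
      ∃ n ∈ spanGroup chevG2 F P, ∃ t : F, x = n * cG.xu s t := by
    intro P s hs hNP hP x hx
    have hs4 : PN0 s ∨ s ∈ out4 := Or.inr (by simp only [out4, List.mem_cons, List.not_mem_nil, or_false] at hs ⊢; omega)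
    have hslt := hlt s hs4
    have hn : chevG2.rootSubgroup F s ≤ Subgroup.normalizer (spanGroup chevG2 F P : Set (GL chevG2.Idx F)) := by
      intro y hy
      obtain ⟨t, rfl⟩ := cG.mem_rootSubgroup.mp hy
      have key : ∀ t : F, ∀ r, P r → ∀ v, cG.xu s t * cG.xu r v * (cG.xu s t)⁻¹ ∈ spanGroup chevG2 F P := by
        intro t r hr v
        by_cases he : r = s
        · subst he
          rw [cG.xu_inv, cG.xu_add, cG.xu_add]
          exact cG.xu_mem_span hr _
        obtain ⟨h1, h2⟩ := hclosed s hs r (hlt r (hP r hr)) (hP r hr) he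
        rw [cG.conj_xu (show s < chevG2.nroots from hslt) (show r < chevG2.nroots from hlt r (hP r hr)) he h1]
        refine mul_mem (cG.xu_mem_span hr _) (cG.wu_mem_span _ ?_)
        intro p hp
        obtain ⟨c, hc, rfl⟩ := List.mem_map.mp hp
        exact hNP _ (h2 c hc)
      refine cG.mem_normalizer_span (key t) fun r hr v => ?_
      have := key (-t) r hr v
      rwa [← cG.xu_inv, inv_inv] at this
    have hx' : x ∈ spanGroup chevG2 F P ⊔ chevG2.rootSubgroup F s := by
      refine cG.span_le (fun r hr t => ?_) hx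
      rcases hr with h | rfl
      · exact Subgroup.mem_sup_left (cG.xu_mem_span h t)
      · exact Subgroup.mem_sup_right (cG.mem_rootSubgroup.mpr ⟨t, rfl⟩)
    obtain ⟨n, hn', y, hy, e⟩ := (Cert.mem_sup_of_normalised hn).mp hx'
    obtain ⟨t, rfl⟩ := cG.mem_rootSubgroup.mp hy
    exact ⟨n, hn', t, e.symm⟩
  have hsub : spanGroup chevG2 F PQ ≤ spanGroup chevG2 F P2 := by
    refine cG.span_mono fun r hr => ?_
    have key : ∀ r < 12, chevG2.IsPosRoot r → r ≠ 6 → (PN0 r ∨ r = 8) ∨ r = 7 := by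
      unfold PN0; decide +kernel
    refine key r hr.1.1 hr.1 fun h => hr.2 ?_
    have hsimp : chevG2.simple 1 = 6 := by decide +kernel
    rw [h, ← hsimp]; exact cG.{u}.inRootSub_simple (by decide +kernel) (by simp)
  obtain ⟨n1, h1, a, rfl⟩ := step P1 7 (by simp) (fun r h => Or.inl h)
    (fun r h => h.imp id (fun e => by simp [out4, e])) q (hsub hq)
  obtain ⟨n0, h0, b, rfl⟩ := step PN0 8 (by simp) (fun r h => h) (fun r h => Or.inl h) n1 h1
  exact ⟨n0, h0, a, b, by group⟩

/-- The word of a conjugate. -/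
noncomputable def X3 (c : ℕ → F) : GL chevG2.Idx F := cG.wu (three.map fun r => (r, c r))

/-- The coefficients of a conjugate. -/
def coef3 (α r p : F) (x : ℕ) : F :=
  if x = 9 then α else if x = 11 then p * α else r * α

theorem xu_commute {s r : ℕ} (h : s < 12 ∧ r < 12 ∧ r ≠ s ∧ r ≠ chevG2.neg s ∧
    ∀ c ∈ chevG2.commTerms s r, c.2.1 % 2 = 0) (t v : F) : Commute (cG.xu s t) (cG.xu r v) :=
  mul_inv_eq_iff_eq_mul.mp (wu_comm_trivial h.1 h.2.1 h.2.2.1 h.2.2.2.1 h.2.2.2.2 t v)

theorem conj_y (α r p : F) :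
    cG.xu 8 p * cG.xu 7 r * cG.xu 9 α * (cG.xu 8 p * cG.xu 7 r)⁻¹ = X3 (coef3 α r p) := by
  have h0 : (8 : ℕ) < 12 ∧ (10 : ℕ) < 12 ∧ 10 ≠ 8 ∧ 10 ≠ chevG2.neg 8 ∧
      ∀ c ∈ chevG2.commTerms 8 10, c.2.1 % 2 = 0 := by decide +kernel
  have h7 : (7 : ℕ) < 12 ∧ (9 : ℕ) < 12 ∧ 9 ≠ 7 ∧ 9 ≠ chevG2.neg 7 ∧
      (∀ c ∈ chevG2.commTerms 7 9, (c.1, c.2.1 % 2, c.2.2.1, c.2.2.2) = (10, (1 : ℤ), 1, 1)) ∧
        (chevG2.commTerms 7 9).length = 1 := by decide +kernel
  have h8 : (8 : ℕ) < 12 ∧ (9 : ℕ) < 12 ∧ 9 ≠ 8 ∧ 9 ≠ chevG2.neg 8 ∧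
      (∀ c ∈ chevG2.commTerms 8 9, (c.1, c.2.1 % 2, c.2.2.1, c.2.2.2) = (11, (1 : ℤ), 1, 1)) ∧
        (chevG2.commTerms 8 9).length = 1 := by decide +kernel
  rw [← MulAut.conj_apply]
  simp only [map_mul, MulAut.mul_apply]
  rw [show MulAut.conj (cG.xu 7 r) (cG.xu 9 α) = cG.xu 9 α * cG.xu 10 (r * α) from
    conj_one_term h7.1 h7.2.1 h7.2.2.1 h7.2.2.2.1 h7.2.2.2.2.1 h7.2.2.2.2.2 r α]
  simp only [map_mul]
  rw [show MulAut.conj (cG.xu 8 p) (cG.xu 9 α) = cG.xu 9 α * cG.xu 11 (p * α) from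
    conj_one_term h8.1 h8.2.1 h8.2.2.1 h8.2.2.2.1 h8.2.2.2.2.1 h8.2.2.2.2.2 p α,
    show MulAut.conj (cG.xu 8 p) (cG.xu 10 (r * α)) = cG.xu 10 (r * α) by
      rw [MulAut.conj_apply, (xu_commute h0 p (r * α)).eq, mul_inv_cancel_right]]
  simp [X3, three, coef3, Cert.wu, mul_assoc]

open Classical in
/-- The coefficient at a root. -/
noncomputable def val (L : List (ℕ × F)) (x : ℕ) : F := (L.map fun p => if p.1 = x then p.2 else 0).sum

theorem wu_mulVec_hv (L : List (ℕ × F)) (hL : ∀ p ∈ L, p.1 < 12)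
    (hfree : L.Pairwise fun p q => q.1 ≠ p.1 ∧ q.1 ≠ chevG2.neg p.1 ∧ chevG2.chainEntry p.1 q.1 = [])
    {k : ℕ} (hk : k < 2) :
    ((cG.wu L : GL chevG2.Idx F) : Matrix chevG2.Idx chevG2.Idx F) *ᵥ hv chevG2 F k =
      hv chevG2 F k + (L.map fun p => (-((chevG2.cartan k p.1 : ℤ) : F) * p.2) • rv chevG2 F p.1).sum := by
  induction L with
  | nil => simp [Cert.wu]
  | cons p L ih =>
    rw [List.forall_mem_cons] at hL
    rw [List.pairwise_cons] at hfree
    rw [cG.wu_cons, Units.val_mul, ← Matrix.mulVec_mulVec, ih hL.2 hfree.2, cG.coe_xu, Matrix.mulVec_add,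
      x_mulVec_hv (show p.1 < chevG2.nroots from hL.1) (show k < chevG2.rank from hk), List.map_cons, List.sum_cons]
    have hfix : ∀ M : List (ℕ × F), (∀ q ∈ M, q ∈ L) →
        chevG2.x F p.1 p.2 *ᵥ (M.map fun q => (-((chevG2.cartan k q.1 : ℤ) : F) * q.2) • rv chevG2 F q.1).sum =
          (M.map fun q => (-((chevG2.cartan k q.1 : ℤ) : F) * q.2) • rv chevG2 F q.1).sum := by
      intro M hM
      induction M with
      | nil => simp
      | cons q M ihM =>
        rw [List.forall_mem_cons] at hM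
        obtain ⟨h1, h2, h3⟩ := hfree.1 q hM.1
        rw [List.map_cons, List.sum_cons, Matrix.mulVec_add, ihM hM.2, Matrix.mulVec_smul,
          cG.x_mulVec_rv (show p.1 < chevG2.nroots from hL.1) (show q.1 < chevG2.nroots from hL.2 q hM.1) h1 h2, h3]
        simp
    rw [hfix L fun q hq => hq]
    abel

theorem val_eq_of_wu_eq {L L' : List (ℕ × F)} (hL : ∀ p ∈ L, p.1 < 12) (hL' : ∀ p ∈ L', p.1 < 12)
    (hfree : L.Pairwise fun p q => q.1 ≠ p.1 ∧ q.1 ≠ chevG2.neg p.1 ∧ chevG2.chainEntry p.1 q.1 = [])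
    (hfree' : L'.Pairwise fun p q => q.1 ≠ p.1 ∧ q.1 ≠ chevG2.neg p.1 ∧ chevG2.chainEntry p.1 q.1 = [])
    (h : cG.wu L = cG.wu L') {x : ℕ} (hx : x < 12) : val L x = val L' x := by
  have hodd : ∀ x < 12, ∃ k < 2, chevG2.cartan k x % 2 ≠ 0 := by decide +kernel
  obtain ⟨k, hk, hk2⟩ := hodd x hx
  have e := congrArg (fun g : GL chevG2.Idx F =>
    ((g : Matrix chevG2.Idx chevG2.Idx F) *ᵥ hv chevG2 F k) (Sum.inr ⟨x, hx⟩)) h
  simp only [wu_mulVec_hv L hL hfree hk, wu_mulVec_hv L' hL' hfree' hk, Pi.add_apply, listSum_apply] at e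
  have key : ∀ M : List (ℕ × F), ((M.map fun p => (-((chevG2.cartan k p.1 : ℤ) : F) * p.2) • rv chevG2 F p.1).map
      fun v => v (Sum.inr ⟨x, hx⟩)).sum = -((chevG2.cartan k x : ℤ) : F) * val M x := by
    intro M
    induction M with
    | nil => simp [val]
    | cons p M ih =>
      rw [List.map_cons, List.map_cons, List.sum_cons, ih]
      simp only [val, List.map_cons, List.sum_cons, Pi.smul_apply, rv, Sum.elim_inr, smul_eq_mul]
      by_cases hp : p.1 = x
      · simp [hp]; ring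
      · simp [hp, Ne.symm hp]
  rw [key, key] at e
  exact mul_left_cancel₀ (neg_ne_zero.mpr (cast_odd hk2)) (add_left_cancel e)

/-- An element of `N` linking two conjugates fixes the root. -/
theorem fix_of_link {L : List ℕ} (hL : ∀ i ∈ L, i < 2) {κ c c' : ℕ → F} (hκ : ∀ r < 12, κ r ≠ 0)
    (hc : c 9 ≠ 0)
    (h : cG.wu (three.map fun r => (act chevG2 L r, κ r * c r)) = X3 c') :
    act chevG2 L 9 = 9 := by
  have hlt : ∀ r ∈ three, r < 12 := by decide
  have hbase : ∀ r ∈ three, ∀ r' ∈ three, r' ≠ r →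
      r' ≠ chevG2.neg r ∧ chevG2.chainEntry r r' = [] := by decide +kernel
  have hact : ∀ r, r < 12 → act chevG2 L r < 12 := fun r hr => cG.{u}.act_lt hL (show r < chevG2.nroots from hr)
  have hinj : ∀ r r', r < 12 → r' < 12 → act chevG2 L r = act chevG2 L r' → r = r' := fun r r' hr hr' e => by
    have := congrArg (act chevG2 L.reverse) e
    rwa [act_reverse_left cG.{u} hL (show r < chevG2.nroots from hr),
      act_reverse_left cG.{u} hL (show r' < chevG2.nroots from hr')] at this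
  have hchain : ∀ r r', r < 12 → r' < 12 → chevG2.chainEntry r r' = [] →
      chevG2.chainEntry (act chevG2 L r) (act chevG2 L r') = [] := by
    intro r r' hr hr' he
    clear hact hinj h
    induction L with
    | nil => exact he
    | cons a L ih =>
      rw [List.forall_mem_cons] at hL
      rw [act_cons, act_cons, cG.{u}.chain_equiv a hL.1 _ (cG.{u}.act_lt hL.2 hr) _ (cG.{u}.act_lt hL.2 hr'), ih hL.2]
      rfl
  have hnd : three.Nodup := by decide
  have hfree : (three.map fun r => (act chevG2 L r, κ r * c r)).Pairwise fun p q =>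
      q.1 ≠ p.1 ∧ q.1 ≠ chevG2.neg p.1 ∧ chevG2.chainEntry p.1 q.1 = [] := by
    rw [List.pairwise_map]
    refine hnd.imp_of_mem ?_
    intro r r' hr hr' hne
    obtain ⟨h1, h2⟩ := hbase r hr r' hr' (Ne.symm hne)
    refine ⟨fun e => hne (hinj _ _ (hlt r' hr') (hlt r hr) e).symm, fun e => h1 ?_,
      hchain r r' (hlt r hr) (hlt r' hr') h2⟩
    rw [← cG.{u}.act_neg hL (show r < chevG2.nroots from hlt r hr)] at e
    exact hinj _ _ (hlt r' hr') (cG.{u}.neg_lt r (hlt r hr)) e
  have hfree' : (three.map fun r => (r, c' r)).Pairwise fun p q =>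
      q.1 ≠ p.1 ∧ q.1 ≠ chevG2.neg p.1 ∧ chevG2.chainEntry p.1 q.1 = [] := by
    rw [List.pairwise_map]
    refine hnd.imp_of_mem ?_
    intro r r' hr hr' hne
    exact ⟨Ne.symm hne, hbase r hr r' hr' (Ne.symm hne)⟩
  have hmem : ∀ r ∈ three, c r ≠ 0 → act chevG2 L r ∈ three := by
    intro r hr hcr
    by_contra hnot
    have e := val_eq_of_wu_eq (by simpa using fun r hr => hact r (hlt r hr)) (by simpa using hlt) hfree hfree' h
      (hact r (hlt r hr))
    have e1 : val (three.map fun r => (r, c' r)) (act chevG2 L r) = 0 := by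
      refine List.sum_eq_zero fun v hv => ?_
      simp only [List.map_map, List.mem_map, Function.comp] at hv
      obtain ⟨s, hs, rfl⟩ := hv
      exact if_neg fun (e : s = act chevG2 L r) => hnot (e ▸ hs)
    rw [e1, val, List.map_map] at e
    rw [← List.sum_toFinset _ hnd, Finset.sum_eq_single r] at e
    · simp only [Function.comp, if_true] at e
      exact mul_ne_zero (hκ r (hlt r hr)) hcr e
    · intro s hs hsr
      simp only [Function.comp]
      rw [if_neg fun e => hsr (hinj _ _ (hlt s (List.mem_toFinset.mp hs)) (hlt r hr) e)]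
    · exact fun h => absurd (List.mem_toFinset.mpr hr) h
  have hl : ∀ r, r < 12 → longG2 (act chevG2 L r) = longG2 r := fun r hr =>
    len_act dataG2long cG.{u} hL (show r < chevG2.nroots from hr)
  have key : ∀ s ∈ three, longG2 s = longG2 9 → s = 9 := by decide +kernel
  exact key _ (hmem 9 (by decide) hc) (hl 9 (by decide))

/-- The subgroup generated by the centraliser and the diagonal elements. -/
def KH (F : Type u) [Field F] : Subgroup (GL chevG2.Idx F) := spanGroup chevG2 F PK ⊔ chevG2.diagonalSubgroup F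

theorem KH_elim {g : GL chevG2.Idx F} (hg : g ∈ KH F) :
    ∃ k ∈ spanGroup chevG2 F PK, ∃ h ∈ chevG2.diagonalSubgroup F, k * h = g :=
  (Cert.mem_sup_of_normalised (cG.diag_normalises PK fun s hs => by
    rcases hs with ⟨h, -⟩ | rfl
    · exact h.1
    · decide +kernel)).mp hg

theorem node_mem_PK (t : F) : cG.nu (chevG2.simple 1) t ∈ spanGroup chevG2 F PK := by
  have key : chevG2.IsPosRoot (chevG2.simple 1) ∧ chevG2.simple 1 ∉ out4 ∧
      chevG2.neg (chevG2.simple 1) = 5 := by decide +kernel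
  rw [cG.nu_eq]
  have hp : PK (chevG2.simple 1) := Or.inl ⟨key.1, key.2.1⟩
  have hn : PK (chevG2.neg (chevG2.simple 1)) := Or.inr key.2.2
  exact mul_mem (mul_mem (cG.xu_mem_span hp _) (cG.xu_mem_span hn _)) (cG.xu_mem_span hp _)

/-- Elements of `N` fixing the two roots. -/
theorem monomial_fix_mem {M : CoxeterMatrix (Fin chevG2.rank)} (hM : CoxOK chevG2 M) :
    ∀ m ∈ chevG2.monomialSubgroup F, (∀ r ∈ [9], (chevG2.rootSubgroup F r).map (MulAut.conj m).toMonoidHom =
      chevG2.rootSubgroup F r) → m ∈ KH F := by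
  suffices key : ∀ k, ∀ m ∈ chevG2.monomialSubgroup F, invCount chevG2 F m = k →
      (∀ r ∈ [9], (chevG2.rootSubgroup F r).map (MulAut.conj m).toMonoidHom = chevG2.rootSubgroup F r) →
        m ∈ KH F from fun m hm h => key _ m hm rfl h
  intro k
  induction k using Nat.strong_induction_on with
  | _ k ih =>
    intro m hm hk hfix
    by_cases hH : m ∈ chevG2.diagonalSubgroup F
    · exact Subgroup.mem_sup_right hH
    obtain ⟨i, hi, hinv⟩ := cG.exists_descent hM hm hH
    obtain ⟨L, -, hmap⟩ := cG.monomial_map hM hm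
    have hL := cG.{u}.fin_word_lt L
    have hfix' : ∀ r ∈ [9], act chevG2 (L.map Fin.val) r = r := by
      intro r hr
      have hr' : r < chevG2.nroots := by
        have : ∀ r ∈ [9], r < chevG2.nroots := by decide +kernel
        exact this r hr
      have h1 := (hmap r hr').symm.trans (hfix r hr)
      have h2 : cG.xu (act chevG2 (L.map Fin.val) r) (1 : F) ∈ chevG2.rootSubgroup F r :=
        h1 ▸ cG.mem_rootSubgroup.mpr ⟨1, rfl⟩
      obtain ⟨t, ht⟩ := cG.mem_rootSubgroup.mp h2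
      by_contra hne
      have hs := cG.{u}.act_lt hL hr'
      have e := val_eq_of_wu_eq (L := [(act chevG2 (L.map Fin.val) r, (1 : F))]) (L' := [(r, t)])
        (fun p hp => by rw [List.mem_singleton.mp hp]; exact hs)
        (fun p hp => by rw [List.mem_singleton.mp hp]; exact hr') (List.pairwise_singleton _ _) (List.pairwise_singleton _ _)
        (by simpa [Cert.wu] using ht) hs
      simp [val, Ne.symm hne] at e
    have hneg := (cG.inverts_iff (cG.{u}.pos_simple hi) (cG.{u}.act_lt hL (cG.{u}.simple_lt i hi))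
      (hmap _ (cG.{u}.simple_lt i hi))).mp hinv
    have key : ∀ i < 2, ∀ s < 12, i ≠ 1 → chevG2.IsNegRoot s →
        pairInt chevG2 9 s = pairInt chevG2 9 (chevG2.simple i) → False := by decide +kernel
    have hp : ∀ r ∈ [9], pairInt chevG2 r (act chevG2 (L.map Fin.val) (chevG2.simple i)) =
        pairInt chevG2 r (chevG2.simple i) := by
      intro r hr
      have hr' : r < chevG2.nroots := by
        have : ∀ r ∈ [9], r < chevG2.nroots := by decide +kernel
        exact this r hr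
      conv_lhs => rw [← hfix' r hr]
      generalize L.map Fin.val = M' at hL
      induction M' with
      | nil => rfl
      | cons a M' ih2 =>
        rw [List.forall_mem_cons] at hL
        rw [act_cons, act_cons, cG.{u}.pairInt_refl hL.1 (cG.{u}.act_lt hL.2 hr')
          (cG.{u}.act_lt hL.2 (cG.{u}.simple_lt i hi)), ih2 hL.2]
    have hi03 : i = 1 := by
      by_contra hc
      exact key i hi _ (cG.{u}.act_lt hL (cG.{u}.simple_lt i hi)) hc hneg (hp 9 (by simp))
    have hnu : cG.nu (chevG2.simple i) (1 : F) ∈ spanGroup chevG2 F PK := by rw [hi03]; exact node_mem_PK 1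
    have h2 := cG.invCount_descend hM hi (cG.isRefl_nu_inv hi) hm hinv
    have h3 := ih _ (by omega) (m * (cG.nu (chevG2.simple i) (1 : F))⁻¹)
      (mul_mem hm (inv_mem (cG.nu_mem_monomial hi))) rfl ?_
    · simpa using mul_mem h3 (Subgroup.mem_sup_left (T := chevG2.diagonalSubgroup F) hnu)
    · intro r hr
      have hr' : r < chevG2.nroots ∧ chevG2.reflectRoot i r = r := by
        have : ∀ r ∈ [9], r < chevG2.nroots ∧ chevG2.reflectRoot 1 r = r := by decide +kernel
        rw [hi03]; exact this r hr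
      obtain ⟨c, hc, e⟩ := cG.conj_inv_xu_simple (F := F) hi hr'.1
      rw [map_conj_mul, cG.map_rootSubgroup (n := (cG.nu (chevG2.simple i) (1 : F))⁻¹) (r' := r) ⟨c, hc, fun t => by
        rw [inv_inv, e, hr'.2]⟩]
      exact hfix r hr

theorem pos_decomp {a : GL chevG2.Idx F} (ha : a ∈ chevG2.posUnipotent F) :
    ∃ k ∈ spanGroup chevG2 F PK, ∃ q ∈ spanGroup chevG2 F PQ, a = k * q := by
  have hn : spanGroup chevG2 F (fun s => chevG2.IsPosRoot s ∧ chevG2.InRootSub ({1} : Set ℕ) s) ≤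
      Subgroup.normalizer (spanGroup chevG2 F PQ : Set (GL chevG2.Idx F)) :=
    cG.span_le fun r hr t => cG.pos_normalises_radical _ hr.1 t
  have hmem : a⁻¹ ∈ spanGroup chevG2 F PQ ⊔
      spanGroup chevG2 F (fun s => chevG2.IsPosRoot s ∧ chevG2.InRootSub ({1} : Set ℕ) s) := by
    have ha' : a⁻¹ ∈ spanGroup chevG2 F chevG2.IsPosRoot := inv_mem ha
    refine cG.span_le (fun r hr t => ?_) ha'
    by_cases h : chevG2.InRootSub ({1} : Set ℕ) r
    · exact Subgroup.mem_sup_right (cG.xu_mem_span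
        (P := fun s => chevG2.IsPosRoot s ∧ chevG2.InRootSub ({1} : Set ℕ) s) ⟨hr, h⟩ t)
    · exact Subgroup.mem_sup_left (cG.xu_mem_span (P := PQ) ⟨hr, h⟩ t)
  obtain ⟨q, hq, k, hk, e⟩ := (Cert.mem_sup_of_normalised hn).mp hmem
  refine ⟨k⁻¹, inv_mem (cG.span_mono (fun r hr => Or.inl ⟨hr.1, ?_⟩) hk), q⁻¹, inv_mem hq, ?_⟩
  · rw [← mul_inv_rev, e, inv_inv]
  · intro h4
    have key : ∀ r ∈ out4, chevG2.IsPosRoot r ∧ corootC chevG2 r 0 ≠ 0 := by decide +kernel
    exact (key r h4).2 ((cG.{u}.coef_zero_iff r hr.1.1 0 (by decide +kernel)).mp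
        ((cG.{u}.inRootSub_iff.mp hr.2).2 0 (by decide +kernel) (by simp)))

/-- The group generated by the centraliser normalises the radical. -/
theorem KH_normalises : KH F ≤ Subgroup.normalizer (spanGroup chevG2 F PQ : Set (GL chevG2.Idx F)) := by
  have hpar : chevG2.parabolicSubgroup F ({1} : Set ℕ) ≤
      Subgroup.normalizer (spanGroup chevG2 F PQ : Set (GL chevG2.Idx F)) := by
    have := cG.parabolic_le_normalizer (F := F) ({1} : Set ℕ)
    rwa [cG.radical_eq] at this
  refine le_trans (sup_le ?_ (cG.diagonal_le_borel.trans (cG.borel_le_parabolic _))) hpar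
  refine cG.span_le fun r hr t => ?_
  rcases hr with ⟨h, -⟩ | hneg
  · exact cG.borel_le_parabolic _ (cG.pos_le_borel (cG.xu_mem_pos h t))
  · have key : chevG2.neg (chevG2.simple 1) = 5 := by decide +kernel
    obtain rfl := hneg
    rw [← key]
    exact cG.xu_mem_parabolic (cG.{u}.pos_simple (by decide +kernel)) (cG.{u}.inRootSub_simple (by decide +kernel) (by simp)) t

/-- The centraliser. -/
theorem centralizer_eq {M : CoxeterMatrix (Fin chevG2.rank)} (hM : CoxOK chevG2 M) {v : GL chevG2.Idx F}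
    (hv : v = cG.xu 9 1) :
    chevG2.group F ⊓ Subgroup.centralizer {v} = spanGroup chevG2 F PK := by
  subst hv
  refine le_antisymm ?_ (le_inf (cG.span_le fun r _ t => cG.xu_mem_group r t) fun g hg =>
    Subgroup.mem_centralizer_singleton_iff.mpr (mem_PK_commute hg 1))
  intro g hg
  obtain ⟨hgG, hgv⟩ := Subgroup.mem_inf.mp hg
  rw [Subgroup.mem_centralizer_singleton_iff] at hgv
  obtain ⟨n, hn, hcell⟩ := cG.exists_bruhat hM hgG
  obtain ⟨b, hb, w, hw, rfl⟩ := cG.exists_canonical hM hn hcell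
  obtain ⟨a, ha, h, hh, rfl⟩ := cG.mem_borel.mp hb
  set m := h * n
  have hmN : m ∈ chevG2.monomialSubgroup F := mul_mem (cG.diagonal_le_monomial hh) hn
  obtain ⟨k1, hk1, q1, hq1, e1⟩ := pos_decomp ha
  have hwU : w ∈ chevG2.posUnipotent F := cG.span_mono (fun r hr => hr.1) hw
  obtain ⟨k2, hk2, q2, hq2, e2⟩ := pos_decomp (inv_mem hwU)
  have hg' : Commute (q1 * m * q2⁻¹) (cG.xu 9 (1 : F)) := by
    have h1 := ((mem_PK_commute hk1 (1 : F)).inv_left.mul_left
      (show Commute (a * h * n * w) _ from hgv)).mul_left (mem_PK_commute hk2 (1 : F))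
    have e : k1⁻¹ * (a * h * n * w) * k2 = q1 * m * q2⁻¹ := by
      rw [e1, show w = (w⁻¹)⁻¹ from (inv_inv w).symm, e2]
      simp only [m]
      group
    rwa [e] at h1
  obtain ⟨n1, hn1, a1, b1, hy1⟩ := radical_decomp (inv_mem hq1)
  obtain ⟨n2, hn2, a2, b2, hy2⟩ := radical_decomp (inv_mem hq2)
  set y1 := cG.xu 8 b1 * cG.xu 7 a1
  set y2 := cG.xu 8 b2 * cG.xu 7 a2
  set X1 := X3 (coef3 (1 : F) a1 b1)
  set X2 := X3 (coef3 (1 : F) a2 b2)
  have hN0 : ∀ x ∈ spanGroup chevG2 F PN0, ∀ c : ℕ → F, Commute x (X3 c) := by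
    intro x hx c
    have key : ∀ r < 12, PN0 r → ∀ z ∈ three, z ≠ r → z ≠ chevG2.neg r ∧
        ∀ c ∈ chevG2.commTerms r z, c.2.1 % 2 = 0 := by unfold PN0; decide +kernel
    refine Commute.list_prod_right _ _ fun w hw => ?_
    obtain ⟨p, hp, rfl⟩ := List.mem_map.mp hw
    obtain ⟨z, hz, rfl⟩ := List.mem_map.mp hp
    have hlt6 : ∀ z ∈ three, z < 12 := by decide
    have hz' : z < 12 := hlt6 z hz
    have hle : spanGroup chevG2 F PN0 ≤ Subgroup.centralizer {cG.xu z (c z)} := by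
      refine cG.span_le fun r hr t => Subgroup.mem_centralizer_singleton_iff.mpr ?_
      have hr' : r < 12 := by simp only [PN0, List.mem_cons, List.not_mem_nil, or_false] at hr; omega
      by_cases he : z = r
      · subst he
        exact (cG.xu_add _ _ _).trans ((congrArg _ (add_comm t (c z))).trans (cG.xu_add _ _ _).symm)
      · obtain ⟨h1, h2⟩ := key r hr' hr z hz he
        exact xu_commute ⟨hr', hz', he, h1, h2⟩ t (c z)
    exact Subgroup.mem_centralizer_singleton_iff.mp (hle hx)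
  have hlink : m * X2 * m⁻¹ = X1 := by
    have e1 : y1 * (cG.xu 9 (1 : F)) * y1⁻¹ = X1 := conj_y 1 a1 b1
    have e2 : y2 * (cG.xu 9 (1 : F)) * y2⁻¹ = X2 := conj_y 1 a2 b2
    have f1 : q1⁻¹ * (cG.xu 9 (1 : F)) * q1 = X1 := by
      rw [show q1 = (q1⁻¹)⁻¹ from (inv_inv q1).symm, hy1]
      calc (n1 * y1)⁻¹⁻¹ * (cG.xu 9 (1 : F)) * (n1 * y1)⁻¹
          = n1 * (y1 * (cG.xu 9 (1 : F)) * y1⁻¹) * n1⁻¹ := by group
        _ = X1 := by rw [e1, (hN0 n1 hn1 _).eq, mul_inv_cancel_right]
    have f2 : q2⁻¹ * (cG.xu 9 (1 : F)) * q2 = X2 := by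
      rw [show q2 = (q2⁻¹)⁻¹ from (inv_inv q2).symm, hy2]
      calc (n2 * y2)⁻¹⁻¹ * (cG.xu 9 (1 : F)) * (n2 * y2)⁻¹
          = n2 * (y2 * (cG.xu 9 (1 : F)) * y2⁻¹) * n2⁻¹ := by group
        _ = X2 := by rw [e2, (hN0 n2 hn2 _).eq, mul_inv_cancel_right]
    have h2 : q1 * m * q2⁻¹ * (cG.xu 9 (1 : F)) * (q1 * m * q2⁻¹)⁻¹ = cG.xu 9 (1 : F) := by
      rw [hg'.eq, mul_inv_cancel_right]
    rw [← f1, ← f2]
    conv_rhs => rw [← h2]
    group
  obtain ⟨L, -, hconj⟩ := cG.monomial_conj_xu hM hmN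
  have hconj' : ∀ r, ∃ κ : F, κ ≠ 0 ∧ (r < 12 → ∀ t, m * cG.xu r t * m⁻¹ = cG.xu (act chevG2 (L.map Fin.val) r) (κ * t)) := by
    intro r
    by_cases hr : r < 12
    · obtain ⟨κ, h1, h2⟩ := hconj r hr
      exact ⟨κ, h1, fun _ => h2⟩
    · exact ⟨1, one_ne_zero, fun h => absurd h hr⟩
  choose κ hκ0 hκ using hconj'
  have hwu : cG.wu (three.map fun r => (act chevG2 (L.map Fin.val) r, κ r * coef3 (1 : F) a2 b2 r)) =
      X3 (coef3 (1 : F) a1 b1) := by
    show _ = X1
    rw [← hlink]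
    show _ = m * cG.wu _ * m⁻¹
    rw [← MulAut.conj_apply, Cert.wu, Cert.wu, map_list_prod, List.map_map, List.map_map, List.map_map]
    congr 1
    refine List.map_congr_left fun r hr => ?_
    have hr' : r < 12 := by revert hr; revert r; decide
    simp only [Function.comp, MulAut.conj_apply, hκ r hr']
  have hf1 := fix_of_link (cG.{u}.fin_word_lt L) (fun r _ => hκ0 r)
    (by simp [coef3]) hwu
  have hmK : m ∈ KH F := by
    refine monomial_fix_mem hM m hmN fun r hr => ?_
    have hr' : r < 12 := by revert hr; revert r; decide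
    rw [cG.map_rootSubgroup ⟨κ r, hκ0 r, hκ r hr'⟩]
    simp only [List.mem_cons, List.not_mem_nil, or_false] at hr
    subst hr
    rw [hf1]
  obtain ⟨k, hk, h', hh', ekh⟩ := KH_elim hmK
  -- move the radical elements together
  have hkn := KH_normalises (Subgroup.mem_sup_left (T := chevG2.diagonalSubgroup F) hk)
  have hhn := KH_normalises (Subgroup.mem_sup_right (S := spanGroup chevG2 F PK) hh')
  set q5 := k⁻¹ * q1 * k * (h' * q2⁻¹ * h'⁻¹)
  have hq5 : q5 ∈ spanGroup chevG2 F PQ := by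
    refine mul_mem ?_ ((Subgroup.mem_normalizer_iff.mp hhn _).mp (inv_mem hq2))
    have := (Subgroup.mem_normalizer_iff.mp (inv_mem hkn) _).mp hq1
    rwa [inv_inv] at this
  have e5 : q1 * m * q2⁻¹ = k * q5 * h' := by rw [← ekh]; simp only [q5]; group
  have hc5 : Commute (q5 * h') (cG.xu 9 (1 : F)) := by
    have h1 := (mem_PK_commute hk (1 : F)).inv_left.mul_left hg'
    rwa [e5, show k⁻¹ * (k * q5 * h') = q5 * h' by group] at h1
  obtain ⟨c, hc, hh'e⟩ := cG.mem_diagonal_iff.mp hh'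
  set χ := ∏ i ∈ Finset.range chevG2.rank, cartChar chevG2 i (c i)
  have hχ : IsChar chevG2 χ :=
    Finset.prod_induction _ (IsChar chevG2) (fun a b ha hb => ha.mul hb) isChar_one fun i hi =>
      cG.{u}.isChar_cartChar (Finset.mem_range.mp hi) (hc i (Finset.mem_range.mp hi))
  have hcoe : (h' : Matrix chevG2.Idx chevG2.Idx F) = dMat chevG2 χ := by
    rw [hh'e, cG.coe_torusElt hc]
    congr 1

  have hconjh : ∀ r < 12, ∀ t : F, h' * cG.xu r t * h'⁻¹ = cG.xu r (χ r * t) := by
    intro r hr t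
    have : h' * cG.xu r t = cG.xu r (χ r * t) * h' :=
      Units.ext (by simp [hcoe, cG.dMat_conj hχ (show r < chevG2.nroots from hr) t])
    rw [this, mul_inv_cancel_right]
  obtain ⟨n5, hn5, a5, b5, hy5⟩ := radical_decomp hq5
  have hX : X3 (coef3 (χ 9) a5 b5) = X3 (coef3 (1 : F) 0 0) := by
    have h1 : q5 * cG.xu 9 (χ 9) * q5⁻¹ = cG.xu 9 (1 : F) := by
      have h9 := hconjh 9 (by decide) 1
      rw [mul_one] at h9
      calc q5 * cG.xu 9 (χ 9) * q5⁻¹
          = q5 * h' * cG.xu 9 (1 : F) * (q5 * h')⁻¹ := by rw [← h9]; group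
        _ = _ := by rw [hc5.eq, mul_inv_cancel_right]
    have h2 := conj_y (χ 9) a5 b5
    have h3 : X3 (coef3 (1 : F) 0 0) = cG.xu 9 (1 : F) := by
      simp [X3, three, coef3, Cert.wu, cG.xu_zero]
    rw [h3, ← h1, hy5]
    calc _ = n5 * X3 (coef3 (χ 9) a5 b5) * n5⁻¹ := by
          rw [(hN0 n5 hn5 _).eq, mul_inv_cancel_right]
      _ = _ := by rw [← h2]; group
  have hval : ∀ r ∈ three, coef3 (χ 9) a5 b5 r = coef3 (1 : F) 0 0 r := by
    intro r hr
    have hfree : ∀ f : ℕ → F, (three.map fun r => (r, f r)).Pairwise fun p q =>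
        q.1 ≠ p.1 ∧ q.1 ≠ chevG2.neg p.1 ∧ chevG2.chainEntry p.1 q.1 = [] := by
      intro f
      rw [List.pairwise_map]
      show three.Pairwise fun r r' => r' ≠ r ∧ r' ≠ chevG2.neg r ∧ chevG2.chainEntry r r' = []
      decide +kernel
    have hlt : ∀ z ∈ three, z < 12 := by decide
    have e := val_eq_of_wu_eq (x := r) (by simpa using hlt) (by simpa using hlt) (hfree _) (hfree _) hX (hlt r hr)
    simp only [three, List.mem_cons, List.not_mem_nil, or_false] at hr
    rcases hr with rfl | rfl | rfl <;> simpa [val, three] using e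
  have hα : χ 9 = 1 := by simpa [coef3] using hval 9 (by decide)
  have hb5 : b5 = 0 := by simpa [coef3, hα] using hval 11 (by decide)
  have ha5 : a5 = 0 := by simpa [coef3, hα] using hval 10 (by decide)
  have hN0K : ∀ x ∈ spanGroup chevG2 F PN0, x ∈ spanGroup chevG2 F PK := by
    intro x hx
    refine cG.span_mono (fun r hr => Or.inl ?_) hx
    have key : ∀ r < 12, PN0 r → chevG2.IsPosRoot r ∧ r ∉ out4 := by unfold PN0; decide +kernel
    exact key r (by simp only [PN0, List.mem_cons, List.not_mem_nil, or_false] at hr; omega) hr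
  have hq5K : q5 ∈ spanGroup chevG2 F PK := by
    rw [hy5, ha5, hb5]
    simpa [cG.xu_zero] using hN0K n5 hn5
  have h'K : h' ∈ spanGroup chevG2 F PK := by
    have hcart : chevG2.cartan 0 9 = 1 ∧ chevG2.cartan 1 9 = 0 := by decide +kernel
    have h0 : c 0 = 1 := by
      rw [← hα]
      simp [χ, show chevG2.rank = 2 from rfl, Finset.prod_range_succ, cartChar, hcart.1, hcart.2]
    rw [hh'e]
    show cG.wu _ ∈ _
    have key : ∀ l : List ℕ, (∀ j ∈ l, j < 2) →
        cG.wu (l.flatMap fun j => chevG2.hWord (chevG2.simple j) (c j)) ∈ spanGroup chevG2 F PK := by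
      intro l
      induction l with
      | nil => intro _; simp [Cert.wu]
      | cons j l ih =>
        intro hl
        rw [List.flatMap_cons, cG.wu_append]
        refine mul_mem ?_ (ih fun i hi => hl i (List.mem_cons_of_mem _ hi))
        show cG.hu (chevG2.simple j) (c j) ∈ _
        have := hl j List.mem_cons_self
        interval_cases j
        · rw [h0, cG.hu_one]; exact one_mem _
        · rw [cG.hu_eq]; exact mul_mem (node_mem_PK _) (node_mem_PK _)
    exact key _ fun j hj => List.mem_range.mp hj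
  have egw : a * h * n * w = k1 * (q1 * m * q2⁻¹) * k2⁻¹ := by
    rw [e1, show w = (w⁻¹)⁻¹ from (inv_inv w).symm, e2]
    simp only [m]
    group
  rw [egw, e5]
  exact mul_mem (mul_mem hk1 (mul_mem (mul_mem hk hq5K) h'K)) (inv_mem hk2)

end Cfsg.Agent.LeadWork.RootCent.G
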