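/-
The two classes of involutions of G2 in characteristic two.
-/
import Cfsg.Agent.LeadWork.RootCentralizerG2
import Cfsg.Agent.Chev.OrdersByType
import Cfsg.Agent.LeadWork.ChevFieldInvolution

set_option autoImplicit false

set_option synthInstance.maxSize 1024

universe u

namespace Cfsg.Agent.LeadWork.G2Two

open Cfsg.Lie Cfsg.Agent.Chev Cfsg.Agent.LeadWork.RootCent
open scoped Matrix

variable {F : Type u} [Field F] [CharP F 2]

/-- The certificate. -/
noncomputable abbrev cG : Cert.{u} chevG2 := certG2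

local notation "X" => cG.xu (F := F)

theorem nlt {r : ℕ} (h : r < 12) : r < chevG2.nroots := h

theorem sq_one (r : ℕ) (t : F) : X r t * X r t = 1 := by rw [cG.xu_add, CharTwo.add_self_eq_zero, cG.xu_zero]

theorem inv_eq_self (r : ℕ) (t : F) : (X r t)⁻¹ = X r t := inv_eq_of_mul_eq_one_right (sq_one r t)

/-- Commuting root elements. -/
theorem swap0 {s r : ℕ} (h : s < 12 ∧ r < 12 ∧ r ≠ s ∧ r ≠ chevG2.neg s ∧
    ∀ c ∈ chevG2.commTerms s r, c.2.1 % 2 = 0) (t v : F) : X r t * X s v = X s v * X r t :=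
  ((RootCent.G.xu_commute h v t).eq).symm

/-- The commutation rule. -/
theorem swap_gen {s r : ℕ} (hs : s < 12) (hr : r < 12) (hne : r ≠ s) (hn : r ≠ chevG2.neg s) (v t : F) :
    X r t * X s v = X s v * (X r t * cG.wu (chevG2.commWord F s r (-v) t)) := by
  have e := cG.conj_xu (nlt hs) (nlt hr) hne hn v t
  rw [inv_eq_self] at e
  rw [← e, ← mul_assoc, ← mul_assoc, sq_one, one_mul]

theorem commute_ok : ∀ p ∈ [(11, 6), (8, 6), (9, 6), (11, 7), (10, 7), (11, 8), (10, 8), (11, 9), (10, 9), (11, 10)],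
    p.2 < 12 ∧ p.1 < 12 ∧ p.1 ≠ p.2 ∧ p.1 ≠ chevG2.neg p.2 ∧
      ∀ c ∈ chevG2.commTerms p.2 p.1, c.2.1 % 2 = 0 := by decide +kernel

theorem s86 (t v : F) : X 8 t * X 6 v = X 6 v * X 8 t := swap0 (commute_ok (8, 6) (by simp)) t v
theorem s96 (t v : F) : X 9 t * X 6 v = X 6 v * X 9 t := swap0 (commute_ok (9, 6) (by simp)) t v
theorem s116 (t v : F) : X 11 t * X 6 v = X 6 v * X 11 t := swap0 (commute_ok (11, 6) (by simp)) t v
theorem s107 (t v : F) : X 10 t * X 7 v = X 7 v * X 10 t := swap0 (commute_ok (10, 7) (by simp)) t v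
theorem s117 (t v : F) : X 11 t * X 7 v = X 7 v * X 11 t := swap0 (commute_ok (11, 7) (by simp)) t v
theorem s108 (t v : F) : X 10 t * X 8 v = X 8 v * X 10 t := swap0 (commute_ok (10, 8) (by simp)) t v
theorem s118 (t v : F) : X 11 t * X 8 v = X 8 v * X 11 t := swap0 (commute_ok (11, 8) (by simp)) t v
theorem s109 (t v : F) : X 10 t * X 9 v = X 9 v * X 10 t := swap0 (commute_ok (10, 9) (by simp)) t v
theorem s119 (t v : F) : X 11 t * X 9 v = X 9 v * X 11 t := swap0 (commute_ok (11, 9) (by simp)) t v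
theorem s1110 (t v : F) : X 11 t * X 10 v = X 10 v * X 11 t := swap0 (commute_ok (11, 10) (by simp)) t v

theorem terms_ok : chevG2.commTerms 7 8 = [(9, -2, 1, 1), (10, -3, 2, 1), (11, 3, 1, 2)] ∧
    chevG2.commTerms 7 9 = [(10, 3, 1, 1)] ∧ chevG2.commTerms 8 9 = [(11, 3, 1, 1)] ∧
    chevG2.commTerms 6 10 = [(11, 1, 1, 1)] ∧
    chevG2.commTerms 6 7 = [(8, 1, 1, 1), (9, 1, 1, 2), (10, -1, 1, 3), (11, -2, 2, 3)] := by decide +kernel

theorem neg_ok : ∀ p ∈ [(8, 7), (9, 7), (9, 8), (10, 6), (7, 6)],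
    p.2 < 12 ∧ p.1 < 12 ∧ p.1 ≠ p.2 ∧ p.1 ≠ chevG2.neg p.2 := by decide +kernel

theorem three_eq_one : (3 : F) = 1 := by
  have : (2 : F) = 0 := CharTwo.two_eq_zero
  linear_combination this

theorem two_zero : (2 : F) = 0 := CharTwo.two_eq_zero

theorem s87 (t v : F) : X 8 t * X 7 v = X 7 v * (X 8 t * (X 10 (v ^ 2 * t) * X 11 (v * t ^ 2))) := by
  obtain ⟨a, b, c, d⟩ := neg_ok (8, 7) (by simp)
  rw [swap_gen a b c d]
  simp [ChevalleyDatum.commWord, terms_ok.1, Cert.wu, CharTwo.neg_eq, three_eq_one, two_zero, cG.xu_zero]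

theorem s97 (t v : F) : X 9 t * X 7 v = X 7 v * (X 9 t * X 10 (v * t)) := by
  obtain ⟨a, b, c, d⟩ := neg_ok (9, 7) (by simp)
  rw [swap_gen a b c d]
  simp [ChevalleyDatum.commWord, terms_ok.2.1, Cert.wu, CharTwo.neg_eq, three_eq_one]

theorem s98 (t v : F) : X 9 t * X 8 v = X 8 v * (X 9 t * X 11 (v * t)) := by
  obtain ⟨a, b, c, d⟩ := neg_ok (9, 8) (by simp)
  rw [swap_gen a b c d]
  simp [ChevalleyDatum.commWord, terms_ok.2.2.1, Cert.wu, CharTwo.neg_eq, three_eq_one]

theorem s106 (t v : F) : X 10 t * X 6 v = X 6 v * (X 10 t * X 11 (v * t)) := by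
  obtain ⟨a, b, c, d⟩ := neg_ok (10, 6) (by simp)
  rw [swap_gen a b c d]
  simp [ChevalleyDatum.commWord, terms_ok.2.2.2.1, Cert.wu, CharTwo.neg_eq]

theorem s76 (t v : F) : X 7 t * X 6 v =
    X 6 v * (X 7 t * (X 8 (v * t) * (X 9 (v * t ^ 2) * X 10 (v * t ^ 3)))) := by
  obtain ⟨a, b, c, d⟩ := neg_ok (7, 6) (by simp)
  rw [swap_gen a b c d]
  simp [ChevalleyDatum.commWord, terms_ok.2.2.2.2, Cert.wu, CharTwo.neg_eq, two_zero, cG.xu_zero]

theorem l86 (t v : F) (z : GL chevG2.Idx F) : X 8 t * (X 6 v * z) = X 6 v * (X 8 t * z) := by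
  rw [← mul_assoc, s86, mul_assoc]
theorem l96 (t v : F) (z : GL chevG2.Idx F) : X 9 t * (X 6 v * z) = X 6 v * (X 9 t * z) := by
  rw [← mul_assoc, s96, mul_assoc]
theorem l116 (t v : F) (z : GL chevG2.Idx F) : X 11 t * (X 6 v * z) = X 6 v * (X 11 t * z) := by
  rw [← mul_assoc, s116, mul_assoc]
theorem l107 (t v : F) (z : GL chevG2.Idx F) : X 10 t * (X 7 v * z) = X 7 v * (X 10 t * z) := by
  rw [← mul_assoc, s107, mul_assoc]
theorem l117 (t v : F) (z : GL chevG2.Idx F) : X 11 t * (X 7 v * z) = X 7 v * (X 11 t * z) := by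
  rw [← mul_assoc, s117, mul_assoc]
theorem l108 (t v : F) (z : GL chevG2.Idx F) : X 10 t * (X 8 v * z) = X 8 v * (X 10 t * z) := by
  rw [← mul_assoc, s108, mul_assoc]
theorem l118 (t v : F) (z : GL chevG2.Idx F) : X 11 t * (X 8 v * z) = X 8 v * (X 11 t * z) := by
  rw [← mul_assoc, s118, mul_assoc]
theorem l109 (t v : F) (z : GL chevG2.Idx F) : X 10 t * (X 9 v * z) = X 9 v * (X 10 t * z) := by
  rw [← mul_assoc, s109, mul_assoc]
theorem l119 (t v : F) (z : GL chevG2.Idx F) : X 11 t * (X 9 v * z) = X 9 v * (X 11 t * z) := by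
  rw [← mul_assoc, s119, mul_assoc]
theorem l1110 (t v : F) (z : GL chevG2.Idx F) : X 11 t * (X 10 v * z) = X 10 v * (X 11 t * z) := by
  rw [← mul_assoc, s1110, mul_assoc]
theorem l87 (t v : F) (z : GL chevG2.Idx F) : X 8 t * (X 7 v * z) =
    X 7 v * (X 8 t * (X 10 (v ^ 2 * t) * (X 11 (v * t ^ 2) * z))) := by
  rw [← mul_assoc, s87]; simp only [mul_assoc]
theorem l97 (t v : F) (z : GL chevG2.Idx F) : X 9 t * (X 7 v * z) = X 7 v * (X 9 t * (X 10 (v * t) * z)) := by
  rw [← mul_assoc, s97]; simp only [mul_assoc]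
theorem l98 (t v : F) (z : GL chevG2.Idx F) : X 9 t * (X 8 v * z) = X 8 v * (X 9 t * (X 11 (v * t) * z)) := by
  rw [← mul_assoc, s98]; simp only [mul_assoc]
theorem l106 (t v : F) (z : GL chevG2.Idx F) : X 10 t * (X 6 v * z) = X 6 v * (X 10 t * (X 11 (v * t) * z)) := by
  rw [← mul_assoc, s106]; simp only [mul_assoc]
theorem l76 (t v : F) (z : GL chevG2.Idx F) : X 7 t * (X 6 v * z) =
    X 6 v * (X 7 t * (X 8 (v * t) * (X 9 (v * t ^ 2) * (X 10 (v * t ^ 3) * z)))) := by
  rw [← mul_assoc, s76]; simp only [mul_assoc]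

theorem ladd (r : ℕ) (a b : F) (z : GL chevG2.Idx F) : X r a * (X r b * z) = X r (a + b) * z := by
  rw [← mul_assoc, cG.xu_add]

/-- The element with given coordinates. -/
noncomputable def U6 (a b c d e f : F) : GL chevG2.Idx F :=
  X 6 a * (X 7 b * (X 8 c * (X 9 d * (X 10 e * X 11 f))))

theorem posRoots_eq : chevG2.posRoots = [6, 7, 8, 9, 10, 11] := by decide +kernel

theorem exists_U6 {g : GL chevG2.Idx F} (hg : g ∈ chevG2.posUnipotent F) :
    ∃ a b c d e f : F, g = U6 a b c d e f := by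
  rw [← Cert.span_pos] at hg
  obtain ⟨t, -, rfl⟩ := cG.exists_prodU cG.{u}.closedSet_pos hg
  exact ⟨t 6, t 7, t 8, t 9, t 10, t 11, by simp [Cert.prodU, posRoots_eq, Cert.wu, U6, mul_assoc]⟩

theorem U6_eq_one {a b c d e f : F} (h : U6 a b c d e f = 1) :
    a = 0 ∧ b = 0 ∧ c = 0 ∧ d = 0 ∧ e = 0 ∧ f = 0 := by
  let t : ℕ → F := fun r => if r = 6 then a else if r = 7 then b else if r = 8 then c else
    if r = 9 then d else if r = 10 then e else if r = 11 then f else 0
  have h1 : cG.prodU t = cG.prodU (fun _ => (0 : F)) := by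
    rw [cG.prodU_zero, ← h]
    simp [Cert.prodU, posRoots_eq, Cert.wu, U6, t, mul_assoc]
  have hp : ∀ r ∈ [6, 7, 8, 9, 10, 11], chevG2.IsPosRoot r := by decide +kernel
  have k : ∀ r ∈ [6, 7, 8, 9, 10, 11], t r = 0 := fun r hr => cG.prodU_inj h1 r (hp r hr)
  exact ⟨k 6 (by simp), by simpa [t] using k 7 (by simp), by simpa [t] using k 8 (by simp),
    by simpa [t] using k 9 (by simp), by simpa [t] using k 10 (by simp), by simpa [t] using k 11 (by simp)⟩

/-- Conjugacy inside the group. -/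
def R (g h : GL chevG2.Idx F) : Prop := ∃ k ∈ chevG2.group F, k * g * k⁻¹ = h

theorem R.refl (g : GL chevG2.Idx F) : R g g := ⟨1, one_mem _, by simp⟩

theorem R.trans {a b c : GL chevG2.Idx F} (h1 : R a b) (h2 : R b c) : R a c := by
  obtain ⟨k, hk, rfl⟩ := h1
  obtain ⟨l, hl, rfl⟩ := h2
  exact ⟨l * k, mul_mem hl hk, by group⟩

theorem R_xu (r s : ℕ) (v : F) (g h : GL chevG2.Idx F) (e : X r v * (g * X r v) = h) (hs : r = s) : R g h :=
  ⟨X s v, cG.xu_mem_group s v, by rw [← hs, inv_eq_self, mul_assoc]; exact e⟩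

/-- Reflecting by a simple root. -/
theorem refl_conj {i r : ℕ} (hi : i < 2) (hr : r < 12) : ∃ c : F, c ≠ 0 ∧ ∀ t,
    cG.nu (chevG2.simple i) 1 * X r t * (cG.nu (chevG2.simple i) 1)⁻¹ = X (chevG2.reflectRoot i r) (c * t) :=
  cG.conj_xu_simple (show i < chevG2.rank from hi) (nlt hr)

theorem nu_mem {i : ℕ} (hi : i < 2) : cG.nu (chevG2.simple i) (1 : F) ∈ chevG2.group F := by
  rw [cG.nu_eq]
  exact mul_mem (mul_mem (cG.xu_mem_group _ _) (cG.xu_mem_group _ _)) (cG.xu_mem_group _ _)

theorem R_reflect {i r r' : ℕ} (hi : i < 2) (hr : r < 12) (he : chevG2.reflectRoot i r = r') {t : F} (ht : t ≠ 0) :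
    ∃ t' : F, t' ≠ 0 ∧ R (X r t) (X r' t') := by
  obtain ⟨c, hc, e⟩ := refl_conj (F := F) hi hr
  exact ⟨c * t, mul_ne_zero hc ht, _, nu_mem hi, by rw [e, he]⟩

theorem hu_mem (r : ℕ) (c : F) : cG.hu r c ∈ chevG2.group F := by
  rw [cG.hu_eq, cG.nu_eq, cG.nu_eq]
  exact mul_mem (mul_mem (mul_mem (cG.xu_mem_group _ _) (cG.xu_mem_group _ _)) (cG.xu_mem_group _ _))
    (mul_mem (mul_mem (cG.xu_mem_group _ _) (cG.xu_mem_group _ _)) (cG.xu_mem_group _ _))

/-- Scaling the two representatives. -/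
theorem R_scale {r : ℕ} (hr : r = 9 ∨ r = 11) {t : F} (ht : t ≠ 0) : R (X r t) (X r 1) := by
  have key : ∀ r ∈ [9, 11], r < 12 ∧ ∃ i < 2, chevG2.simple i < 12 ∧ chevG2.cartan i r = 1 := by decide +kernel
  obtain ⟨hlt, i, hi, hs, hc⟩ := key r (by simpa using hr)
  have e := cG.hu_conj_xu (nlt hs) (nlt hlt) (inv_ne_zero ht) t
  refine ⟨cG.hu (chevG2.simple i) t⁻¹, hu_mem _ _, ?_⟩
  rw [e, mul_inv_cancel_right, pairChar, cG.{u}.pairInt_simple (show i < chevG2.rank from hi), hc, zpow_one,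
    inv_mul_cancel₀ ht]

variable [Finite F]

/-- A product led by a short fundamental root. -/
theorem case7 {b e f : F} (hb : b ≠ 0) : R (X 7 b * (X 10 e * X 11 f)) (X 9 1) := by
  obtain ⟨s, hs⟩ : IsSquare (f / b) := FiniteField.isSquare_of_char_two (ringChar.eq_iff.mpr inferInstance : ringChar F = 2) _
  have h1 : R (X 7 b * (X 10 e * X 11 f)) (X 7 b * X 10 (e + b ^ 2 * s)) := by
    refine R_xu 8 8 s _ _ ?_ rfl
    simp only [mul_assoc, s86, s96, s116, s107, s117, s108, s118, s109, s119, s1110, s87, s97, s98, s106,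
      l86, l96, l116, l107, l117, l108, l118, l109, l119, l1110, l87, l97, l98, l106, ladd, cG.xu_add]
    have h : b * s ^ 2 = f := by rw [pow_two, ← hs]; field_simp
    simp only [CharTwo.add_self_eq_zero, cG.xu_zero, mul_one, one_mul, h]
    ring_nf
  set w := (e + b ^ 2 * s) / b
  have h2 : R (X 7 b * X 10 (e + b ^ 2 * s)) (X 7 b) := by
    refine R_xu 9 9 w _ _ ?_ rfl
    have h : b * w = e + b ^ 2 * s := mul_div_cancel₀ _ hb
    simp only [mul_assoc, s109, s97, l109, l97, ladd, cG.xu_add, h, CharTwo.add_self_eq_zero, cG.xu_zero, mul_one]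
  have key : chevG2.reflectRoot 1 7 = 8 ∧ chevG2.reflectRoot 0 8 = 9 := by decide +kernel
  obtain ⟨t, ht, h3⟩ := R_reflect (i := 1) (by decide) (by decide) key.1 hb
  obtain ⟨t', ht', h4⟩ := R_reflect (i := 0) (by decide) (by decide) key.2 ht
  exact (((h1.trans h2).trans h3).trans h4).trans (R_scale (Or.inl rfl) ht')

/-- The representative of an involution in the Sylow subgroup. -/
theorem classify {g : GL chevG2.Idx F} (hg : g ∈ chevG2.posUnipotent F) (h2 : g * g = 1) (h1 : g ≠ 1) :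
    R g (X 11 1) ∨ R g (X 9 1) := by
  obtain ⟨a, b, c, d, e, f, rfl⟩ := exists_U6 hg
  have hab : a = 0 ∨ b = 0 := by
    by_contra hc
    push Not at hc
    have h := h2
    simp only [U6, mul_assoc, s86, s96, s116, s107, s117, s108, s118, s109, s119, s1110, s87, s97, s98, s106, s76,
      l86, l96, l116, l107, l117, l108, l118, l109, l119, l1110, l87, l97, l98, l106, l76, ladd, cG.xu_add] at h
    obtain ⟨-, -, h8, -⟩ := U6_eq_one h
    have : a * b = 0 := by linear_combination h8 - c * (two_zero (F := F))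
    rcases mul_eq_zero.mp this with h | h
    · exact hc.1 h
    · exact hc.2 h
  by_cases hb : b = 0
  · subst hb
    have e6 : U6 a 0 c d e f = X 6 a * (X 8 c * (X 9 d * (X 10 e * X 11 f))) := by simp [U6, cG.xu_zero]
    rw [e6] at h2 h1 ⊢
    have hq : a * e + c * d = 0 := by
      have h := h2
      simp only [mul_assoc, s86, s96, s116, s108, s118, s109, s119, s1110, s98, s106,
        l86, l96, l116, l108, l118, l109, l119, l1110, l98, l106, ladd, cG.xu_add] at h
      have h' : U6 (a + a) 0 (c + c) (d + d) (e + e) (c * d + (a * e + (f + f))) = 1 := by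
        rw [← h]; simp only [U6, cG.xu_zero, one_mul]
      linear_combination (U6_eq_one h').2.2.2.2.2 - f * (two_zero (F := F))
    by_cases ha : a = 0
    · subst ha
      rw [cG.xu_zero, one_mul] at h1 ⊢
      rw [zero_mul, zero_add] at hq
      by_cases hc : c = 0
      · subst hc
        rw [cG.xu_zero, one_mul] at h1 ⊢
        by_cases hd : d = 0
        · subst hd
          rw [cG.xu_zero, one_mul] at h1 ⊢
          left
          by_cases he : e = 0
          · subst he
            rw [cG.xu_zero, one_mul] at h1 ⊢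
            exact R_scale (Or.inr rfl) fun h => h1 (by rw [h, cG.xu_zero])
          · have k : R (X 10 e * X 11 f) (X 10 e) := by
              refine R_xu 6 6 (f / e) _ _ ?_ rfl
              have h : f / e * e = f := div_mul_cancel₀ _ he
              simp only [mul_assoc, s106, s116, l106, l116, ladd, cG.xu_add, h, CharTwo.add_self_eq_zero,
                cG.xu_zero, mul_one, one_mul]
            have key : chevG2.reflectRoot 1 10 = 11 := by decide +kernel
            obtain ⟨t, ht, k'⟩ := R_reflect (i := 1) (by decide) (by decide) key he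
            exact (k.trans k').trans (R_scale (Or.inr rfl) ht)
        · right
          have k1 : R (X 9 d * (X 10 e * X 11 f)) (X 9 d * X 11 f) := by
            refine R_xu 7 7 (e / d) _ _ ?_ rfl
            have h : e / d * d = e := div_mul_cancel₀ _ hd
            simp only [mul_assoc, s97, s107, s117, s109, s119, s1110, l97, l107, l117, l109, l119, l1110, ladd,
              cG.xu_add, h, CharTwo.add_self_eq_zero, cG.xu_zero, mul_one, one_mul]
          have k2 : R (X 9 d * X 11 f) (X 9 d) := by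
            refine R_xu 8 8 (f / d) _ _ ?_ rfl
            have h : f / d * d = f := div_mul_cancel₀ _ hd
            simp only [mul_assoc, s98, s118, s119, l98, l118, l119, ladd,
              cG.xu_add, h, CharTwo.add_self_eq_zero, cG.xu_zero, mul_one, one_mul]
          exact (k1.trans k2).trans (R_scale (Or.inl rfl) hd)
      · right
        obtain rfl : d = 0 := (mul_eq_zero.mp hq).resolve_left hc
        rw [cG.xu_zero, one_mul] at h1 ⊢
        obtain ⟨c1, hc1, e1⟩ := refl_conj (F := F) (i := 1) (r := 8) (by decide) (by decide)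
        obtain ⟨c2, hc2, e2⟩ := refl_conj (F := F) (i := 1) (r := 10) (by decide) (by decide)
        obtain ⟨c3, hc3, e3⟩ := refl_conj (F := F) (i := 1) (r := 11) (by decide) (by decide)
        have key : chevG2.reflectRoot 1 8 = 7 ∧ chevG2.reflectRoot 1 10 = 11 ∧ chevG2.reflectRoot 1 11 = 10 := by
          decide +kernel
        simp only [key, ← MulAut.conj_apply] at e1 e2 e3
        have k : R (X 8 c * (X 10 e * X 11 f)) (X 7 (c1 * c) * (X 10 (c3 * f) * X 11 (c2 * e))) :=
          ⟨_, nu_mem (by decide : 1 < 2), by rw [← MulAut.conj_apply, map_mul, map_mul, e1, e2, e3, s1110]⟩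
        exact k.trans (case7 (mul_ne_zero hc1 hc))
    · -- kill the coordinate at 8, then at 11
      have k1 : ∃ d' e' f' : F, R (X 6 a * (X 8 c * (X 9 d * (X 10 e * X 11 f))))
          (X 6 a * (X 9 d' * (X 10 e' * X 11 f'))) := by
        refine ⟨?kd, ?ke, ?kf, R_xu 7 7 (c / a) _ _ ?key rfl⟩
        case key =>
          have h : a * (c / a) = c := mul_div_cancel₀ _ ha
          simp only [mul_assoc, s86, s96, s116, s107, s117, s108, s118, s109, s119, s1110, s87, s97, s98, s106, s76,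
            l86, l96, l116, l107, l117, l108, l118, l109, l119, l1110, l87, l97, l98, l106, l76, ladd, cG.xu_add,
            h, CharTwo.add_self_eq_zero, cG.xu_zero, mul_one, one_mul]
          rfl
      obtain ⟨d', e', f', k1⟩ := k1
      have he' : e' = 0 := by
        obtain ⟨k, hk, ek⟩ := k1
        have h : (X 6 a * (X 9 d' * (X 10 e' * X 11 f'))) * (X 6 a * (X 9 d' * (X 10 e' * X 11 f'))) = 1 := by
          rw [← ek]
          calc _ = k * ((X 6 a * (X 8 c * (X 9 d * (X 10 e * X 11 f)))) *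
                (X 6 a * (X 8 c * (X 9 d * (X 10 e * X 11 f))))) * k⁻¹ := by group
            _ = 1 := by rw [h2]; group
        simp only [mul_assoc, s96, s116, s109, s119, s1110, s106, l96, l116, l109, l119, l1110, l106, ladd,
          cG.xu_add] at h
        have h' : U6 (a + a) 0 0 (d' + d') (e' + e') (a * e' + (f' + f')) = 1 := by
          rw [← h]; simp only [U6, cG.xu_zero, one_mul]
        have : a * e' = 0 := by linear_combination (U6_eq_one h').2.2.2.2.2 - f' * (two_zero (F := F))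
        exact (mul_eq_zero.mp this).resolve_left ha
      subst he'
      rw [cG.xu_zero, one_mul] at k1
      have k2 : R (X 6 a * (X 9 d' * X 11 f')) (X 6 a * X 9 d') := by
        refine R_xu 10 10 (f' / a) _ _ ?_ rfl
        have h : a * (f' / a) = f' := mul_div_cancel₀ _ ha
        simp only [mul_assoc, s106, s109, s1110, s119, l106, l109, l1110, l119, ladd, cG.xu_add, h,
          CharTwo.add_self_eq_zero, cG.xu_zero, mul_one, one_mul]
      have key : chevG2.reflectRoot 0 6 = 10 ∧ chevG2.reflectRoot 0 9 = 8 ∧ chevG2.reflectRoot 1 10 = 11 ∧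
          chevG2.reflectRoot 1 8 = 7 := by decide +kernel
      obtain ⟨c1, hc1, e1⟩ := refl_conj (F := F) (i := 0) (r := 6) (by decide) (by decide)
      obtain ⟨c2, hc2, e2⟩ := refl_conj (F := F) (i := 0) (r := 9) (by decide) (by decide)
      obtain ⟨c3, hc3, e3⟩ := refl_conj (F := F) (i := 1) (r := 10) (by decide) (by decide)
      obtain ⟨c4, hc4, e4⟩ := refl_conj (F := F) (i := 1) (r := 8) (by decide) (by decide)
      simp only [key, ← MulAut.conj_apply] at e1 e2 e3 e4
      have k3 : R (X 6 a * X 9 d') (X 10 (c1 * a) * X 8 (c2 * d')) :=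
        ⟨_, nu_mem (by decide : 0 < 2), by rw [← MulAut.conj_apply, map_mul, e1, e2]⟩
      have k4 : R (X 10 (c1 * a) * X 8 (c2 * d')) (X 7 (c4 * (c2 * d')) * X 11 (c3 * (c1 * a))) :=
        ⟨_, nu_mem (by decide : 1 < 2), by rw [← MulAut.conj_apply, map_mul, e3, e4, s117]⟩
      have k := ((k1.trans k2).trans k3).trans k4
      by_cases hd' : d' = 0
      · left
        subst hd'
        simp only [mul_zero, cG.xu_zero, one_mul] at k
        exact k.trans (R_scale (Or.inr rfl) (mul_ne_zero hc3 (mul_ne_zero hc1 ha)))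
      · right
        have k5 := case7 (e := 0) (f := c3 * (c1 * a)) (mul_ne_zero hc4 (mul_ne_zero hc2 hd'))
        rw [cG.xu_zero, one_mul] at k5
        exact k.trans k5
  · right
    obtain rfl : a = 0 := hab.resolve_right hb
    have e7 : U6 0 b c d e f = X 7 b * (X 8 c * (X 9 d * (X 10 e * X 11 f))) := by simp [U6, cG.xu_zero]
    rw [e7] at h2 h1 ⊢
    have hd : d = b * c := by
      have h := h2
      simp only [mul_assoc, s107, s117, s108, s118, s109, s119, s1110, s87, s97, s98,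
        l107, l117, l108, l118, l109, l119, l1110, l87, l97, l98, ladd, cG.xu_add] at h
      have h' : U6 0 (b + b) (c + c) (d + d) (b * d + (b ^ 2 * c + (e + e))) (c * d + (b * c ^ 2 + (f + f))) = 1 := by
        rw [← h]; simp only [U6, cG.xu_zero, one_mul]; ring_nf
      have he : b * (d + b * c) = 0 := by linear_combination (U6_eq_one h').2.2.2.2.1 - e * (two_zero (F := F))
      exact CharTwo.add_eq_zero.mp ((mul_eq_zero.mp he).resolve_left hb)
    subst hd
    have k : ∃ e' f' : F, R (X 7 b * (X 8 c * (X 9 (b * c) * (X 10 e * X 11 f)))) (X 7 b * (X 10 e' * X 11 f')) := by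
      refine ⟨?le, ?lf, R_xu 6 6 (c / b) _ _ ?key2 rfl⟩
      case key2 =>
        have h : c / b * b = c := div_mul_cancel₀ _ hb
        have h' : c / b * b ^ 2 = b * c := by field_simp
        simp only [mul_assoc, s86, s96, s116, s107, s117, s108, s118, s109, s119, s1110, s87, s97, s98, s106, s76,
          l86, l96, l116, l107, l117, l108, l118, l109, l119, l1110, l87, l97, l98, l106, l76, ladd, cG.xu_add,
          h, h', CharTwo.add_self_eq_zero, cG.xu_zero, mul_one, one_mul, zero_mul]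
        rfl
    obtain ⟨e', f', k⟩ := k
    exact k.trans (case7 hb)

omit [Finite F] in
/-- The two representatives are not conjugate. -/
theorem not_conj : ¬ R (X 11 (1 : F)) (X 9 1) := by
  rintro ⟨h, hh, eh⟩
  obtain ⟨n, hn, hcell⟩ := cG.exists_bruhat coxG2 hh
  obtain ⟨b, hb, w, hw, rfl⟩ := cG.exists_canonical coxG2 hn hcell
  obtain ⟨a, ha, t, ht, rfl⟩ := cG.mem_borel.mp hb
  have hwU : w ∈ chevG2.posUnipotent F := cG.span_mono (fun r hr => hr.1) hw
  have hw11 : w * X 11 (1 : F) * w⁻¹ = X 11 1 := by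
    have hle : chevG2.posUnipotent F ≤ Subgroup.centralizer {X 11 (1 : F)} := by
      rw [← Cert.span_pos]
      refine cG.span_le fun r hr v => Subgroup.mem_centralizer_singleton_iff.mpr ?_
      have key : ∀ r < 12, chevG2.IsPosRoot r → r ≠ 11 → r < 12 ∧ 11 < 12 ∧ 11 ≠ r ∧ 11 ≠ chevG2.neg r ∧
          ∀ c ∈ chevG2.commTerms r 11, c.2.1 % 2 = 0 := by decide +kernel
      by_cases he : r = 11
      · subst he; rw [cG.xu_add, cG.xu_add, add_comm]
      · exact (RootCent.G.xu_commute (key r hr.1 hr he) v 1).eq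
    rw [Subgroup.mem_centralizer_singleton_iff.mp (hle hwU), mul_inv_cancel_right]
  set m := t * n
  have hmN : m ∈ chevG2.monomialSubgroup F := mul_mem (cG.diagonal_le_monomial ht) hn
  obtain ⟨L, -, hconj⟩ := cG.monomial_conj_xu coxG2 hmN
  obtain ⟨κ, hκ, e11⟩ := hconj 11 (nlt (by decide))
  obtain ⟨k, hk, q, hq, e1⟩ := RootCent.G.pos_decomp ha
  obtain ⟨n1, hn1, r1, p1, hy⟩ := RootCent.G.radical_decomp (inv_mem hq)
  have hN0 : Commute n1 (RootCent.G.X3 (RootCent.G.coef3 (1 : F) r1 p1)) := by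
    have key : ∀ r < 12, RootCent.G.PN0 r → ∀ z ∈ RootCent.G.three, z ≠ r → z < 12 ∧ z ≠ chevG2.neg r ∧
        ∀ c ∈ chevG2.commTerms r z, c.2.1 % 2 = 0 := by unfold RootCent.G.PN0; decide +kernel
    refine Commute.list_prod_right _ _ fun x hx => ?_
    obtain ⟨p, hp, rfl⟩ := List.mem_map.mp hx
    obtain ⟨z, hz, rfl⟩ := List.mem_map.mp hp
    have hle : spanGroup chevG2 F RootCent.G.PN0 ≤
        Subgroup.centralizer {X z (RootCent.G.coef3 (1 : F) r1 p1 z)} := by
      refine cG.span_le fun r hr v => Subgroup.mem_centralizer_singleton_iff.mpr ?_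
      have hr' : r < 12 := by
        simp only [RootCent.G.PN0, List.mem_cons, List.not_mem_nil, or_false] at hr
        omega
      by_cases he : z = r
      · subst he; rw [cG.xu_add, cG.xu_add, add_comm]
      · obtain ⟨hz', h1, h2⟩ := key r hr' hr z hz he
        exact (RootCent.G.xu_commute ⟨hr', hz', he, h1, h2⟩ v _).eq
    exact Subgroup.mem_centralizer_singleton_iff.mp (hle hn1)
  have e : X (act chevG2 (L.map Fin.val) 11) (κ * 1) = RootCent.G.X3 (RootCent.G.coef3 (1 : F) r1 p1) := by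
    rw [← e11]
    have h1 : a * m * X 11 (1 : F) * m⁻¹ * a⁻¹ = X 9 1 := by
      rw [← eh]
      conv_lhs => rw [← hw11]
      simp only [m]; group
    calc m * X 11 (1 : F) * m⁻¹ = a⁻¹ * X 9 1 * a := by rw [← h1]; group
      _ = q⁻¹ * (k⁻¹ * X 9 1 * k) * q := by rw [e1]; group
      _ = q⁻¹ * X 9 1 * q := by
          rw [((RootCent.G.mem_PK_commute hk (1 : F)).inv_left).eq, inv_mul_cancel_right]
      _ = n1 * (X 8 p1 * X 7 r1 * X 9 1 * (X 8 p1 * X 7 r1)⁻¹) * n1⁻¹ := by
          rw [show q = (q⁻¹)⁻¹ from (inv_inv q).symm, hy]; group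
      _ = _ := by rw [RootCent.G.conj_y, hN0.eq, mul_inv_cancel_right]
  have hlt := cG.{u}.act_lt (cG.{u}.fin_word_lt L) (nlt (r := 11) (by decide))
  have hv := RootCent.G.val_eq_of_wu_eq (L := [(act chevG2 (L.map Fin.val) 11, κ * 1)])
    (L' := RootCent.G.three.map fun r => (r, RootCent.G.coef3 (1 : F) r1 p1 r))
    (fun p hp => by rw [List.mem_singleton.mp hp]; exact hlt)
    (by
      intro p hp
      obtain ⟨z, hz, rfl⟩ := List.mem_map.mp hp
      have hk : ∀ z ∈ RootCent.G.three, z < 12 := by decide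
      exact hk z hz)
    (List.pairwise_singleton _ _)
    (by
      rw [List.pairwise_map]
      show RootCent.G.three.Pairwise fun r r' => r' ≠ r ∧ r' ≠ chevG2.neg r ∧ chevG2.chainEntry r r' = []
      decide +kernel)
    (by rw [← RootCent.G.X3]; simpa [Cert.wu] using e) (x := 9) (by decide)
  have hne : act chevG2 (L.map Fin.val) 11 ≠ 9 := by
    intro h9
    have h := RootCent.len_act RootCent.dataG2long cG.{u} (cG.{u}.fin_word_lt L) (nlt (r := 11) (by decide))
    rw [h9] at h
    revert h; decide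
  simp [RootCent.G.val, RootCent.G.three, RootCent.G.coef3, hne] at hv

/-- Every involution of the group is conjugate to one of the two. -/
theorem every [Fintype F] {g : GL chevG2.Idx F} (hg : g ∈ chevG2.group F) (h2 : orderOf g = 2) :
    R g (X 11 1) ∨ R g (X 9 1) := by
  classical
  have : Fact (Nat.Prime 2) := ⟨Nat.prime_two⟩
  have hU : chevG2.posUnipotent F ≤ chevG2.group F := cG.pos_le_borel.trans cG.borel_le_group
  obtain ⟨P, hP⟩ := IsPGroup.exists_le_sylow (p := 2)
    (LeadWork.ChevField.isPGroup_pos cG 2 |>.of_equiv (Subgroup.subgroupOfEquivOfLe hU).symm)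
  have hcard : Nat.card P = Nat.card ((chevG2.posUnipotent F).subgroupOf (chevG2.group F)) := by
    rw [Nat.card_congr (Subgroup.subgroupOfEquivOfLe hU).toEquiv, cG.natCard_posUnipotent, P.card_eq_multiplicity,
      Cfsg.Agent.Chev.orderG2 rfl]
    obtain ⟨n, -, hn⟩ := FiniteField.card F 2
    have h1 : ∀ j, 0 < j → ¬ 2 ∣ (2 ^ (n : ℕ)) ^ j - 1 := fun j hj h => by
      have : 2 ∣ (2 ^ (n : ℕ)) ^ j := dvd_pow (dvd_pow_self 2 n.pos.ne') (by omega)
      have : 1 ≤ (2 ^ (n : ℕ)) ^ j := Nat.one_le_pow _ _ (pow_pos (by norm_num) _)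
      omega
    have h0 : ∀ j, 0 < j → (2 ^ (n : ℕ)) ^ j - 1 ≠ 0 := fun j hj h => h1 j hj (h ▸ dvd_zero 2)
    rw [show chevG2.nroots / 2 = 6 from rfl, hn, mul_assoc, Nat.factorization_mul (by positivity)
      (mul_ne_zero (h0 2 (by norm_num)) (h0 6 (by norm_num))), Nat.factorization_mul (h0 2 (by norm_num)) (h0 6 (by norm_num))]
    simp only [Finsupp.add_apply, Nat.factorization_eq_zero_of_not_dvd (h1 2 (by norm_num)),
      Nat.factorization_eq_zero_of_not_dvd (h1 6 (by norm_num)), add_zero]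
    rw [← pow_mul, Nat.prime_two.factorization_pow, Finsupp.single_eq_same]
  have hPU : (P : Subgroup (chevG2.group F)) = (chevG2.posUnipotent F).subgroupOf (chevG2.group F) :=
    (Subgroup.eq_of_le_of_card_ge hP hcard.le).symm
  set G0 : chevG2.group F := ⟨g, hg⟩
  obtain ⟨Q, hQ⟩ := IsPGroup.exists_le_sylow (p := 2) (show IsPGroup 2 (Subgroup.zpowers G0) from
    IsPGroup.of_card (n := 1) (by rw [Nat.card_zpowers, ← Subgroup.orderOf_coe, pow_one]; exact h2))
  obtain ⟨k, hk⟩ := MulAction.exists_smul_eq (chevG2.group F) Q P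
  have hmem : k * G0 * k⁻¹ ∈ (P : Subgroup (chevG2.group F)) := by
    rw [← hk, Sylow.coe_subgroup_smul]
    exact Subgroup.smul_mem_pointwise_smul G0 (MulAut.conj k) _ (hQ (Subgroup.mem_zpowers G0))
  rw [hPU, Subgroup.mem_subgroupOf] at hmem
  set g' : GL chevG2.Idx F := (k : GL chevG2.Idx F) * g * (k : GL chevG2.Idx F)⁻¹
  have hg2 : g * g = 1 := by rw [← pow_two, ← h2]; exact pow_orderOf_eq_one g
  have h1 : g' * g' = 1 := by
    calc g' * g' = (k : GL chevG2.Idx F) * (g * g) * (k : GL chevG2.Idx F)⁻¹ := by simp only [g']; group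
      _ = 1 := by rw [hg2]; group
  have hne : g' ≠ 1 := fun h => by
    have : g = 1 := by
      calc g = (k : GL chevG2.Idx F)⁻¹ * g' * (k : GL chevG2.Idx F) := by simp only [g']; group
        _ = 1 := by rw [h]; group
    rw [this, orderOf_one] at h2; omega
  have hR : R g g' := ⟨_, k.2, rfl⟩
  rcases classify (by simpa [G0, g'] using hmem) h1 hne with h | h
  · exact Or.inl (hR.trans h)
  · exact Or.inr (hR.trans h)

end Cfsg.Agent.LeadWork.G2Two
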