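import Cfsg.Agent.Chars2.ExtraspecialChar
import Cfsg.Agent.Chars2.DegreeInherit
import Cfsg.Agent.BlockChar.CharCount
import Cfsg.Agent.FGS3.PGroupFrattini
import Cfsg.Agent.OddLocal.NilBasics

/-!
Nilpotent groups with exactly one character of degree divisible by `p`.
-/

set_option autoImplicit false
set_option linter.style.haveILetI false
set_option linter.unusedSectionVars false
set_option linter.unusedVariables false

namespace Cfsg.Agent.LeadWork.OneNonlinear

open Cfsg Cfsg.Agent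
open scoped ComplexConjugate commutatorElement

universe u

variable {G : Type u} [Group G] [Finite G] {p : ℕ} [hp : Fact p.Prime]

theorem eq_one_of_hom_forall {x : G} (hx : x ∉ commutator G) : ∃ φ : G →* ℂˣ, φ x ≠ 1 := by
  obtain ⟨φ, hφ⟩ := CommGroup.exists_apply_ne_one_of_hasEnoughRootsOfUnity (Abelianization G) ℂ
    (a := Abelianization.of x) (fun h => hx ((QuotientGroup.eq_one_iff x).mp h))
  exact ⟨φ.comp Abelianization.of, hφ⟩

theorem nilpotent_exists_hom (P : Sylow p G) [Group.IsNilpotent G] (hp' : p ∣ Nat.card G) :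
    ∃ f : G →* (P : Subgroup G), Function.Surjective f := by
  classical
  obtain ⟨e⟩ := (Group.isNilpotent_of_finite_tfae (G := G)).out 0 4 rfl rfl |>.mp inferInstance
  let i : (Nat.card G).primeFactors := ⟨p, Nat.mem_primeFactors.mpr ⟨hp.out, hp', Nat.card_pos.ne'⟩⟩
  refine ⟨((Pi.evalMonoidHom (fun Q : Sylow p G => ((Q : Subgroup G) : Type u)) P).comp
    (Pi.evalMonoidHom (fun j : (Nat.card G).primeFactors => ∀ Q : Sylow j G, ((Q : Subgroup G) : Type u)) i)).comp
    e.symm.toMonoidHom, ?_⟩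
  intro y
  obtain ⟨h, hh⟩ := Function.surjective_eval (β := fun Q : Sylow p G => ((Q : Subgroup G) : Type u)) P y
  obtain ⟨F, hF⟩ := Function.surjective_eval
    (β := fun j : (Nat.card G).primeFactors => ∀ Q : Sylow j G, ((Q : Subgroup G) : Type u)) i h
  obtain ⟨g, hg⟩ := e.symm.surjective F
  refine ⟨g, ?_⟩
  simp only [MonoidHom.coe_comp, Function.comp_apply, MulEquiv.coe_toMonoidHom, hg]
  show F i P = y
  rw [← hh, ← hF]

/-- A nilpotent group with a unique character of degree divisible by `p` is a `p`-group. -/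
theorem isPGroup_of_unique [Group.IsNilpotent G] {χ₀ : IrrCharacter G}
    (h : ∀ χ : IrrCharacter G, p ∣ charDegree (χ : G → ℂ) ↔ χ = χ₀) : IsPGroup p G := by
  haveI := Fintype.ofFinite G
  have hχ₀ : p ∣ charDegree (χ₀ : G → ℂ) := (h χ₀).2 rfl
  have hpG : p ∣ Nat.card G := hχ₀.trans (BlockChar.charDegree_dvd_card χ₀.2)
  obtain ⟨P⟩ : Nonempty (Sylow p G) := inferInstance
  by_cases hab : ∀ x ∈ (P : Subgroup G), ∀ y ∈ (P : Subgroup G), x * y = y * x
  · exact absurd (hχ₀.trans (Chars2.charDegree_dvd_index hab χ₀)) P.not_dvd_index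
  obtain ⟨f, hf⟩ := nilpotent_exists_hom P hpG
  obtain ⟨θ, hθ⟩ : ∃ θ : IrrCharacter (P : Subgroup G), p ∣ charDegree (θ : ↥(P : Subgroup G) → ℂ) := by
    by_contra hc
    push Not at hc
    refine hab fun x hx y hy => congrArg Subtype.val
      (Chars2.comm_of_degree_one (fun θ => ?_) (⟨x, hx⟩ : (P : Subgroup G)) ⟨y, hy⟩)
    obtain ⟨k, hk⟩ := IsPGroup.iff_card.1 P.2
    haveI := Fintype.ofFinite (P : Subgroup G)
    have hdd := BlockChar.charDegree_dvd_card θ.2
    rw [hk] at hdd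
    obtain ⟨j, -, hj⟩ := (Nat.dvd_prime_pow hp.out).mp hdd
    have hj0 : j = 0 := by
      by_contra h0
      exact hc θ (hj ▸ dvd_pow_self p h0)
    rw [hj, hj0, pow_zero]
  haveI := Fintype.ofFinite (P : Subgroup G)
  let χ : IrrCharacter G := ⟨_, Chars.isIrrCharacter_comp_surjective θ.2 f hf⟩
  have hχ : (χ : G → ℂ) 1 = (θ : ↥(P : Subgroup G) → ℂ) 1 := congrArg (θ : _ → ℂ) (map_one f)
  have hdeg : charDegree (χ : G → ℂ) = charDegree (θ : ↥(P : Subgroup G) → ℂ) := by
    rw [charDegree, charDegree, hχ]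
  have hχeq : χ = χ₀ := (h χ).1 (hdeg ▸ hθ)
  -- linear characters trivial on `P`
  have hker : ∀ φ : G →* ℂˣ, ∀ g ∈ f.ker, φ g = 1 := by
    intro φ g hg
    have hirr := Chars.isIrrCharacter_mul_hom χ.2 φ
    have h1 : (⟨_, hirr⟩ : IrrCharacter G) = χ₀ := (h _).1 (by
      have : charDegree (fun x => (φ x : ℂ) * (χ : G → ℂ) x) = charDegree (χ : G → ℂ) := by
        rw [charDegree, charDegree, map_one, Units.val_one, one_mul]
      rw [this, hdeg]; exact hθ)
    have h2 := congrFun (congrArg Subtype.val (h1.trans hχeq.symm)) g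
    have h3 : (χ : G → ℂ) g = (θ : ↥(P : Subgroup G) → ℂ) 1 := by
      show (θ : _ → ℂ) (f g) = _
      rw [(MonoidHom.mem_ker).1 hg]
    simp only at h2
    rw [h3] at h2
    exact Units.ext ((mul_eq_right₀ (Chars.irr_apply_one_ne_zero θ.2)).1 h2)
  have hsub : f.ker ≤ commutator G := by
    intro g hg
    by_contra hg'
    obtain ⟨φ, hφ⟩ := eq_one_of_hom_forall hg'
    exact hφ (hker φ g hg)
  -- `G'` of a nilpotent group: descend by a surjection onto the `p'`-part
  have hKbot : f.ker = ⊥ := by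
    by_contra hne
    haveI : Nontrivial f.ker := (Subgroup.nontrivial_iff_ne_bot _).2 hne
    have hinf : f.ker ⊓ (P : Subgroup G) = ⊥ := by
      refine Subgroup.inf_eq_bot_of_coprime ?_
      have h1 := f.ker.card_mul_index
      rw [Subgroup.index_ker, MonoidHom.range_eq_top.2 hf, Subgroup.card_top] at h1
      obtain ⟨k, hk⟩ := IsPGroup.iff_card.1 P.2
      have h2 := (P : Subgroup G).card_mul_index
      rw [← h1, mul_comm] at h2
      have h3 : (P : Subgroup G).index = Nat.card f.ker :=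
        Nat.eq_of_mul_eq_mul_right Nat.card_pos h2
      rw [← h3, hk]
      exact ((hp.out.coprime_iff_not_dvd.2 P.not_dvd_index).symm).pow_right k
    haveI : Group.IsSolvable f.ker := inferInstance
    have hlt := Group.IsSolvable.commutator_lt_top_of_nontrivial (G := f.ker)
    -- `G = K P` with commuting factors, so `G' ∩ K = K'`
    have hcomm : ∀ a ∈ f.ker, ∀ b ∈ (P : Subgroup G), a * b = b * a := fun a ha b hb =>
      (Subgroup.commute_of_normal_of_disjoint f.ker (P : Subgroup G) inferInstance inferInstance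
        (disjoint_iff.2 hinf) a b ha hb).eq
    have hdec : ∀ g : G, ∃ a ∈ f.ker, ∃ b ∈ (P : Subgroup G), g = a * b := by
      intro g
      have hb : ∃ b ∈ (P : Subgroup G), f b = f g := by
        have hinj : Function.Injective (fun b : (P : Subgroup G) => f b) := by
          intro b c hbc
          have : (b : G)⁻¹ * c ∈ f.ker ⊓ (P : Subgroup G) :=
            Subgroup.mem_inf.2 ⟨by rw [MonoidHom.mem_ker, map_mul, map_inv, inv_mul_eq_one]; exact hbc,
             (P : Subgroup G).mul_mem ((P : Subgroup G).inv_mem b.2) c.2⟩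
          rw [hinf, Subgroup.mem_bot, inv_mul_eq_one] at this
          exact Subtype.ext this
        obtain ⟨b, hb⟩ := (Finite.injective_iff_surjective.1 hinj) (f g)
        exact ⟨b, b.2, hb⟩
      obtain ⟨b, hbP, hbf⟩ := hb
      exact ⟨g * b⁻¹, by rw [MonoidHom.mem_ker, map_mul, map_inv, hbf, mul_inv_cancel], b, hbP,
        (inv_mul_cancel_right g b).symm⟩
    have hcle : commutator G ≤ (⁅f.ker, f.ker⁆ : Subgroup G) ⊔ (P : Subgroup G) := by
      rw [commutator_def, Subgroup.commutator_le]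
      intro x _ y _
      obtain ⟨a, ha, b, hb, rfl⟩ := hdec x
      obtain ⟨c, hc, d, hd, rfl⟩ := hdec y
      have e : ⁅a * b, c * d⁆ = ⁅a, c⁆ * ⁅b, d⁆ := by
        simp only [commutatorElement_def, mul_inv_rev]
        have e1 : Commute b c := (hcomm c hc b hb).symm
        have e2 : Commute d a⁻¹ := (hcomm a⁻¹ (inv_mem ha) d hd).symm
        have e3 : Commute b a⁻¹ := (hcomm a⁻¹ (inv_mem ha) b hb).symm
        have e4 : Commute (b * d * b⁻¹) c⁻¹ := (hcomm c⁻¹ (inv_mem hc) _ (mul_mem (mul_mem hb hd) (inv_mem hb))).symm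
        have e5 : Commute (b * d * b⁻¹) a⁻¹ := (hcomm a⁻¹ (inv_mem ha) _ (mul_mem (mul_mem hb hd) (inv_mem hb))).symm
        calc a * b * (c * d) * (b⁻¹ * a⁻¹) * (d⁻¹ * c⁻¹)
            = a * (b * c) * d * b⁻¹ * a⁻¹ * (d⁻¹ * c⁻¹) := by group
          _ = a * c * ((b * d * b⁻¹) * a⁻¹) * (d⁻¹ * c⁻¹) := by rw [e1.eq]; group
          _ = a * c * a⁻¹ * ((b * d * b⁻¹ * d⁻¹) * c⁻¹) := by rw [e5.eq]; group
          _ = a * c * a⁻¹ * c⁻¹ * (b * d * b⁻¹ * d⁻¹) := by
            rw [← (hcomm c⁻¹ (inv_mem hc) _ (mul_mem (mul_mem (mul_mem hb hd) (inv_mem hb)) (inv_mem hd)))]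
            group
      rw [e]
      exact Subgroup.mul_mem_sup (Subgroup.commutator_mem_commutator ha hc)
        ((P : Subgroup G).mul_mem ((P : Subgroup G).mul_mem ((P : Subgroup G).mul_mem hb hd)
          ((P : Subgroup G).inv_mem hb)) ((P : Subgroup G).inv_mem hd))
    refine hlt.ne (eq_top_iff.2 fun a _ => ?_)
    have ha := hcle (hsub a.2)
    rw [Subgroup.mem_sup_of_normal_right] at ha
    obtain ⟨y, hy, z, hz, hyz⟩ := ha
    have hyK : y ∈ f.ker := Subgroup.commutator_le_self f.ker hy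
    have hzK : z ∈ f.ker ⊓ (P : Subgroup G) :=
      Subgroup.mem_inf.2 ⟨by rw [show z = y⁻¹ * a by rw [← hyz, inv_mul_cancel_left]]
                             exact f.ker.mul_mem (f.ker.inv_mem hyK) a.2, hz⟩
    rw [hinf, Subgroup.mem_bot] at hzK
    rw [hzK, mul_one] at hyz
    rw [← Subgroup.map_subtype_commutator, hyz] at hy
    obtain ⟨w, hw, hwa⟩ := hy
    rwa [← Subtype.ext hwa]
  exact IsPGroup.of_injective P.2 f ((MonoidHom.ker_eq_bot_iff f).1 hKbot)

/-- A `p`-group with a unique nonlinear character is an extraspecial `2`-group. -/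
theorem extraspecial_of_unique (hG : IsPGroup p G) {χ₀ : IrrCharacter G}
    (h : ∀ χ : IrrCharacter G, p ∣ charDegree (χ : G → ℂ) ↔ χ = χ₀) :
    p = 2 ∧ IsExtraspecial 2 G := by
  classical
  haveI := Fintype.ofFinite G
  obtain ⟨k, hk⟩ := IsPGroup.iff_card.1 hG
  have hlin : ∀ χ : IrrCharacter G, ¬ p ∣ charDegree (χ : G → ℂ) → charDegree (χ : G → ℂ) = 1 := by
    intro χ hχ
    obtain ⟨j, -, hj⟩ := (Nat.dvd_prime_pow hp.out).mp (hk ▸ BlockChar.charDegree_dvd_card χ.2)
    have hj0 : j = 0 := by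
      by_contra h0
      exact hχ (hj ▸ dvd_pow_self p h0)
    rw [hj, hj0, pow_zero]
  have hχ₀ : p ∣ charDegree (χ₀ : G → ℂ) := (h χ₀).2 rfl
  have hd1 : charDegree (χ₀ : G → ℂ) ≠ 1 := fun e => hp.out.ne_one (Nat.dvd_one.1 (e ▸ hχ₀))
  have hG'ne : commutator G ≠ ⊥ := by
    intro e
    refine hd1 ?_
    have hc : ∀ a ∈ (⊤ : Subgroup G), ∀ b ∈ (⊤ : Subgroup G), a * b = b * a := fun a _ b _ => by
      have := Subgroup.commutator_mem_commutator (Subgroup.mem_top a) (Subgroup.mem_top b)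
      rw [← commutator_def, e, Subgroup.mem_bot] at this
      exact commutatorElement_eq_one_iff_mul_comm.1 this
    simpa using Chars2.charDegree_dvd_index hc χ₀
  haveI := hG.isNilpotent
  obtain ⟨z, hzG, hz1, hzc⟩ := OddLocal.exists_ne_one_mem_center_of_normal (commutator G) hG'ne
  obtain ⟨j, hj⟩ := hG z
  obtain ⟨w, hwG, hwc, hw⟩ : ∃ w : G, w ∈ commutator G ∧ w ∈ Subgroup.center G ∧ orderOf w = p := by
    obtain ⟨i, hi⟩ := IsPGroup.iff_orderOf.1 hG z
    have hi0 : i ≠ 0 := by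
      rintro rfl
      exact hz1 (orderOf_eq_one_iff.1 (by rw [hi, pow_zero]))
    refine ⟨z ^ (p ^ (i - 1)), pow_mem hzG _, pow_mem hzc _, ?_⟩
    rw [orderOf_pow' _ (pow_ne_zero _ hp.out.ne_zero), hi,
      Nat.gcd_eq_right (pow_dvd_pow p (Nat.sub_le i 1)), Nat.pow_div (Nat.sub_le i 1) hp.out.pos,
      show i - (i - 1) = 1 by omega, pow_one]
  set N : Subgroup G := Subgroup.zpowers w with hN
  have hNc : N ≤ Subgroup.center G := Subgroup.zpowers_le.2 hwc
  haveI : N.Normal := ⟨fun n hn g => by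
    rwa [Subgroup.mem_center_iff.1 (hNc hn) g, mul_inv_cancel_right]⟩
  have hNcard : Nat.card N = p := by rw [hN, Nat.card_zpowers, hw]
  -- `G' = N`
  have hG'N : commutator G = N := by
    refine le_antisymm ?_ (Subgroup.zpowers_le.2 hwG)
    by_contra hle
    obtain ⟨θ, hθ⟩ : ∃ θ : IrrCharacter (G ⧸ N), charDegree (θ : G ⧸ N → ℂ) ≠ 1 := by
      by_contra hc
      push Not at hc
      refine hle ?_
      rw [commutator_def, Subgroup.commutator_le]
      intro a _ b _
      rw [← QuotientGroup.eq_one_iff, ← QuotientGroup.mk'_apply, map_commutatorElement,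
        commutatorElement_eq_one_iff_mul_comm]
      exact Chars2.comm_of_degree_one hc _ _
    haveI := Fintype.ofFinite (G ⧸ N)
    let χ : IrrCharacter G :=
      ⟨_, Chars.isIrrCharacter_comp_surjective θ.2 _ (QuotientGroup.mk'_surjective N)⟩
    have hdeg : charDegree (χ : G → ℂ) = charDegree (θ : G ⧸ N → ℂ) := by
      show charDegree ((θ : G ⧸ N → ℂ) ∘ QuotientGroup.mk' N) = _
      rw [charDegree, charDegree, Function.comp_apply, map_one]
    have hχ : χ = χ₀ := by
      refine (h χ).1 ?_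
      by_contra hc
      exact hθ (hdeg ▸ hlin χ hc)
    have hconj : IsConj w 1 := BlockChar.isConj_of_forall_irr fun ψ => by
      by_cases hψ : p ∣ charDegree (ψ : G → ℂ)
      · rw [(h ψ).1 hψ, ← hχ]
        show (θ : G ⧸ N → ℂ) (QuotientGroup.mk' N w) = (θ : G ⧸ N → ℂ) (QuotientGroup.mk' N 1)
        rw [map_one, QuotientGroup.mk'_apply, (QuotientGroup.eq_one_iff w).2 (Subgroup.mem_zpowers w)]
      · obtain ⟨φ, hφ⟩ := Chars.exists_hom_of_degree_one (Chars.irr_isCharacter ψ)
          (by rw [← BlockChar.charDegree_cast (Chars.irr_isCharacter ψ), hlin ψ hψ, Nat.cast_one])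
        rw [hφ]
        have hk : commutator G ≤ φ.ker := Abelianization.commutator_subset_ker φ
        simp [MonoidHom.mem_ker.1 (hk hwG)]
    have : w = 1 := isConj_one_right.mp hconj.symm
    rw [this, orderOf_one] at hw
    exact hp.out.ne_one hw.symm
  -- `χ₀` vanishes off `N`
  have hvan : ∀ g, g ∉ N → (χ₀ : G → ℂ) g = 0 := by
    intro g hg
    obtain ⟨φ, hφ⟩ := eq_one_of_hom_forall (hG'N.symm ▸ hg : g ∉ commutator G)
    have hirr := Chars.isIrrCharacter_mul_hom χ₀.2 φ
    have h1 : (⟨_, hirr⟩ : IrrCharacter G) = χ₀ := (h _).1 (by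
      have : charDegree (fun x => (φ x : ℂ) * (χ₀ : G → ℂ) x) = charDegree (χ₀ : G → ℂ) := by
        rw [charDegree, charDegree, map_one, Units.val_one, one_mul]
      rw [this]; exact hχ₀)
    have h2 := congrFun (congrArg Subtype.val h1) g
    simp only at h2
    by_contra h0
    exact hφ (Units.ext ((mul_eq_right₀ h0).1 h2))
  -- the degree
  obtain ⟨d, hd⟩ := Chars.exists_apply_one_eq (Chars.irr_isCharacter χ₀)
  have hdd : charDegree (χ₀ : G → ℂ) = d := by rw [charDegree, hd]; simp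
  obtain ⟨φ, hφ⟩ := Chars2.exists_central_hom χ₀.2 hNc
  have hN' : ∀ g ∈ N, (χ₀ : G → ℂ) g * conj ((χ₀ : G → ℂ) g) = (d : ℂ) ^ 2 := by
    intro g hg
    have h1 := hφ ⟨g, hg⟩ 1
    rw [mul_one, hd] at h1
    have h2 : (φ ⟨g, hg⟩ : ℂ) ^ p = 1 := by
      rw [← Units.val_pow_eq_pow_val, ← map_pow, ← hNcard, pow_card_eq_one', map_one, Units.val_one]
    have h3 : ‖(φ ⟨g, hg⟩ : ℂ)‖ = 1 := Complex.norm_eq_one_of_pow_eq_one h2 hp.out.ne_zero
    rw [h1, map_mul, Complex.conj_natCast, mul_mul_mul_comm, Complex.mul_conj', h3]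
    simp [sq]
  have hnorm : p * d ^ 2 = Nat.card G := by
    have h1 := Chars.classInner_self_irr χ₀.2
    rw [Chars.classInner_def] at h1
    field_simp [Chars.card_ne_zero (G := G)] at h1
    rw [← Finset.sum_subset (Finset.subset_univ (Finset.univ.filter fun g => g ∈ N))
      (fun g _ hg => by rw [hvan g (by simpa using hg), zero_mul]),
      Finset.sum_congr rfl fun g hg => hN' g (Finset.mem_filter.1 hg).2, Finset.sum_const,
      nsmul_eq_mul] at h1
    have h2 : (Finset.univ.filter fun g => g ∈ N).card = p := by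
      rw [← hNcard, Nat.card_eq_fintype_card, Fintype.card_subtype]
    rw [h2] at h1
    exact_mod_cast h1
  have hsum : Nat.card G = N.index + d ^ 2 := by
    have h1 := Chars.sum_sq_apply_one (G := G)
    rw [← Finset.sum_erase_add _ _ (Finset.mem_univ χ₀), hd] at h1
    rw [Finset.sum_congr rfl fun (χ : IrrCharacter G) hχ => show (χ : G → ℂ) 1 ^ 2 = 1 by
      rw [← BlockChar.charDegree_cast (Chars.irr_isCharacter χ),
        hlin χ (fun e => (Finset.mem_erase.1 hχ).1 ((h χ).1 e)), Nat.cast_one, one_pow],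
      Finset.sum_const, nsmul_eq_mul, mul_one] at h1
    have h2 : ((Finset.univ : Finset (IrrCharacter G)).erase χ₀).card = N.index := by
      rw [← hG'N]
      have h3 := Chars.card_linear (G := G)
      rw [← h3, Nat.card_eq_fintype_card, Fintype.card_subtype]
      congr 1
      ext χ
      simp only [Finset.mem_erase, Finset.mem_univ, and_true, Finset.mem_filter, true_and]
      rw [← BlockChar.charDegree_cast (Chars.irr_isCharacter χ), Nat.cast_eq_one]
      refine ⟨fun hne => hlin χ fun e => hne ((h χ).1 e), ?_⟩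
      rintro e rfl
      exact hd1 e
    rw [h2] at h1
    exact_mod_cast h1.symm
  have hidx := N.card_mul_index
  rw [hNcard] at hidx
  have hi : N.index = d ^ 2 := Nat.eq_of_mul_eq_mul_left hp.out.pos (hidx.trans hnorm.symm)
  have hd0 : 0 < d := hdd ▸ BlockChar.charDegree_pos χ₀.2
  have hp2 : p = 2 := by
    have : p * d ^ 2 = 2 * d ^ 2 := by rw [hnorm, hsum, hi]; ring
    exact Nat.eq_of_mul_eq_mul_right (pow_pos hd0 2) this
  subst hp2
  refine ⟨rfl, ?_⟩
  have hZ : Subgroup.center G = N := by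
    refine le_antisymm (fun g hg => ?_) hNc
    by_contra hgN
    obtain ⟨ψ, hψ⟩ := Chars2.exists_central_hom χ₀.2 (le_refl (Subgroup.center G))
    have h1 := hψ ⟨g, hg⟩ 1
    rw [mul_one, hvan g hgN] at h1
    exact mul_ne_zero (Units.ne_zero _) (Chars.irr_apply_one_ne_zero χ₀.2) h1.symm
  have hFr : frattini G = N := by
    refine le_antisymm (FGS3.frattini_le_of_elementary (p := 2) hG'N.le fun a => ?_)
      (hG'N ▸ FGS3.commutator_le_frattini hG)
    rw [← hZ, Subgroup.mem_center_iff]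
    intro b
    have hc : ⁅a, b⁆ ∈ N := hG'N ▸ Subgroup.commutator_mem_commutator (Subgroup.mem_top a) (Subgroup.mem_top b)
    have h2 : ⁅a, b⁆ ^ 2 = 1 := by
      have := congrArg Subtype.val (pow_card_eq_one' (G := N) (x := ⟨_, hc⟩))
      rwa [hNcard] at this
    have hcz := Subgroup.mem_center_iff.1 (hNc hc)
    have e : ⁅a ^ 2, b⁆ = ⁅a, b⁆ ^ 2 := by
      calc ⁅a ^ 2, b⁆ = a * ⁅a, b⁆ * a⁻¹ * ⁅a, b⁆ := by
            simp only [commutatorElement_def, pow_two]; group
        _ = ⁅a, b⁆ ^ 2 := by rw [hcz a, mul_inv_cancel_right, pow_two]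
    rw [h2] at e
    exact (commutatorElement_eq_one_iff_mul_comm.1 e).symm
  exact ⟨⟨hG, by rw [hFr, hZ], by rw [hG'N, hZ]⟩, by rw [hZ, hNcard]⟩

/-- An extraspecial `2`-group has exactly one nonlinear character. -/
theorem unique_of_extraspecial (hE : IsExtraspecial 2 G) :
    ∃ χ₀ : IrrCharacter G, ∀ χ : IrrCharacter G, 2 ∣ charDegree (χ : G → ℂ) ↔ χ = χ₀ := by
  classical
  haveI := Fintype.ofFinite G
  obtain ⟨n, hn1, hn⟩ := FGS3.IsExtraspecial_card hE
  have hdeg : ∀ χ : IrrCharacter G, 2 ∣ charDegree (χ : G → ℂ) ↔ (χ : G → ℂ) 1 ≠ 1 := by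
    intro χ
    rw [← BlockChar.charDegree_cast (Chars.irr_isCharacter χ), Ne, Nat.cast_eq_one]
    refine ⟨fun h e => by omega, fun h => ?_⟩
    obtain ⟨j, -, hj⟩ := (Nat.dvd_prime_pow Nat.prime_two).mp (hn ▸ BlockChar.charDegree_dvd_card χ.2)
    rw [hj] at h ⊢
    exact dvd_pow_self 2 fun e => h (by rw [e, pow_zero])
  obtain ⟨χ₀, hχ₀⟩ : ∃ χ : IrrCharacter G, (χ : G → ℂ) 1 ≠ 1 := by
    by_contra hc
    push Not at hc
    exact FGS3.IsExtraspecial_not_comm hE
      ⟨⟨fun a b => Chars.comm_of_forall_linear hc a b⟩⟩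
  refine ⟨χ₀, fun χ => ⟨fun h => ?_, fun h => h ▸ (hdeg χ₀).2 hχ₀⟩⟩
  have key : ∀ χ : IrrCharacter G, (χ : G → ℂ) 1 ≠ 1 →
      (χ : G → ℂ) 1 = 2 ^ n ∧ (∀ x, x ∉ Subgroup.center G → (χ : G → ℂ) x = 0) ∧
      ∀ x ∈ Subgroup.center G, x ≠ 1 → (χ : G → ℂ) x = -2 ^ n := by
    intro χ hχ
    obtain ⟨h1, -⟩ | ⟨h1, h2⟩ := Chars2.extraspecial_irr_cases hE hn χ.2
    · exact absurd h1 hχ
    refine ⟨by exact_mod_cast h1, h2, fun x hx hx1 => ?_⟩
    have ho := Chars.classInner_irr_of_ne χ.2 Chars.isIrrCharacter_one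
      (fun e => hχ (by rw [e]))
    rw [Chars.classInner_def, mul_eq_zero, inv_eq_zero, or_iff_right Chars.card_ne_zero] at ho
    simp only [map_one, mul_one] at ho
    have hZ : ∀ y ∈ Subgroup.center G, y = 1 ∨ y = x := by
      intro y hy
      have hc2 : Nat.card (Subgroup.center G) = 2 := hE.2
      obtain ⟨a, b, hab, huniv⟩ := Nat.card_eq_two_iff.1 hc2
      have m : ∀ t : Subgroup.center G, t = a ∨ t = b := fun t => by
        have ht : t ∈ ({a, b} : Set (Subgroup.center G)) := huniv ▸ Set.mem_univ t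
        simpa using ht
      rcases m ⟨1, one_mem _⟩ with e1 | e1 <;> rcases m ⟨x, hx⟩ with e2 | e2 <;>
        rcases m ⟨y, hy⟩ with e3 | e3 <;>
        first
        | exact Or.inl (congrArg Subtype.val (e3.trans e1.symm))
        | exact Or.inr (congrArg Subtype.val (e3.trans e2.symm))
        | exact absurd (congrArg Subtype.val (e2.trans e1.symm)) hx1
    rw [Finset.sum_eq_add (1 : G) x (fun e => hx1 e.symm)] at ho
    · rw [h1] at ho
      push_cast at ho
      linear_combination ho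
    · intro c _ hc
      refine h2 c fun hcZ => ?_
      rcases hZ c hcZ with e | e
      · exact hc.1 e
      · exact hc.2 e
    · simp
    · simp
  obtain ⟨a1, a2, a3⟩ := key χ ((hdeg χ).1 h)
  obtain ⟨b1, b2, b3⟩ := key χ₀ hχ₀
  refine Subtype.ext (funext fun x => ?_)
  by_cases hx : x ∈ Subgroup.center G
  · by_cases hx1 : x = 1
    · rw [hx1, a1, b1]
    · rw [a3 x hx hx1, b3 x hx hx1]
  · rw [a2 x hx, b2 x hx]

end Cfsg.Agent.LeadWork.OneNonlinear
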