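/-
The large Ree groups: Borel subgroup, cells and minimal parabolic subgroups under automorphisms.
-/
import Cfsg.Agent.Chev.ReeF4Order
import Cfsg.Agent.Chev.ReeF4Simple

set_option autoImplicit false
set_option maxRecDepth 100000

universe u

namespace Cfsg.Agent.LeadWork.ReeOut

open Cfsg.Lie Cfsg.Agent.Chev Cfsg.Agent.Chev.Ree4

variable {K : Type u} [Field K]

/-- The conjugate of a subgroup. -/
noncomputable abbrev cj (g : GL chevF4.Idx K) (H : Subgroup (GL chevF4.Idx K)) : Subgroup (GL chevF4.Idx K) :=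
  H.map (MulAut.conj g).toMonoidHom

theorem mem_cj {g x : GL chevF4.Idx K} {H : Subgroup (GL chevF4.Idx K)} : x ∈ cj g H ↔ g⁻¹ * x * g ∈ H := by
  constructor
  · rintro ⟨y, hy, rfl⟩; simpa [mul_assoc] using hy
  · exact fun h => ⟨_, h, by simp [mul_assoc]⟩

theorem card_cj (g : GL chevF4.Idx K) (H : Subgroup (GL chevF4.Idx K)) : Nat.card ↥(cj g H) = Nat.card H :=
  Nat.card_congr (H.equivMapOfInjective _ (MulAut.conj g).injective).toEquiv.symm

variable (K) in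
/-- The unipotent subgroup. -/
noncomputable abbrev Ut (m : ℕ) : Subgroup (GL chevF4.Idx K) := chevF4.posUnipotent K ⊓ tw K m

variable (K) in
/-- The Borel subgroup. -/
noncomputable abbrev Bt (m : ℕ) : Subgroup (GL chevF4.Idx K) := chevF4.borelSubgroup K ⊓ tw K m

variable (K) in
/-- The opposite unipotent subgroup. -/
noncomputable abbrev Vt (m : ℕ) : Subgroup (GL chevF4.Idx K) := cj (nk K 15) (Ut K m)

variable (K) in
/-- The inverted part of a representative. -/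
noncomputable abbrev Xg (m k : ℕ) : Subgroup (GL chevF4.Idx K) :=
  spanGroup chevF4 K (Inverts chevF4 K (nk K k)) ⊓ tw K m

/-- The Bruhat cell of a representative. -/
def Cell (m k : ℕ) (g : GL chevF4.Idx K) : Prop :=
  ∃ b ∈ Bt K m, ∃ u ∈ Xg K m k, g = b * nk K k * u

theorem xg_le_ut (m k : ℕ) : Xg K m k ≤ Ut K m :=
  inf_le_inf_right _ (cF.{u}.span_mono fun _ hr => hr.1)

theorem ut_le_bt (m : ℕ) : Ut K m ≤ Bt K m := inf_le_inf_right _ cF.{u}.pos_le_borel

theorem xg_le_bt (m k : ℕ) : Xg K m k ≤ Bt K m := (xg_le_ut m k).trans (ut_le_bt m)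

theorem conj_mem_ut {m : ℕ} {g : GL chevF4.Idx K} (hg : g ∈ Bt K m) {x : GL chevF4.Idx K} (hx : x ∈ Ut K m) :
    g * x * g⁻¹ ∈ Ut K m := by
  obtain ⟨a, ha, d, hd, rfl⟩ := cF.{u}.mem_borel.mp hg.1
  refine Subgroup.mem_inf.mpr ⟨?_, mul_mem (mul_mem hg.2 hx.2) (inv_mem hg.2)⟩
  have h1 : d * x * d⁻¹ ∈ chevF4.posUnipotent K :=
    (Subgroup.mem_normalizer_iff.mp (cF.{u}.diag_normalises chevF4.IsPosRoot (fun _ h => h.1) hd) x).mp hx.1
  rw [show a * d * x * (a * d)⁻¹ = a * (d * x * d⁻¹) * a⁻¹ by group]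
  exact mul_mem (mul_mem ha h1) (inv_mem ha)

theorem xu_mem_ut_pair [CharP K 2] (m : ℕ) (t u : K) :
    pE m 33 24 t ∈ Ut K m ∧ bE m 27 25 28 30 t u ∈ Ut K m := by
  have hp : ∀ r ∈ [33, 24, 27, 25, 28, 30], chevF4.IsPosRoot r := by
    unfold ChevalleyDatum.IsPosRoot; decide +kernel
  have hx : ∀ r ∈ [33, 24, 27, 25, 28, 30], ∀ s : K, cF.xu r s ∈ chevF4.posUnipotent K := fun r hr s =>
    Subgroup.subset_closure ⟨r, s, hp r hr, Cert.coe_xu _ _ _⟩
  refine ⟨Subgroup.mem_inf.mpr ⟨?_, pE_pos_mem m t⟩, Subgroup.mem_inf.mpr ⟨?_, bE_pos_mem m t u⟩⟩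
  · exact mul_mem (hx 33 (by decide) _) (hx 24 (by decide) _)
  · exact mul_mem (mul_mem (mul_mem (hx 27 (by decide) _) (hx 25 (by decide) _)) (hx 28 (by decide) _))
      (hx 30 (by decide) _)

theorem cell_ok : ∀ k < 16, k ≠ 0 →
    (chevF4.IsNegRoot (act chevF4 (wdF k) 33) ∧ chevF4.IsNegRoot (act chevF4 (wdF k) 24)) ∨
    (chevF4.IsNegRoot (act chevF4 (wdF k) 27) ∧ chevF4.IsNegRoot (act chevF4 (wdF k) 25) ∧
      chevF4.IsNegRoot (act chevF4 (wdF k) 28) ∧ chevF4.IsNegRoot (act chevF4 (wdF k) 30)) := by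
  unfold ChevalleyDatum.IsNegRoot; decide +kernel

theorem kept_ok : ∀ k < 15,
    (chevF4.IsPosRoot (act chevF4 (wdF k) 33) ∧ chevF4.IsPosRoot (act chevF4 (wdF k) 24)) ∨
    (chevF4.IsPosRoot (act chevF4 (wdF k) 27) ∧ chevF4.IsPosRoot (act chevF4 (wdF k) 25) ∧
      chevF4.IsPosRoot (act chevF4 (wdF k) 28) ∧ chevF4.IsPosRoot (act chevF4 (wdF k) 30)) := by
  unfold ChevalleyDatum.IsPosRoot; decide +kernel

variable {m : ℕ} (h : Ctx K m)
include h

theorem longest_sq : nk K 15 * nk K 15 = (1 : GL chevF4.Idx K) := by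
  have := h.char
  obtain ⟨k, hk, e⟩ := exists_nW_eq (K := K) (wdsF.getD 15 [] ++ wdsF.getD 15 []) (fun j hj =>
    (List.mem_append.mp hj).elim (wdsF_lt 15 j) (wdsF_lt 15 j))
  rw [nW_append, ← nk_eq_nW] at e
  have hL : ∀ a ∈ wdF 15 ++ wdF 15, a < chevF4.rank := fun a ha =>
    (List.mem_append.mp ha).elim (flatF_lt _ a) (flatF_lt _ a)
  have hs : sameF (wdF 15 ++ wdF 15) 0 = true := by decide +kernel
  have h0 := nWord_eq_nk (K := K) hL hs
  rw [← nk_zero (K := K), ← h0]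
  simp [nk, Cert.nWordElt, List.map_append, List.prod_append]

theorem vt_le_neg : Vt K m ≤ chevF4.negUnipotent K := by
  rintro _ ⟨x, hx, rfl⟩
  exact longest_to_neg h hx.1

theorem bt_inf_vt : ∀ x ∈ Bt K m, x ∈ Vt K m → x = 1 := fun x hx hv => by
  rw [← Subgroup.mem_bot, ← cF.{u}.borel_inf_neg]
  exact Subgroup.mem_inf.mpr ⟨hx.1, vt_le_neg h hv⟩

theorem base_ne_one : pE m 33 24 (1 : K) ≠ 1 ∧ bE m 27 25 28 30 (1 : K) 0 ≠ 1 := by
  have := h.char
  constructor <;> intro e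
  · have hd := congrArg (fun g => g * cF.xu 24 1) e
    simp only [pE, one_pow, mul_assoc, cF.xu_add, CharTwo.add_self_eq_zero, Cert.xu_zero, mul_one, one_mul] at hd
    have h14 : chevF4.commTerms 33 24 = [] := base_facts.1.2.2
    obtain ⟨e1, -⟩ := coord_unique (K := K) (Q := {24}) (r := 33) (p := 1) (p' := cF.xu 24 1) (t := 1) (t' := 0)
      (by unfold ChevalleyDatum.IsPosRoot; decide +kernel)
      (closedSet_few {24} (by decide +kernel) (by decide +kernel)) (by simp) (one_mem _)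
      ((cF.{u}).xu_mem_span (P := fun s => s ∈ ({24} : Finset ℕ)) (by simp) 1)
      (by rw [one_mul, Cert.xu_zero, mul_one]; exact hd)
    have h24 := cF.{u}.xu_eq_one (by decide : 24 < chevF4.nroots) e1.symm
    exact one_ne_zero h24
  · have h2 := bE_mul h (1 : K) 1 0 0
    rw [e, one_mul, CharTwo.add_self_eq_zero, one_pow, one_mul, add_zero, add_zero] at h2
    -- a square of a unit element
    have h3 : bE m 27 25 28 30 (0 : K) 1 = cF.xu 28 1 * cF.xu 30 1 := by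
      simp [bE, Cert.xu_zero, zero_pow]
    rw [h3] at h2
    have hd := congrArg (fun g => g * cF.xu 30 1) h2
    simp only [mul_assoc, cF.xu_add, CharTwo.add_self_eq_zero, Cert.xu_zero, mul_one, one_mul] at hd
    obtain ⟨e1, -⟩ := coord_unique (K := K) (Q := {30}) (r := 28) (p := 1) (p' := cF.xu 30 1) (t := 1) (t' := 0)
      (by unfold ChevalleyDatum.IsPosRoot; decide +kernel)
      (closedSet_few {30} (by decide +kernel) (by decide +kernel)) (by simp) (one_mem _)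
      ((cF.{u}).xu_mem_span (P := fun s => s ∈ ({30} : Finset ℕ)) (by simp) 1)
      (by rw [one_mul, Cert.xu_zero, mul_one]; exact hd.symm)
    exact one_ne_zero (cF.{u}.xu_eq_one (by decide : 30 < chevF4.nroots) e1.symm)

theorem normaliser_ut {g : GL chevF4.Idx K} (hg : g ∈ tw K m) (hn : ∀ x ∈ Ut K m, g * x * g⁻¹ ∈ Ut K m) :
    g ∈ Bt K m := by
  have := h.char
  obtain ⟨k, hk, b, hb, u, hu, rfl⟩ := exists_fixed_bruhat h (tw_le_group m hg) (sig_of_mem h hg)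
  have huB : u ∈ Bt K m := xg_le_bt m k hu
  by_cases hk0 : k = 0
  · subst hk0
    rw [nk_zero, mul_one]
    exact mul_mem hb huB
  exfalso
  have key : ∀ x ∈ Ut K m, nk K k * x * (nk K k)⁻¹ ∈ Ut K m := by
    intro x hx
    have h1 := conj_mem_ut (inv_mem hb) (hn _ (conj_mem_ut (inv_mem huB) hx))
    convert h1 using 1
    group
  have kill : ∀ x ∈ Ut K m, nk K k * x * (nk K k)⁻¹ ∈ chevF4.negUnipotent K → x = 1 := fun x hx hneg => by
    have : nk K k * x * (nk K k)⁻¹ ∈ (⊥ : Subgroup (GL chevF4.Idx K)) := by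
      rw [← cF.{u}.borel_inf_neg]
      exact Subgroup.mem_inf.mpr ⟨cF.{u}.pos_le_borel (key x hx).1, hneg⟩
    exact conj_eq_one_iff.mp (Subgroup.mem_bot.mp this)
  have hx : ∀ r < 48, chevF4.IsNegRoot (act chevF4 (wdF k) r) → ∀ s : K,
      nk K k * cF.xu r s * (nk K k)⁻¹ ∈ chevF4.negUnipotent K := fun r hr hneg s => by
    rw [show nk K k = cF.nWordElt K (wdF k) from rfl, cF.{u}.conj_xu_two (nk_lt k) hr]
    exact Subgroup.subset_closure ⟨_, s, hneg, Cert.coe_xu _ _ _⟩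
  obtain ⟨hp, hb'⟩ := base_ne_one h
  rcases cell_ok k hk hk0 with ⟨a1, a2⟩ | ⟨a1, a2, a3, a4⟩
  · refine hp (kill _ (xu_mem_ut_pair m 1 0).1 ?_)
    rw [pE, ← conj_mul]
    exact mul_mem (hx 33 (by norm_num) a1 _) (hx 24 (by norm_num) a2 _)
  · refine hb' (kill _ (xu_mem_ut_pair m 1 0).2 ?_)
    rw [bE, ← conj_mul, ← conj_mul, ← conj_mul]
    exact mul_mem (mul_mem (mul_mem (hx 27 (by norm_num) a1 _) (hx 25 (by norm_num) a2 _)) (hx 28 (by norm_num) a3 _))
      (hx 30 (by norm_num) a4 _)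

theorem opposite_of_inf_bot {g : GL chevF4.Idx K} (hg : g ∈ tw K m)
    (hn : ∀ x ∈ cj g (Ut K m), x ∈ Ut K m → x = 1) : ∃ b ∈ Bt K m, cj g (Ut K m) = cj b (Vt K m) := by
  have := h.char
  obtain ⟨k, hk, b, hb, u, hu, rfl⟩ := exists_fixed_bruhat h (tw_le_group m hg) (sig_of_mem h hg)
  have huB : u ∈ Bt K m := xg_le_bt m k hu
  by_cases hk15 : k = 15
  · subst hk15
    refine ⟨b, hb, ?_⟩
    ext x
    rw [mem_cj, mem_cj, mem_cj]
    constructor <;> intro hx
    · have := conj_mem_ut huB hx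
      convert this using 1; group
    · have := conj_mem_ut (inv_mem huB) hx
      convert this using 1; group
  exfalso
  have kill : ∀ y ∈ Ut K m, nk K k * y * (nk K k)⁻¹ ∈ chevF4.posUnipotent K → y = 1 := fun y hy hpos => by
    have hc : b * (nk K k * y * (nk K k)⁻¹) * b⁻¹ ∈ cj (b * nk K k * u) (Ut K m) := by
      rw [mem_cj]
      have := conj_mem_ut (inv_mem huB) hy
      convert this using 1; group
    have := hn _ hc (conj_mem_ut hb (Subgroup.mem_inf.mpr ⟨hpos, mul_mem (mul_mem (nk_mem m k) hy.2) (inv_mem (nk_mem m k))⟩))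
    rwa [conj_eq_one_iff, conj_eq_one_iff] at this
  have hx : ∀ r < 48, chevF4.IsPosRoot (act chevF4 (wdF k) r) → ∀ s : K,
      nk K k * cF.xu r s * (nk K k)⁻¹ ∈ chevF4.posUnipotent K := fun r hr hpos s => by
    rw [show nk K k = cF.nWordElt K (wdF k) from rfl, cF.{u}.conj_xu_two (nk_lt k) hr]
    exact Subgroup.subset_closure ⟨_, s, hpos, Cert.coe_xu _ _ _⟩
  obtain ⟨hp, hb'⟩ := base_ne_one h
  rcases kept_ok k (by omega) with ⟨a1, a2⟩ | ⟨a1, a2, a3, a4⟩
  · refine hp (kill _ (xu_mem_ut_pair m 1 0).1 ?_)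
    rw [pE, ← conj_mul]
    exact mul_mem (hx 33 (by norm_num) a1 _) (hx 24 (by norm_num) a2 _)
  · refine hb' (kill _ (xu_mem_ut_pair m 1 0).2 ?_)
    rw [bE, ← conj_mul, ← conj_mul, ← conj_mul]
    exact mul_mem (mul_mem (mul_mem (hx 27 (by norm_num) a1 _) (hx 25 (by norm_num) a2 _)) (hx 28 (by norm_num) a3 _))
      (hx 30 (by norm_num) a4 _)

theorem cell_split {g : GL chevF4.Idx K} (hg : g ∈ tw K m) : ∃ k < 16, Cell m k g := by
  obtain ⟨k, hk, b, hb, u, hu, e⟩ := exists_fixed_bruhat h (tw_le_group m hg) (sig_of_mem h hg)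
  exact ⟨k, hk, b, hb, u, hu, e⟩

theorem cell_iff {k : ℕ} {g : GL chevF4.Idx K} :
    Cell m k g ↔ ∃ b ∈ Bt K m, ∃ b' ∈ Bt K m, g = b * nk K k * b' := by
  constructor
  · rintro ⟨b, hb, u, hu, e⟩
    exact ⟨b, hb, u, xg_le_bt m k hu, e⟩
  · rintro ⟨b, hb, b', hb', rfl⟩
    have := h.char
    exact cell_fixed h (nk_monomial k) (sig_nk h k)
      (sig_of_mem h (mul_mem (mul_mem hb.2 (nk_mem m k)) hb'.2)) ⟨b, hb.1, b', hb'.1, rfl⟩

theorem cell_disjoint {k k' : ℕ} (hk : k < 16) (hk' : k' < 16) {g : GL chevF4.Idx K}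
    (h1 : Cell m k g) (h2 : Cell m k' g) : k = k' := by
  have := h.char
  obtain ⟨b, hb, u, hu, rfl⟩ := h1
  obtain ⟨b', hb', u', hu', e⟩ := h2
  refine nk_inj_mod hk hk' (cF.{u}.inCell_unique coxF4 (nk_monomial _) (nk_monomial _)
    ⟨b'⁻¹ * b, mul_mem (inv_mem hb'.1) hb.1, u * u'⁻¹,
      mul_mem (xg_le_bt m k hu).1 (inv_mem (xg_le_bt m k' hu').1), ?_⟩)
  calc nk K k' = b'⁻¹ * (b' * nk K k' * u') * u'⁻¹ := by group
    _ = _ := by rw [← e]; group

theorem card_xg {k : ℕ} (hk : k < 16) : Nat.card ↥(Xg K m k) = (2 ^ (2 * m + 1)) ^ depF.getD k 0 := by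
  rw [Xg, tw_eq_fixPts h]
  exact card_inverted_tw h hk

theorem card_cell {k : ℕ} (hk : k < 16) :
    Nat.card {g : GL chevF4.Idx K // Cell m k g} =
      Nat.card ↥(Bt K m) * (2 ^ (2 * m + 1)) ^ depF.getD k 0 := by
  let f : ↥(Bt K m) × ↥(Xg K m k) → {g : GL chevF4.Idx K // Cell m k g} :=
    fun p => ⟨p.1 * nk K k * p.2, ⟨_, p.1.2, _, p.2.2, rfl⟩⟩
  have hf : Function.Bijective f := by
    constructor
    · rintro ⟨⟨b, hb⟩, ⟨u, hu⟩⟩ ⟨⟨b', hb'⟩, ⟨u', hu'⟩⟩ e
      obtain ⟨e1, e2⟩ := cF.{u}.canonical_unique hb.1 hb'.1 hu.1 hu'.1 (congrArg Subtype.val e)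
      subst e1 e2
      rfl
    · rintro ⟨g, b, hb, u, hu, rfl⟩
      exact ⟨(⟨b, hb⟩, ⟨u, hu⟩), rfl⟩
  rw [← Nat.card_congr (Equiv.ofBijective f hf), Nat.card_prod, card_xg h hk]

omit [Field K] h in
theorem dep_inj {k : ℕ} (hk : k < 16) {j : ℕ} (hj : j < 2)
    (e : depF.getD k 0 = depF.getD (j + 1) 0) : k = j + 1 := by
  have hd : ∀ k < 16, ∀ j < 2, depF.getD k 0 = depF.getD (j + 1) 0 → k = j + 1 := by decide
  exact hd k hk j hj e

/-- The minimal parabolic subgroup. -/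
noncomputable def par (j : ℕ) (hj : j < 2) : Subgroup (GL chevF4.Idx K) where
  carrier := {g | g ∈ Bt K m ∨ Cell m (j + 1) g}
  one_mem' := Or.inl (one_mem _)
  inv_mem' := by
    have := h.char
    rintro g (hg | hg)
    · exact Or.inl (inv_mem hg)
    · obtain ⟨b, hb, b', hb', rfl⟩ := (cell_iff h).mp hg
      exact Or.inr ((cell_iff h).mpr ⟨b'⁻¹, inv_mem hb', b⁻¹, inv_mem hb, by
        rw [mul_inv_rev, mul_inv_rev, inv_eq_of_mul_eq_one_right (nk_mul_self hj), mul_assoc]⟩)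
  mul_mem' := by
    have := h.char
    rintro g g' (hg | hg) (hg' | hg')
    · exact Or.inl (mul_mem hg hg')
    · obtain ⟨b, hb, b', hb', rfl⟩ := (cell_iff h).mp hg'
      exact Or.inr ((cell_iff h).mpr ⟨g * b, mul_mem hg hb, b', hb', by group⟩)
    · obtain ⟨b, hb, b', hb', rfl⟩ := (cell_iff h).mp hg
      exact Or.inr ((cell_iff h).mpr ⟨b, hb, b' * g', mul_mem hb' hg', by group⟩)
    · obtain ⟨b, hb, b', hb', rfl⟩ := (cell_iff h).mp hg
      obtain ⟨c, hc, c', hc', rfl⟩ := (cell_iff h).mp hg'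
      obtain ⟨b₁, hb₁, b₂, hb₂, e | e⟩ := fixed_bn_mul h hj (b := b' * c) (n := nk K (j + 1)) (mul_mem hb' hc)
        ⟨nk_monomial _, nk_mem m _⟩
      · refine Or.inl ?_
        rw [show b * nk K (j + 1) * b' * (c * nk K (j + 1) * c') =
          b * (nk K (j + 1) * (b' * c) * nk K (j + 1)) * c' by group, e, nk_mul_self hj, mul_one]
        exact mul_mem (mul_mem hb (mul_mem hb₁ hb₂)) hc'
      · refine Or.inr ((cell_iff h).mpr ⟨b * b₁, mul_mem hb hb₁, b₂ * c', mul_mem hb₂ hc', ?_⟩)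
        rw [show b * nk K (j + 1) * b' * (c * nk K (j + 1) * c') =
          b * (nk K (j + 1) * (b' * c) * nk K (j + 1)) * c' by group, e]
        group

theorem vt_inf_par {j : ℕ} (hj : j < 2)
    (hX : cj (nk K (j + 1)) (Xg K m (j + 1)) ≤ Vt K m) :
    Vt K m ⊓ par h j hj = cj (nk K (j + 1)) (Xg K m (j + 1)) := by
  have := h.char
  have := h.finite
  set q := 2 ^ (2 * m + 1)
  have hn : nk K (j + 1) ∈ par h j hj := Or.inr ((cell_iff h).mpr ⟨1, one_mem _, 1, one_mem _, by simp⟩)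
  have hle : cj (nk K (j + 1)) (Xg K m (j + 1)) ≤ Vt K m ⊓ par h j hj := by
    refine le_inf hX ?_
    rintro _ ⟨x, hx, rfl⟩
    exact mul_mem (mul_mem hn (Or.inl (xg_le_bt m _ hx))) (inv_mem hn)
  refine (Subgroup.eq_of_le_of_card_ge hle ?_).symm
  rw [card_cj]
  set S := Vt K m ⊓ par h j hj
  have hcell : ∀ y : ↥S, y ≠ 1 →
      ∃ b ∈ Bt K m, ∃ u ∈ Xg K m (j + 1), (y : GL chevF4.Idx K) = b * nk K (j + 1) * u := fun y hy =>
    (show (y : GL chevF4.Idx K) ∈ Bt K m ∨ Cell m (j + 1) (y : GL chevF4.Idx K) from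
      (Subgroup.mem_inf.mp y.2).2).resolve_left fun hb =>
        hy (Subtype.ext (bt_inf_vt h _ hb (Subgroup.mem_inf.mp y.2).1))
  classical
  let f : ↥S → Option ↥(Xg K m (j + 1)) := fun y =>
    if hy : y = 1 then none else
      some ⟨(hcell y hy).choose_spec.2.choose, (hcell y hy).choose_spec.2.choose_spec.1⟩
  have same : ∀ y y' b b' u : GL chevF4.Idx K, y = b * nk K (j + 1) * u → y' = b' * nk K (j + 1) * u →
      y * y'⁻¹ = b * b'⁻¹ := by
    intro y y' b b' u e e'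
    rw [e, e']; group
  have hinj : Function.Injective f := by
    intro y y' e
    by_cases hy : y = 1 <;> by_cases hy' : y' = 1
    · exact hy.trans hy'.symm
    · simp [f, hy, hy'] at e
    · simp [f, hy, hy'] at e
    · simp only [f, dif_neg hy, dif_neg hy', Option.some.injEq, Subtype.mk.injEq] at e
      have hb := (hcell y hy).choose_spec.1
      have e1 := (hcell y hy).choose_spec.2.choose_spec.2
      have hb' := (hcell y' hy').choose_spec.1
      have e1' := (hcell y' hy').choose_spec.2.choose_spec.2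
      rw [← e] at e1'
      apply Subtype.ext
      have h1 : (y : GL chevF4.Idx K) * (y' : GL chevF4.Idx K)⁻¹ =
          (hcell y hy).choose * (hcell y' hy').choose⁻¹ := same _ _ _ _ _ e1 e1'
      exact mul_inv_eq_one.mp (bt_inf_vt h _ (h1 ▸ mul_mem hb (inv_mem hb'))
        (mul_mem (Subgroup.mem_inf.mp y.2).1 (inv_mem (Subgroup.mem_inf.mp y'.2).1)))
  have hSle : Nat.card ↥S ≤ q ^ depF.getD (j + 1) 0 + 1 := by
    have := Nat.card_le_card_of_injective f hinj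
    rwa [Finite.card_option, card_xg h (by omega)] at this
  have hdvd := Subgroup.card_dvd_of_le hle
  rw [card_cj, card_xg h (by omega)] at hdvd
  rw [card_xg h (by omega)]
  obtain ⟨c, hc⟩ := hdvd
  have hbig : 2 ≤ q ^ depF.getD (j + 1) 0 := by
    have hd : depF.getD (j + 1) 0 ≠ 0 := (by decide : ∀ j < 2, depF.getD (j + 1) 0 ≠ 0) j hj
    calc 2 ≤ q := Nat.le_self_pow (by omega) 2
      _ ≤ q ^ _ := Nat.le_self_pow hd q
  by_contra hgt
  push Not at hgt
  obtain rfl | rfl | hc2 : c = 0 ∨ c = 1 ∨ 2 ≤ c := by omega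
  · rw [hc, mul_zero] at hgt; omega
  · rw [hc, mul_one] at hgt; omega
  · have : q ^ depF.getD (j + 1) 0 * 2 ≤ q ^ depF.getD (j + 1) 0 * c := Nat.mul_le_mul_left _ hc2
    rw [← hc] at this
    omega

end Cfsg.Agent.LeadWork.ReeOut
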