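/-
The centraliser of the product of an orthogonal short and long root element of F4 in characteristic two.
-/
import Cfsg.Agent.LeadWork.RootCentralizerData

set_option autoImplicit false

set_option synthInstance.maxSize 1024

universe u

namespace Cfsg.Agent.LeadWork.RootCent.V

open Cfsg.Lie Cfsg.Agent.Chev Cfsg.Agent.LeadWork.RootCent
open scoped Matrix

/-- The four roots left out. -/
def out4 : List ℕ := [27, 34, 25, 26]

/-- The generating roots of the centraliser. -/
def PK (s : ℕ) : Prop := (chevF4.IsPosRoot s ∧ s ∉ out4) ∨ s = 14 ∨ s = 23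

/-- The roots of the radical. -/
def PQ (s : ℕ) : Prop := chevF4.IsPosRoot s ∧ ¬ chevF4.InRootSub ({0, 3} : Set ℕ) s

/-- The central part of the radical. -/
def PN0 (s : ℕ) : Prop := s ∈ [28, 29, 30, 31, 32, 35, 36, 37, 38, 39, 40, 41, 42, 43, 44, 45, 46, 47]

/-- The six roots occurring in the conjugates. -/
def six : List ℕ := [39, 45, 40, 44, 46, 47]

variable {F : Type u} [Field F] [CharP F 2]

/-- The certificate. -/
noncomputable abbrev cF : Cert.{u} chevF4 := certF4

theorem wu_comm_trivial {s r : ℕ} (hs : s < 48) (hr : r < 48) (hne : r ≠ s) (hn : r ≠ chevF4.neg s)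
    (hc : ∀ c ∈ chevF4.commTerms s r, c.2.1 % 2 = 0) (t v : F) :
    cF.xu s t * cF.xu r v * (cF.xu s t)⁻¹ = cF.xu r v := by
  have e := cF.conj_xu (show s < chevF4.nroots from hs) (show r < chevF4.nroots from hr) hne hn t v
  have hw : cF.wu (chevF4.commWord F s r (-t) v) = 1 := by
    refine (List.prod_eq_one fun x hx => ?_)
    obtain ⟨p, hp, rfl⟩ := List.mem_map.mp hx
    obtain ⟨c, hcm, rfl⟩ := List.mem_map.mp hp
    have h0 : ((c.2.1 : ℤ) : F) = 0 := (CharP.intCast_eq_zero_iff F 2 _).mpr (Int.dvd_of_emod_eq_zero (hc c hcm))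
    simp [h0, cF.xu_zero]
  rwa [hw, mul_one] at e

theorem conj_one_term {s r g : ℕ} (hs : s < 48) (hr : r < 48) (hne : r ≠ s) (hn : r ≠ chevF4.neg s)
    (hc : ∀ c ∈ chevF4.commTerms s r, (c.1, c.2.1 % 2, c.2.2.1, c.2.2.2) = (g, 1, 1, 1))
    (hlen : (chevF4.commTerms s r).length = 1) (t v : F) :
    cF.xu s t * cF.xu r v * (cF.xu s t)⁻¹ = cF.xu r v * cF.xu g (t * v) := by
  have e := cF.conj_xu (show s < chevF4.nroots from hs) (show r < chevF4.nroots from hr) hne hn t v
  obtain ⟨c, hce⟩ := List.length_eq_one_iff.mp hlen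
  have h1 := hc c (by simp [hce])
  simp only [Prod.mk.injEq] at h1
  rw [e]
  congr 1
  simp only [ChevalleyDatum.commWord, hce, List.map_cons, List.map_nil, Cert.wu, List.prod_cons, List.prod_nil,
    mul_one, h1.1, h1.2.2.1, h1.2.2.2, pow_one]
  have hodd : ((c.2.1 : ℤ) : F) = 1 := by
    have := (CharP.intCast_eq_intCast F 2 (a := c.2.1) (b := 1)).2
      (show c.2.1 % ((2 : ℕ) : ℤ) = 1 % ((2 : ℕ) : ℤ) by simpa using h1.2.1)
    simpa using this
  rw [hodd, one_mul, CharTwo.neg_eq, CharTwo.neg_eq]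

theorem mem_PK_commute {g : GL chevF4.Idx F} (hg : g ∈ spanGroup chevF4 F PK) (a b : F) :
    Commute g (cF.xu 39 a * cF.xu 45 b) := by
  have key : ∀ s < 48, (chevF4.IsPosRoot s ∧ s ∉ out4) ∨ s = 14 ∨ s = 23 → ∀ r ∈ [39, 45], r ≠ s →
      r ≠ chevF4.neg s ∧ ∀ c ∈ chevF4.commTerms s r, c.2.1 % 2 = 0 := by decide +kernel
  have h : spanGroup chevF4 F PK ≤ Subgroup.centralizer {cF.xu 39 a * cF.xu 45 b} := by
    refine cF.span_le fun s hs t => Subgroup.mem_centralizer_singleton_iff.mpr ?_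
    have hlt : s < 48 := by
      rcases hs with ⟨h, -⟩ | rfl | rfl
      · exact h.1
      · decide
      · decide
    have hc : ∀ r ∈ [39, 45], ∀ v : F, Commute (cF.xu s t) (cF.xu r v) := by
      intro r hr v
      by_cases he : r = s
      · subst he
        exact (cF.xu_add _ _ _).trans ((congrArg _ (add_comm t v)).trans (cF.xu_add _ _ _).symm)
      · obtain ⟨hn, hc⟩ := key s hlt hs r hr he
        have hr' : r < 48 := by simp only [List.mem_cons, List.not_mem_nil, or_false] at hr; omega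
        exact mul_inv_eq_iff_eq_mul.mp (wu_comm_trivial hlt hr' he hn hc t v)
    exact (hc 39 (by simp) a).mul_right (hc 45 (by simp) b)
  exact Subgroup.mem_centralizer_singleton_iff.mp (h hg)

/-- The radical is spanned by the central part and the four roots left out. -/
theorem radical_decomp {q : GL chevF4.Idx F} (hq : q ∈ spanGroup chevF4 F PQ) :
    ∃ n ∈ spanGroup chevF4 F PN0, ∃ a b c d : F,
      q = n * (cF.xu 26 d * cF.xu 25 c * cF.xu 34 b * cF.xu 27 a) := by
  let P1 : ℕ → Prop := fun s => PN0 s ∨ s = 26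
  let P2 : ℕ → Prop := fun s => P1 s ∨ s = 25
  let P3 : ℕ → Prop := fun s => P2 s ∨ s = 34
  let P4 : ℕ → Prop := fun s => P3 s ∨ s = 27
  have hclosed : ∀ s ∈ [26, 25, 34, 27], ∀ r < 48, (PN0 r ∨ r ∈ out4) → r ≠ s →
      r ≠ chevF4.neg s ∧ ∀ c ∈ chevF4.commTerms s r, PN0 c.1 := by unfold PN0; decide +kernel
  have hlt : ∀ s, (PN0 s ∨ s ∈ out4) → s < 48 := by
    intro s h
    simp only [PN0, out4, List.mem_cons, List.not_mem_nil, or_false] at h
    omega
  have step : ∀ (P : ℕ → Prop) (s : ℕ), s ∈ [26, 25, 34, 27] → (∀ r, PN0 r → P r) →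
      (∀ r, P r → PN0 r ∨ r ∈ out4) → ∀ x ∈ spanGroup chevF4 F (fun r => P r ∨ r = s),
      ∃ n ∈ spanGroup chevF4 F P, ∃ t : F, x = n * cF.xu s t := by
    intro P s hs hNP hP x hx
    have hs4 : PN0 s ∨ s ∈ out4 := Or.inr (by simp only [out4, List.mem_cons, List.not_mem_nil, or_false] at hs ⊢; omega)
    have hslt := hlt s hs4
    have hn : chevF4.rootSubgroup F s ≤ Subgroup.normalizer (spanGroup chevF4 F P : Set (GL chevF4.Idx F)) := by
      intro y hy
      obtain ⟨t, rfl⟩ := cF.mem_rootSubgroup.mp hy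
      have key : ∀ t : F, ∀ r, P r → ∀ v, cF.xu s t * cF.xu r v * (cF.xu s t)⁻¹ ∈ spanGroup chevF4 F P := by
        intro t r hr v
        by_cases he : r = s
        · subst he
          rw [cF.xu_inv, cF.xu_add, cF.xu_add]
          exact cF.xu_mem_span hr _
        obtain ⟨h1, h2⟩ := hclosed s hs r (hlt r (hP r hr)) (hP r hr) he
        rw [cF.conj_xu (show s < chevF4.nroots from hslt) (show r < chevF4.nroots from hlt r (hP r hr)) he h1]
        refine mul_mem (cF.xu_mem_span hr _) (cF.wu_mem_span _ ?_)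
        intro p hp
        obtain ⟨c, hc, rfl⟩ := List.mem_map.mp hp
        exact hNP _ (h2 c hc)
      refine cF.mem_normalizer_span (key t) fun r hr v => ?_
      have := key (-t) r hr v
      rwa [← cF.xu_inv, inv_inv] at this
    have hx' : x ∈ spanGroup chevF4 F P ⊔ chevF4.rootSubgroup F s := by
      refine cF.span_le (fun r hr t => ?_) hx
      rcases hr with h | rfl
      · exact Subgroup.mem_sup_left (cF.xu_mem_span h t)
      · exact Subgroup.mem_sup_right (cF.mem_rootSubgroup.mpr ⟨t, rfl⟩)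
    obtain ⟨n, hn', y, hy, e⟩ := (Cert.mem_sup_of_normalised hn).mp hx'
    obtain ⟨t, rfl⟩ := cF.mem_rootSubgroup.mp hy
    exact ⟨n, hn', t, e.symm⟩
  have hsub : spanGroup chevF4 F PQ ≤ spanGroup chevF4 F P4 := by
    refine cF.span_mono fun r hr => ?_
    have key : ∀ r < 48, chevF4.IsPosRoot r → r ∉ [33, 24] → (((PN0 r ∨ r = 26) ∨ r = 25) ∨ r = 34) ∨ r = 27 := by
      unfold PN0; decide +kernel
    refine key r hr.1.1 hr.1 fun h => hr.2 ?_
    simp only [List.mem_cons, List.not_mem_nil, or_false] at h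
    have hsimp : chevF4.simple 0 = 33 ∧ chevF4.simple 3 = 24 := by decide +kernel
    rcases h with rfl | rfl
    · rw [← hsimp.1]; exact cF.{u}.inRootSub_simple (by decide +kernel) (by simp)
    · rw [← hsimp.2]; exact cF.{u}.inRootSub_simple (by decide +kernel) (by simp)
  have c1 : ∀ r, P1 r → PN0 r ∨ r ∈ out4 := fun r h => h.imp id (fun e => by simp [out4, e])
  have c2 : ∀ r, P2 r → PN0 r ∨ r ∈ out4 := fun r h => h.elim (c1 r) (fun e => Or.inr (by simp [out4, e]))
  have c3 : ∀ r, P3 r → PN0 r ∨ r ∈ out4 := fun r h => h.elim (c2 r) (fun e => Or.inr (by simp [out4, e]))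
  obtain ⟨n3, h3, a, rfl⟩ := step P3 27 (by simp) (fun r h => Or.inl (Or.inl (Or.inl h))) c3 q (hsub hq)
  obtain ⟨n2, h2, b, rfl⟩ := step P2 34 (by simp) (fun r h => Or.inl (Or.inl h)) c2 n3 h3
  obtain ⟨n1, h1, c, rfl⟩ := step P1 25 (by simp) (fun r h => Or.inl h) c1 n2 h2
  obtain ⟨n0, h0, d, rfl⟩ := step PN0 26 (by simp) (fun r h => h) (fun r h => Or.inl h) n1 h1
  exact ⟨n0, h0, a, b, c, d, by group⟩

/-- The word of a conjugate. -/
noncomputable def X6 (c : ℕ → F) : GL chevF4.Idx F := cF.wu (six.map fun r => (r, c r))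

/-- The coefficients of a conjugate. -/
def coef6 (α β a b c d : F) (r : ℕ) : F :=
  if r = 39 then α else if r = 45 then β else if r = 40 then a * α else if r = 44 then b * α
  else if r = 46 then c * β else d * β

theorem xu_commute {s r : ℕ} (h : s < 48 ∧ r < 48 ∧ r ≠ s ∧ r ≠ chevF4.neg s ∧
    ∀ c ∈ chevF4.commTerms s r, c.2.1 % 2 = 0) (t v : F) : Commute (cF.xu s t) (cF.xu r v) :=
  mul_inv_eq_iff_eq_mul.mp (wu_comm_trivial h.1 h.2.1 h.2.2.1 h.2.2.2.1 h.2.2.2.2 t v)

theorem conj_y (α β a b c d : F) :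
    cF.xu 26 d * cF.xu 25 c * cF.xu 34 b * cF.xu 27 a * (cF.xu 39 α * cF.xu 45 β) *
      (cF.xu 26 d * cF.xu 25 c * cF.xu 34 b * cF.xu 27 a)⁻¹ = X6 (coef6 α β a b c d) := by
  have h0 : ∀ p ∈ [(27, 45), (34, 40), (34, 45), (25, 39), (25, 40), (25, 44), (26, 39), (26, 40), (26, 44), (26, 46),
      (44, 45), (40, 45), (40, 44), (44, 46), (45, 47), (46, 47)],
      p.1 < 48 ∧ p.2 < 48 ∧ p.2 ≠ p.1 ∧ p.2 ≠ chevF4.neg p.1 ∧
        ∀ c ∈ chevF4.commTerms p.1 p.2, c.2.1 % 2 = 0 := by decide +kernel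
  have h1 : ∀ p ∈ [(27, 39, 40), (34, 39, 44), (25, 45, 46), (26, 45, 47)],
      p.1 < 48 ∧ p.2.1 < 48 ∧ p.2.1 ≠ p.1 ∧ p.2.1 ≠ chevF4.neg p.1 ∧
        (∀ c ∈ chevF4.commTerms p.1 p.2.1, (c.1, c.2.1 % 2, c.2.2.1, c.2.2.2) = (p.2.2, (1 : ℤ), 1, 1)) ∧
          (chevF4.commTerms p.1 p.2.1).length = 1 := by decide +kernel
  have k : ∀ s r, (s, r) ∈ [(27, 45), (34, 40), (34, 45), (25, 39), (25, 40), (25, 44), (26, 39), (26, 40),
      (26, 44), (26, 46), (44, 45), (40, 45), (40, 44), (44, 46), (45, 47), (46, 47)] → ∀ t v : F,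
        MulAut.conj (cF.xu s t) (cF.xu r v) = cF.xu r v := by
    intro s r h t v
    rw [MulAut.conj_apply, (xu_commute (h0 _ h) t v).eq, mul_inv_cancel_right]
  have k1 : ∀ s r g, (s, r, g) ∈ [(27, 39, 40), (34, 39, 44), (25, 45, 46), (26, 45, 47)] → ∀ t v : F,
      MulAut.conj (cF.xu s t) (cF.xu r v) = cF.xu r v * cF.xu g (t * v) := by
    intro s r g h t v
    obtain ⟨e1, e2, e3, e4, e5, e6⟩ := h1 _ h
    rw [MulAut.conj_apply]
    exact conj_one_term e1 e2 e3 e4 e5 e6 t v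
  rw [← MulAut.conj_apply]
  simp only [map_mul, MulAut.mul_apply]
  rw [k1 27 39 40 (by simp), k 27 45 (by simp)]
  simp only [map_mul]
  rw [k1 34 39 44 (by simp), k 34 40 (by simp), k 34 45 (by simp)]
  simp only [map_mul]
  rw [k 25 39 (by simp), k 25 44 (by simp), k 25 40 (by simp), k1 25 45 46 (by simp)]
  simp only [map_mul]
  rw [k 26 39 (by simp), k 26 44 (by simp), k 26 40 (by simp), k1 26 45 47 (by simp), k 26 46 (by simp)]
  have q : ∀ s r, (s, r) ∈ [(27, 45), (34, 40), (34, 45), (25, 39), (25, 40), (25, 44), (26, 39), (26, 40),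
      (26, 44), (26, 46), (44, 45), (40, 45), (40, 44), (44, 46), (45, 47), (46, 47)] → ∀ t v : F,
        Commute (cF.xu s t) (cF.xu r v) := fun s r h => xu_commute (h0 _ h)
  simp only [X6, six, coef6, Cert.wu, List.map_cons, List.map_nil, List.prod_cons, List.prod_nil, mul_one,
    if_true, show (45 : ℕ) ≠ 39 by decide, show (40 : ℕ) ≠ 39 by decide, show (40 : ℕ) ≠ 45 by decide,
    show (44 : ℕ) ≠ 39 by decide, show (44 : ℕ) ≠ 45 by decide, show (44 : ℕ) ≠ 40 by decide,
    show (46 : ℕ) ≠ 39 by decide, show (46 : ℕ) ≠ 45 by decide, show (46 : ℕ) ≠ 40 by decide,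
    show (46 : ℕ) ≠ 44 by decide, show (47 : ℕ) ≠ 39 by decide, show (47 : ℕ) ≠ 45 by decide,
    show (47 : ℕ) ≠ 40 by decide, show (47 : ℕ) ≠ 44 by decide, show (47 : ℕ) ≠ 46 by decide, if_false, mul_assoc]
  congr 1
  rw [← mul_assoc (cF.xu 44 (b * α)), ← mul_assoc (cF.xu 44 (b * α)), (q 40 44 (by simp) (a * α) (b * α)).eq.symm]
  simp only [mul_assoc]
  rw [(q 46 47 (by simp) (c * β) (d * β)).eq, ← mul_assoc (cF.xu 44 (b * α)), (q 44 45 (by simp) (b * α) β).eq]
  simp only [mul_assoc]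
  rw [← mul_assoc (cF.xu 40 (a * α)), (q 40 45 (by simp) (a * α) β).eq]
  simp only [mul_assoc]

open Classical in
/-- The coefficient at a root. -/
noncomputable def val (L : List (ℕ × F)) (x : ℕ) : F := (L.map fun p => if p.1 = x then p.2 else 0).sum

theorem wu_mulVec_hv (L : List (ℕ × F)) (hL : ∀ p ∈ L, p.1 < 48)
    (hfree : L.Pairwise fun p q => q.1 ≠ p.1 ∧ q.1 ≠ chevF4.neg p.1 ∧ chevF4.chainEntry p.1 q.1 = [])
    {k : ℕ} (hk : k < 4) :
    ((cF.wu L : GL chevF4.Idx F) : Matrix chevF4.Idx chevF4.Idx F) *ᵥ hv chevF4 F k =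
      hv chevF4 F k + (L.map fun p => (-((chevF4.cartan k p.1 : ℤ) : F) * p.2) • rv chevF4 F p.1).sum := by
  induction L with
  | nil => simp [Cert.wu]
  | cons p L ih =>
    rw [List.forall_mem_cons] at hL
    rw [List.pairwise_cons] at hfree
    rw [cF.wu_cons, Units.val_mul, ← Matrix.mulVec_mulVec, ih hL.2 hfree.2, cF.coe_xu, Matrix.mulVec_add,
      x_mulVec_hv (show p.1 < chevF4.nroots from hL.1) (show k < chevF4.rank from hk), List.map_cons, List.sum_cons]
    have hfix : ∀ M : List (ℕ × F), (∀ q ∈ M, q ∈ L) →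
        chevF4.x F p.1 p.2 *ᵥ (M.map fun q => (-((chevF4.cartan k q.1 : ℤ) : F) * q.2) • rv chevF4 F q.1).sum =
          (M.map fun q => (-((chevF4.cartan k q.1 : ℤ) : F) * q.2) • rv chevF4 F q.1).sum := by
      intro M hM
      induction M with
      | nil => simp
      | cons q M ihM =>
        rw [List.forall_mem_cons] at hM
        obtain ⟨h1, h2, h3⟩ := hfree.1 q hM.1
        rw [List.map_cons, List.sum_cons, Matrix.mulVec_add, ihM hM.2, Matrix.mulVec_smul,
          cF.x_mulVec_rv (show p.1 < chevF4.nroots from hL.1) (show q.1 < chevF4.nroots from hL.2 q hM.1) h1 h2, h3]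
        simp
    rw [hfix L fun q hq => hq]
    abel

theorem val_eq_of_wu_eq {L L' : List (ℕ × F)} (hL : ∀ p ∈ L, p.1 < 48) (hL' : ∀ p ∈ L', p.1 < 48)
    (hfree : L.Pairwise fun p q => q.1 ≠ p.1 ∧ q.1 ≠ chevF4.neg p.1 ∧ chevF4.chainEntry p.1 q.1 = [])
    (hfree' : L'.Pairwise fun p q => q.1 ≠ p.1 ∧ q.1 ≠ chevF4.neg p.1 ∧ chevF4.chainEntry p.1 q.1 = [])
    (h : cF.wu L = cF.wu L') {x : ℕ} (hx : x < 48) : val L x = val L' x := by
  have hodd : ∀ x < 48, ∃ k < 4, chevF4.cartan k x % 2 ≠ 0 := by decide +kernel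
  obtain ⟨k, hk, hk2⟩ := hodd x hx
  have e := congrArg (fun g : GL chevF4.Idx F =>
    ((g : Matrix chevF4.Idx chevF4.Idx F) *ᵥ hv chevF4 F k) (Sum.inr ⟨x, hx⟩)) h
  simp only [wu_mulVec_hv L hL hfree hk, wu_mulVec_hv L' hL' hfree' hk, Pi.add_apply, listSum_apply] at e
  have key : ∀ M : List (ℕ × F), ((M.map fun p => (-((chevF4.cartan k p.1 : ℤ) : F) * p.2) • rv chevF4 F p.1).map
      fun v => v (Sum.inr ⟨x, hx⟩)).sum = -((chevF4.cartan k x : ℤ) : F) * val M x := by
    intro M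
    induction M with
    | nil => simp [val]
    | cons p M ih =>
      rw [List.map_cons, List.map_cons, List.sum_cons, ih]
      simp only [val, List.map_cons, List.sum_cons, Pi.smul_apply, rv, Sum.elim_inr, smul_eq_mul]
      by_cases hp : p.1 = x
      · simp [hp]; ring
      · simp [hp, Ne.symm hp]
  rw [key, key] at e
  exact mul_left_cancel₀ (neg_ne_zero.mpr (cast_odd hk2)) (add_left_cancel e)

/-- An element of `N` linking two conjugates fixes the two roots. -/
theorem fix_of_link {L : List ℕ} (hL : ∀ i ∈ L, i < 4) {κ c c' : ℕ → F} (hκ : ∀ r < 48, κ r ≠ 0)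
    (hc : c 39 ≠ 0 ∧ c 45 ≠ 0)
    (h : cF.wu (six.map fun r => (act chevF4 L r, κ r * c r)) = X6 c') :
    act chevF4 L 39 = 39 ∧ act chevF4 L 45 = 45 := by
  have hlt : ∀ r ∈ six, r < 48 := by decide
  have hbase : ∀ r ∈ six, ∀ r' ∈ six, r' ≠ r →
      r' ≠ chevF4.neg r ∧ chevF4.chainEntry r r' = [] := by decide +kernel
  have hact : ∀ r, r < 48 → act chevF4 L r < 48 := fun r hr => cF.{u}.act_lt hL (show r < chevF4.nroots from hr)
  have hinj : ∀ r r', r < 48 → r' < 48 → act chevF4 L r = act chevF4 L r' → r = r' := fun r r' hr hr' e => by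
    have := congrArg (act chevF4 L.reverse) e
    rwa [act_reverse_left cF.{u} hL (show r < chevF4.nroots from hr),
      act_reverse_left cF.{u} hL (show r' < chevF4.nroots from hr')] at this
  have hchain : ∀ r r', r < 48 → r' < 48 → chevF4.chainEntry r r' = [] →
      chevF4.chainEntry (act chevF4 L r) (act chevF4 L r') = [] := by
    intro r r' hr hr' he
    clear hact hinj h
    induction L with
    | nil => exact he
    | cons a L ih =>
      rw [List.forall_mem_cons] at hL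
      rw [act_cons, act_cons, cF.{u}.chain_equiv a hL.1 _ (cF.{u}.act_lt hL.2 hr) _ (cF.{u}.act_lt hL.2 hr'), ih hL.2]
      rfl
  have hnd : six.Nodup := by decide
  have hfree : (six.map fun r => (act chevF4 L r, κ r * c r)).Pairwise fun p q =>
      q.1 ≠ p.1 ∧ q.1 ≠ chevF4.neg p.1 ∧ chevF4.chainEntry p.1 q.1 = [] := by
    rw [List.pairwise_map]
    refine hnd.imp_of_mem ?_
    intro r r' hr hr' hne
    obtain ⟨h1, h2⟩ := hbase r hr r' hr' (Ne.symm hne)
    refine ⟨fun e => hne (hinj _ _ (hlt r' hr') (hlt r hr) e).symm, fun e => h1 ?_,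
      hchain r r' (hlt r hr) (hlt r' hr') h2⟩
    rw [← cF.{u}.act_neg hL (show r < chevF4.nroots from hlt r hr)] at e
    exact hinj _ _ (hlt r' hr') (cF.{u}.neg_lt r (hlt r hr)) e
  have hfree' : (six.map fun r => (r, c' r)).Pairwise fun p q =>
      q.1 ≠ p.1 ∧ q.1 ≠ chevF4.neg p.1 ∧ chevF4.chainEntry p.1 q.1 = [] := by
    rw [List.pairwise_map]
    refine hnd.imp_of_mem ?_
    intro r r' hr hr' hne
    exact ⟨Ne.symm hne, hbase r hr r' hr' (Ne.symm hne)⟩
  have hmem : ∀ r ∈ six, c r ≠ 0 → act chevF4 L r ∈ six := by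
    intro r hr hcr
    by_contra hnot
    have e := val_eq_of_wu_eq (by simpa using fun r hr => hact r (hlt r hr)) (by simpa using hlt) hfree hfree' h
      (hact r (hlt r hr))
    have e1 : val (six.map fun r => (r, c' r)) (act chevF4 L r) = 0 := by
      refine List.sum_eq_zero fun v hv => ?_
      simp only [List.map_map, List.mem_map, Function.comp] at hv
      obtain ⟨s, hs, rfl⟩ := hv
      exact if_neg fun (e : s = act chevF4 L r) => hnot (e ▸ hs)
    rw [e1, val, List.map_map] at e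
    rw [← List.sum_toFinset _ hnd, Finset.sum_eq_single r] at e
    · simp only [Function.comp, if_true] at e
      exact mul_ne_zero (hκ r (hlt r hr)) hcr e
    · intro s hs hsr
      simp only [Function.comp]
      rw [if_neg fun e => hsr (hinj _ _ (hlt s (List.mem_toFinset.mp hs)) (hlt r hr) e)]
    · exact fun h => absurd (List.mem_toFinset.mpr hr) h
  have hlen : ∀ i < 4, ∀ r < 48, longF4 (chevF4.reflectRoot i r) = longF4 r := dataF4long.len_refl
  have hl : ∀ r, r < 48 → longF4 (act chevF4 L r) = longF4 r := fun r hr =>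
    len_act dataF4long cF.{u} hL (show r < chevF4.nroots from hr)
  have hp : ∀ r r', r < 48 → r' < 48 →
      pairInt chevF4 (act chevF4 L r) (act chevF4 L r') = pairInt chevF4 r r' := by
    intro r r' hr hr'
    clear hact hinj hchain hfree hmem hl h
    induction L with
    | nil => rfl
    | cons a L ih =>
      rw [List.forall_mem_cons] at hL
      rw [act_cons, act_cons, cF.{u}.pairInt_refl hL.1 (cF.{u}.act_lt hL.2 hr) (cF.{u}.act_lt hL.2 hr'), ih hL.2]
  have key : ∀ s ∈ six, ∀ t ∈ six, longF4 s = longF4 39 → longF4 t = longF4 45 →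
      pairInt chevF4 s t = pairInt chevF4 39 45 → s = 39 ∧ t = 45 := by decide +kernel
  exact key _ (hmem 39 (by decide) hc.1) _ (hmem 45 (by decide) hc.2) (hl 39 (by decide)) (hl 45 (by decide))
    (hp 39 45 (by decide) (by decide))

/-- The subgroup generated by the centraliser and the diagonal elements. -/
def KH (F : Type u) [Field F] : Subgroup (GL chevF4.Idx F) := spanGroup chevF4 F PK ⊔ chevF4.diagonalSubgroup F

theorem KH_elim {g : GL chevF4.Idx F} (hg : g ∈ KH F) :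
    ∃ k ∈ spanGroup chevF4 F PK, ∃ h ∈ chevF4.diagonalSubgroup F, k * h = g :=
  (Cert.mem_sup_of_normalised (cF.diag_normalises PK fun s hs => by
    rcases hs with ⟨h, -⟩ | rfl | rfl
    · exact h.1
    · decide +kernel
    · decide +kernel)).mp hg

theorem node_mem_PK {i : ℕ} (hi : i = 0 ∨ i = 3) (t : F) : cF.nu (chevF4.simple i) t ∈ spanGroup chevF4 F PK := by
  have key : ∀ i ∈ [0, 3], chevF4.IsPosRoot (chevF4.simple i) ∧ chevF4.simple i ∉ out4 ∧
      (chevF4.neg (chevF4.simple i) = 14 ∨ chevF4.neg (chevF4.simple i) = 23) := by decide +kernel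
  obtain ⟨h1, h2, h3⟩ := key i (by simpa using hi)
  rw [cF.nu_eq]
  have hp : PK (chevF4.simple i) := Or.inl ⟨h1, h2⟩
  have hn : PK (chevF4.neg (chevF4.simple i)) := Or.inr h3
  exact mul_mem (mul_mem (cF.xu_mem_span hp _) (cF.xu_mem_span hn _)) (cF.xu_mem_span hp _)

/-- Elements of `N` fixing the two roots. -/
theorem monomial_fix_mem {M : CoxeterMatrix (Fin chevF4.rank)} (hM : CoxOK chevF4 M) :
    ∀ m ∈ chevF4.monomialSubgroup F, (∀ r ∈ [39, 45], (chevF4.rootSubgroup F r).map (MulAut.conj m).toMonoidHom =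
      chevF4.rootSubgroup F r) → m ∈ KH F := by
  suffices key : ∀ k, ∀ m ∈ chevF4.monomialSubgroup F, invCount chevF4 F m = k →
      (∀ r ∈ [39, 45], (chevF4.rootSubgroup F r).map (MulAut.conj m).toMonoidHom = chevF4.rootSubgroup F r) →
        m ∈ KH F from fun m hm h => key _ m hm rfl h
  intro k
  induction k using Nat.strong_induction_on with
  | _ k ih =>
    intro m hm hk hfix
    by_cases hH : m ∈ chevF4.diagonalSubgroup F
    · exact Subgroup.mem_sup_right hH
    obtain ⟨i, hi, hinv⟩ := cF.exists_descent hM hm hH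
    obtain ⟨L, -, hmap⟩ := cF.monomial_map hM hm
    have hL := cF.{u}.fin_word_lt L
    have hfix' : ∀ r ∈ [39, 45], act chevF4 (L.map Fin.val) r = r := by
      intro r hr
      have hr' : r < chevF4.nroots := by
        have : ∀ r ∈ [39, 45], r < chevF4.nroots := by decide +kernel
        exact this r hr
      have h1 := (hmap r hr').symm.trans (hfix r hr)
      have h2 : cF.xu (act chevF4 (L.map Fin.val) r) (1 : F) ∈ chevF4.rootSubgroup F r :=
        h1 ▸ cF.mem_rootSubgroup.mpr ⟨1, rfl⟩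
      obtain ⟨t, ht⟩ := cF.mem_rootSubgroup.mp h2
      by_contra hne
      have hs := cF.{u}.act_lt hL hr'
      have e := val_eq_of_wu_eq (L := [(act chevF4 (L.map Fin.val) r, (1 : F))]) (L' := [(r, t)])
        (fun p hp => by rw [List.mem_singleton.mp hp]; exact hs)
        (fun p hp => by rw [List.mem_singleton.mp hp]; exact hr') (List.pairwise_singleton _ _) (List.pairwise_singleton _ _)
        (by simpa [Cert.wu] using ht) hs
      simp [val, Ne.symm hne] at e
    have hneg := (cF.inverts_iff (cF.{u}.pos_simple hi) (cF.{u}.act_lt hL (cF.{u}.simple_lt i hi))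
      (hmap _ (cF.{u}.simple_lt i hi))).mp hinv
    have key : ∀ i < 4, ∀ s < 48, i ≠ 0 → i ≠ 3 → chevF4.IsNegRoot s →
        pairInt chevF4 39 s = pairInt chevF4 39 (chevF4.simple i) →
          pairInt chevF4 45 s = pairInt chevF4 45 (chevF4.simple i) → False := by decide +kernel
    have hp : ∀ r ∈ [39, 45], pairInt chevF4 r (act chevF4 (L.map Fin.val) (chevF4.simple i)) =
        pairInt chevF4 r (chevF4.simple i) := by
      intro r hr
      have hr' : r < chevF4.nroots := by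
        have : ∀ r ∈ [39, 45], r < chevF4.nroots := by decide +kernel
        exact this r hr
      conv_lhs => rw [← hfix' r hr]
      generalize L.map Fin.val = M' at hL
      induction M' with
      | nil => rfl
      | cons a M' ih2 =>
        rw [List.forall_mem_cons] at hL
        rw [act_cons, act_cons, cF.{u}.pairInt_refl hL.1 (cF.{u}.act_lt hL.2 hr')
          (cF.{u}.act_lt hL.2 (cF.{u}.simple_lt i hi)), ih2 hL.2]
    have hi03 : i = 0 ∨ i = 3 := by
      by_contra hc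
      push Not at hc
      exact key i hi _ (cF.{u}.act_lt hL (cF.{u}.simple_lt i hi)) hc.1 hc.2 hneg (hp 39 (by simp)) (hp 45 (by simp))
    have hnu := node_mem_PK (F := F) hi03 1
    have h2 := cF.invCount_descend hM hi (cF.isRefl_nu_inv hi) hm hinv
    have h3 := ih _ (by omega) (m * (cF.nu (chevF4.simple i) (1 : F))⁻¹)
      (mul_mem hm (inv_mem (cF.nu_mem_monomial hi))) rfl ?_
    · simpa using mul_mem h3 (Subgroup.mem_sup_left (T := chevF4.diagonalSubgroup F) hnu)
    · intro r hr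
      have hr' : r < chevF4.nroots ∧ chevF4.reflectRoot i r = r := by
        have : ∀ i ∈ [0, 3], ∀ r ∈ [39, 45], r < chevF4.nroots ∧ chevF4.reflectRoot i r = r := by decide +kernel
        exact this i (by simpa using hi03) r hr
      obtain ⟨c, hc, e⟩ := cF.conj_inv_xu_simple (F := F) hi hr'.1
      rw [map_conj_mul, cF.map_rootSubgroup (n := (cF.nu (chevF4.simple i) (1 : F))⁻¹) (r' := r) ⟨c, hc, fun t => by
        rw [inv_inv, e, hr'.2]⟩]
      exact hfix r hr

theorem pos_decomp {a : GL chevF4.Idx F} (ha : a ∈ chevF4.posUnipotent F) :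
    ∃ k ∈ spanGroup chevF4 F PK, ∃ q ∈ spanGroup chevF4 F PQ, a = k * q := by
  have hn : spanGroup chevF4 F (fun s => chevF4.IsPosRoot s ∧ chevF4.InRootSub ({0, 3} : Set ℕ) s) ≤
      Subgroup.normalizer (spanGroup chevF4 F PQ : Set (GL chevF4.Idx F)) :=
    cF.span_le fun r hr t => cF.pos_normalises_radical _ hr.1 t
  have hmem : a⁻¹ ∈ spanGroup chevF4 F PQ ⊔
      spanGroup chevF4 F (fun s => chevF4.IsPosRoot s ∧ chevF4.InRootSub ({0, 3} : Set ℕ) s) := by
    have ha' : a⁻¹ ∈ spanGroup chevF4 F chevF4.IsPosRoot := inv_mem ha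
    refine cF.span_le (fun r hr t => ?_) ha'
    by_cases h : chevF4.InRootSub ({0, 3} : Set ℕ) r
    · exact Subgroup.mem_sup_right (cF.xu_mem_span
        (P := fun s => chevF4.IsPosRoot s ∧ chevF4.InRootSub ({0, 3} : Set ℕ) s) ⟨hr, h⟩ t)
    · exact Subgroup.mem_sup_left (cF.xu_mem_span (P := PQ) ⟨hr, h⟩ t)
  obtain ⟨q, hq, k, hk, e⟩ := (Cert.mem_sup_of_normalised hn).mp hmem
  refine ⟨k⁻¹, inv_mem (cF.span_mono (fun r hr => Or.inl ⟨hr.1, ?_⟩) hk), q⁻¹, inv_mem hq, ?_⟩
  · rw [← mul_inv_rev, e, inv_inv]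
  · intro h4
    have key : ∀ r ∈ out4, chevF4.IsPosRoot r ∧ (corootC chevF4 r 1 ≠ 0 ∨ corootC chevF4 r 2 ≠ 0) := by decide +kernel
    obtain ⟨-, h1 | h1⟩ := key r h4
    · exact h1 ((cF.{u}.coef_zero_iff r hr.1.1 1 (by decide +kernel)).mp
        ((cF.{u}.inRootSub_iff.mp hr.2).2 1 (by decide +kernel) (by simp)))
    · exact h1 ((cF.{u}.coef_zero_iff r hr.1.1 2 (by decide +kernel)).mp
        ((cF.{u}.inRootSub_iff.mp hr.2).2 2 (by decide +kernel) (by simp)))

/-- The group generated by the centraliser normalises the radical. -/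
theorem KH_normalises : KH F ≤ Subgroup.normalizer (spanGroup chevF4 F PQ : Set (GL chevF4.Idx F)) := by
  have hpar : chevF4.parabolicSubgroup F ({0, 3} : Set ℕ) ≤
      Subgroup.normalizer (spanGroup chevF4 F PQ : Set (GL chevF4.Idx F)) := by
    have := cF.parabolic_le_normalizer (F := F) ({0, 3} : Set ℕ)
    rwa [cF.radical_eq] at this
  refine le_trans (sup_le ?_ (cF.diagonal_le_borel.trans (cF.borel_le_parabolic _))) hpar
  refine cF.span_le fun r hr t => ?_
  rcases hr with ⟨h, -⟩ | hneg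
  · exact cF.borel_le_parabolic _ (cF.pos_le_borel (cF.xu_mem_pos h t))
  · have key : chevF4.neg (chevF4.simple 0) = 14 ∧ chevF4.neg (chevF4.simple 3) = 23 := by decide +kernel
    rcases hneg with rfl | rfl
    · rw [← key.1]
      exact cF.xu_mem_parabolic (cF.{u}.pos_simple (by decide +kernel)) (cF.{u}.inRootSub_simple (by decide +kernel) (by simp)) t
    · rw [← key.2]
      exact cF.xu_mem_parabolic (cF.{u}.pos_simple (by decide +kernel)) (cF.{u}.inRootSub_simple (by decide +kernel) (by simp)) t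

/-- The centraliser. -/
theorem centralizer_eq {M : CoxeterMatrix (Fin chevF4.rank)} (hM : CoxOK chevF4 M) {v : GL chevF4.Idx F}
    (hv : v = cF.xu 39 1 * cF.xu 45 1) :
    chevF4.group F ⊓ Subgroup.centralizer {v} = spanGroup chevF4 F PK := by
  subst hv
  refine le_antisymm ?_ (le_inf (cF.span_le fun r _ t => cF.xu_mem_group r t) fun g hg =>
    Subgroup.mem_centralizer_singleton_iff.mpr (mem_PK_commute hg 1 1))
  intro g hg
  obtain ⟨hgG, hgv⟩ := Subgroup.mem_inf.mp hg
  rw [Subgroup.mem_centralizer_singleton_iff] at hgv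
  obtain ⟨n, hn, hcell⟩ := cF.exists_bruhat hM hgG
  obtain ⟨b, hb, w, hw, rfl⟩ := cF.exists_canonical hM hn hcell
  obtain ⟨a, ha, h, hh, rfl⟩ := cF.mem_borel.mp hb
  set m := h * n
  have hmN : m ∈ chevF4.monomialSubgroup F := mul_mem (cF.diagonal_le_monomial hh) hn
  obtain ⟨k1, hk1, q1, hq1, e1⟩ := pos_decomp ha
  have hwU : w ∈ chevF4.posUnipotent F := cF.span_mono (fun r hr => hr.1) hw
  obtain ⟨k2, hk2, q2, hq2, e2⟩ := pos_decomp (inv_mem hwU)
  have hg' : Commute (q1 * m * q2⁻¹) (cF.xu 39 (1 : F) * cF.xu 45 1) := by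
    have h1 := ((mem_PK_commute hk1 (1 : F) 1).inv_left.mul_left
      (show Commute (a * h * n * w) _ from hgv)).mul_left (mem_PK_commute hk2 (1 : F) 1)
    have e : k1⁻¹ * (a * h * n * w) * k2 = q1 * m * q2⁻¹ := by
      rw [e1, show w = (w⁻¹)⁻¹ from (inv_inv w).symm, e2]
      simp only [m]
      group
    rwa [e] at h1
  obtain ⟨n1, hn1, a1, b1, c1, d1, hy1⟩ := radical_decomp (inv_mem hq1)
  obtain ⟨n2, hn2, a2, b2, c2, d2, hy2⟩ := radical_decomp (inv_mem hq2)
  set y1 := cF.xu 26 d1 * cF.xu 25 c1 * cF.xu 34 b1 * cF.xu 27 a1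
  set y2 := cF.xu 26 d2 * cF.xu 25 c2 * cF.xu 34 b2 * cF.xu 27 a2
  set X1 := X6 (coef6 (1 : F) 1 a1 b1 c1 d1)
  set X2 := X6 (coef6 (1 : F) 1 a2 b2 c2 d2)
  have hN0 : ∀ x ∈ spanGroup chevF4 F PN0, ∀ c : ℕ → F, Commute x (X6 c) := by
    intro x hx c
    have key : ∀ r < 48, PN0 r → ∀ z ∈ six, z ≠ r → z ≠ chevF4.neg r ∧
        ∀ c ∈ chevF4.commTerms r z, c.2.1 % 2 = 0 := by unfold PN0; decide +kernel
    refine Commute.list_prod_right _ _ fun w hw => ?_
    obtain ⟨p, hp, rfl⟩ := List.mem_map.mp hw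
    obtain ⟨z, hz, rfl⟩ := List.mem_map.mp hp
    have hlt6 : ∀ z ∈ six, z < 48 := by decide
    have hz' : z < 48 := hlt6 z hz
    have hle : spanGroup chevF4 F PN0 ≤ Subgroup.centralizer {cF.xu z (c z)} := by
      refine cF.span_le fun r hr t => Subgroup.mem_centralizer_singleton_iff.mpr ?_
      have hr' : r < 48 := by simp only [PN0, List.mem_cons, List.not_mem_nil, or_false] at hr; omega
      by_cases he : z = r
      · subst he
        exact (cF.xu_add _ _ _).trans ((congrArg _ (add_comm t (c z))).trans (cF.xu_add _ _ _).symm)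
      · obtain ⟨h1, h2⟩ := key r hr' hr z hz he
        exact xu_commute ⟨hr', hz', he, h1, h2⟩ t (c z)
    exact Subgroup.mem_centralizer_singleton_iff.mp (hle hx)
  have hlink : m * X2 * m⁻¹ = X1 := by
    have e1 : y1 * (cF.xu 39 (1 : F) * cF.xu 45 1) * y1⁻¹ = X1 := conj_y 1 1 a1 b1 c1 d1
    have e2 : y2 * (cF.xu 39 (1 : F) * cF.xu 45 1) * y2⁻¹ = X2 := conj_y 1 1 a2 b2 c2 d2
    have f1 : q1⁻¹ * (cF.xu 39 (1 : F) * cF.xu 45 1) * q1 = X1 := by
      rw [show q1 = (q1⁻¹)⁻¹ from (inv_inv q1).symm, hy1]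
      calc (n1 * y1)⁻¹⁻¹ * (cF.xu 39 (1 : F) * cF.xu 45 1) * (n1 * y1)⁻¹
          = n1 * (y1 * (cF.xu 39 (1 : F) * cF.xu 45 1) * y1⁻¹) * n1⁻¹ := by group
        _ = X1 := by rw [e1, (hN0 n1 hn1 _).eq, mul_inv_cancel_right]
    have f2 : q2⁻¹ * (cF.xu 39 (1 : F) * cF.xu 45 1) * q2 = X2 := by
      rw [show q2 = (q2⁻¹)⁻¹ from (inv_inv q2).symm, hy2]
      calc (n2 * y2)⁻¹⁻¹ * (cF.xu 39 (1 : F) * cF.xu 45 1) * (n2 * y2)⁻¹
          = n2 * (y2 * (cF.xu 39 (1 : F) * cF.xu 45 1) * y2⁻¹) * n2⁻¹ := by group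
        _ = X2 := by rw [e2, (hN0 n2 hn2 _).eq, mul_inv_cancel_right]
    have h2 : q1 * m * q2⁻¹ * (cF.xu 39 (1 : F) * cF.xu 45 1) * (q1 * m * q2⁻¹)⁻¹ = cF.xu 39 (1 : F) * cF.xu 45 1 := by
      rw [hg'.eq, mul_inv_cancel_right]
    rw [← f1, ← f2]
    conv_rhs => rw [← h2]
    group
  obtain ⟨L, -, hconj⟩ := cF.monomial_conj_xu hM hmN
  have hconj' : ∀ r, ∃ κ : F, κ ≠ 0 ∧ (r < 48 → ∀ t, m * cF.xu r t * m⁻¹ = cF.xu (act chevF4 (L.map Fin.val) r) (κ * t)) := by
    intro r
    by_cases hr : r < 48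
    · obtain ⟨κ, h1, h2⟩ := hconj r hr
      exact ⟨κ, h1, fun _ => h2⟩
    · exact ⟨1, one_ne_zero, fun h => absurd h hr⟩
  choose κ hκ0 hκ using hconj'
  have hwu : cF.wu (six.map fun r => (act chevF4 (L.map Fin.val) r, κ r * coef6 (1 : F) 1 a2 b2 c2 d2 r)) =
      X6 (coef6 (1 : F) 1 a1 b1 c1 d1) := by
    show _ = X1
    rw [← hlink]
    show _ = m * cF.wu _ * m⁻¹
    rw [← MulAut.conj_apply, Cert.wu, Cert.wu, map_list_prod, List.map_map, List.map_map, List.map_map]
    congr 1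
    refine List.map_congr_left fun r hr => ?_
    have hr' : r < 48 := by revert hr; revert r; decide
    simp only [Function.comp, MulAut.conj_apply, hκ r hr']
  obtain ⟨hf1, hf2⟩ := fix_of_link (cF.{u}.fin_word_lt L) (fun r _ => hκ0 r)
    (by simp [coef6]) hwu
  have hmK : m ∈ KH F := by
    refine monomial_fix_mem hM m hmN fun r hr => ?_
    have hr' : r < 48 := by revert hr; revert r; decide
    rw [cF.map_rootSubgroup ⟨κ r, hκ0 r, hκ r hr'⟩]
    simp only [List.mem_cons, List.not_mem_nil, or_false] at hr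
    rcases hr with rfl | rfl
    · rw [hf1]
    · rw [hf2]
  obtain ⟨k, hk, h', hh', ekh⟩ := KH_elim hmK
  -- move the radical elements together
  have hkn := KH_normalises (Subgroup.mem_sup_left (T := chevF4.diagonalSubgroup F) hk)
  have hhn := KH_normalises (Subgroup.mem_sup_right (S := spanGroup chevF4 F PK) hh')
  set q5 := k⁻¹ * q1 * k * (h' * q2⁻¹ * h'⁻¹)
  have hq5 : q5 ∈ spanGroup chevF4 F PQ := by
    refine mul_mem ?_ ((Subgroup.mem_normalizer_iff.mp hhn _).mp (inv_mem hq2))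
    have := (Subgroup.mem_normalizer_iff.mp (inv_mem hkn) _).mp hq1
    rwa [inv_inv] at this
  have e5 : q1 * m * q2⁻¹ = k * q5 * h' := by rw [← ekh]; simp only [q5]; group
  have hc5 : Commute (q5 * h') (cF.xu 39 (1 : F) * cF.xu 45 1) := by
    have h1 := (mem_PK_commute hk (1 : F) 1).inv_left.mul_left hg'
    rwa [e5, show k⁻¹ * (k * q5 * h') = q5 * h' by group] at h1
  obtain ⟨c, hc, hh'e⟩ := cF.mem_diagonal_iff.mp hh'
  set χ := ∏ i ∈ Finset.range chevF4.rank, cartChar chevF4 i (c i)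
  have hχ : IsChar chevF4 χ :=
    Finset.prod_induction _ (IsChar chevF4) (fun a b ha hb => ha.mul hb) isChar_one fun i hi =>
      cF.{u}.isChar_cartChar (Finset.mem_range.mp hi) (hc i (Finset.mem_range.mp hi))
  have hcoe : (h' : Matrix chevF4.Idx chevF4.Idx F) = dMat chevF4 χ := by
    rw [hh'e, cF.coe_torusElt hc]
    congr 1

  have hconjh : ∀ r < 48, ∀ t : F, h' * cF.xu r t * h'⁻¹ = cF.xu r (χ r * t) := by
    intro r hr t
    have : h' * cF.xu r t = cF.xu r (χ r * t) * h' :=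
      Units.ext (by simp [hcoe, cF.dMat_conj hχ (show r < chevF4.nroots from hr) t])
    rw [this, mul_inv_cancel_right]
  obtain ⟨n5, hn5, a5, b5, c5, d5, hy5⟩ := radical_decomp hq5
  have hX : X6 (coef6 (χ 39) (χ 45) a5 b5 c5 d5) = X6 (coef6 (1 : F) 1 0 0 0 0) := by
    have h1 : q5 * (cF.xu 39 (χ 39) * cF.xu 45 (χ 45)) * q5⁻¹ = cF.xu 39 (1 : F) * cF.xu 45 1 := by
      have h39 := hconjh 39 (by decide) 1
      have h45 := hconjh 45 (by decide) 1
      rw [mul_one] at h39 h45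
      calc q5 * (cF.xu 39 (χ 39) * cF.xu 45 (χ 45)) * q5⁻¹
          = q5 * h' * (cF.xu 39 (1 : F) * cF.xu 45 1) * (q5 * h')⁻¹ := by rw [← h39, ← h45]; group
        _ = _ := by rw [hc5.eq, mul_inv_cancel_right]
    have h2 := conj_y (χ 39) (χ 45) a5 b5 c5 d5
    have h3 : X6 (coef6 (1 : F) 1 0 0 0 0) = cF.xu 39 (1 : F) * cF.xu 45 1 := by
      simp [X6, six, coef6, Cert.wu, cF.xu_zero]
    rw [h3, ← h1, hy5]
    calc _ = n5 * X6 (coef6 (χ 39) (χ 45) a5 b5 c5 d5) * n5⁻¹ := by
          rw [(hN0 n5 hn5 _).eq, mul_inv_cancel_right]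
      _ = _ := by rw [← h2]; group
  have hval : ∀ r ∈ six, coef6 (χ 39) (χ 45) a5 b5 c5 d5 r = coef6 (1 : F) 1 0 0 0 0 r := by
    intro r hr
    have hfree : ∀ f : ℕ → F, (six.map fun r => (r, f r)).Pairwise fun p q =>
        q.1 ≠ p.1 ∧ q.1 ≠ chevF4.neg p.1 ∧ chevF4.chainEntry p.1 q.1 = [] := by
      intro f
      rw [List.pairwise_map]
      show six.Pairwise fun r r' => r' ≠ r ∧ r' ≠ chevF4.neg r ∧ chevF4.chainEntry r r' = []
      decide +kernel
    have hlt : ∀ z ∈ six, z < 48 := by decide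
    have e := val_eq_of_wu_eq (x := r) (by simpa using hlt) (by simpa using hlt) (hfree _) (hfree _) hX (hlt r hr)
    simp only [six, List.mem_cons, List.not_mem_nil, or_false] at hr
    rcases hr with rfl | rfl | rfl | rfl | rfl | rfl <;> simpa [val, six] using e
  have hα : χ 39 = 1 := by simpa [coef6] using hval 39 (by decide)
  have hβ : χ 45 = 1 := by simpa [coef6] using hval 45 (by decide)
  have ha5 : a5 = 0 := by simpa [coef6, hα] using hval 40 (by decide)
  have hb5 : b5 = 0 := by simpa [coef6, hα] using hval 44 (by decide)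
  have hc5' : c5 = 0 := by simpa [coef6, hβ] using hval 46 (by decide)
  have hd5 : d5 = 0 := by simpa [coef6, hβ] using hval 47 (by decide)
  have hN0K : ∀ x ∈ spanGroup chevF4 F PN0, x ∈ spanGroup chevF4 F PK := by
    intro x hx
    refine cF.span_mono (fun r hr => Or.inl ?_) hx
    have key : ∀ r < 48, PN0 r → chevF4.IsPosRoot r ∧ r ∉ out4 := by unfold PN0; decide +kernel
    exact key r (by simp only [PN0, List.mem_cons, List.not_mem_nil, or_false] at hr; omega) hr
  have hq5K : q5 ∈ spanGroup chevF4 F PK := by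
    rw [hy5, ha5, hb5, hc5', hd5]
    simpa [cF.xu_zero] using hN0K n5 hn5
  have h'K : h' ∈ spanGroup chevF4 F PK := by
    have hcart : (chevF4.cartan 0 39 = 0 ∧ chevF4.cartan 1 39 = -1 ∧ chevF4.cartan 2 39 = 1 ∧ chevF4.cartan 3 39 = 0) ∧
        (chevF4.cartan 0 45 = 0 ∧ chevF4.cartan 1 45 = 2 ∧ chevF4.cartan 2 45 = -1 ∧ chevF4.cartan 3 45 = 0) := by
      decide +kernel
    have hr4 : chevF4.rank = 4 := rfl
    have e39 : (c 1)⁻¹ * c 2 = 1 := by
      rw [← hα]
      simp [χ, hr4, Finset.prod_range_succ, cartChar, hcart.1.1, hcart.1.2.1, hcart.1.2.2.1, hcart.1.2.2.2]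
    have e45 : c 1 ^ 2 * (c 2)⁻¹ = 1 := by
      rw [← hβ]
      simp [χ, hr4, Finset.prod_range_succ, cartChar, hcart.2.1, hcart.2.2.1, hcart.2.2.2.1, hcart.2.2.2.2]
    have hc1 : c 1 ≠ 0 := hc 1 (by decide +kernel)
    have h12 : c 2 = c 1 := ((inv_mul_eq_one₀ hc1).mp e39).symm
    have h11 : c 1 = 1 := by rwa [h12, sq, mul_inv_cancel_right₀ hc1] at e45
    rw [hh'e]
    show cF.wu _ ∈ _
    have key : ∀ l : List ℕ, (∀ j ∈ l, j < 4) →
        cF.wu (l.flatMap fun j => chevF4.hWord (chevF4.simple j) (c j)) ∈ spanGroup chevF4 F PK := by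
      intro l
      induction l with
      | nil => intro _; simp [Cert.wu]
      | cons j l ih =>
        intro hl
        rw [List.flatMap_cons, cF.wu_append]
        refine mul_mem ?_ (ih fun i hi => hl i (List.mem_cons_of_mem _ hi))
        show cF.hu (chevF4.simple j) (c j) ∈ _
        have := hl j List.mem_cons_self
        interval_cases j
        · rw [cF.hu_eq]; exact mul_mem (node_mem_PK (Or.inl rfl) _) (node_mem_PK (Or.inl rfl) _)
        · rw [h11, cF.hu_one]; exact one_mem _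
        · rw [h12, h11, cF.hu_one]; exact one_mem _
        · rw [cF.hu_eq]; exact mul_mem (node_mem_PK (Or.inr rfl) _) (node_mem_PK (Or.inr rfl) _)
    exact key _ fun j hj => List.mem_range.mp hj
  have egw : a * h * n * w = k1 * (q1 * m * q2⁻¹) * k2⁻¹ := by
    rw [e1, show w = (w⁻¹)⁻¹ from (inv_inv w).symm, e2]
    simp only [m]
    group
  rw [egw, e5]
  exact mul_mem (mul_mem hk1 (mul_mem (mul_mem hk hq5K) h'K)) (inv_mem hk2)

end Cfsg.Agent.LeadWork.RootCent.V
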