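import Cfsg.Agent.LeadWork.SupersolvCrit
import Cfsg.Agent.S3031

/-! Supersolvability from strongly closed subgroups of fixed order. -/

set_option autoImplicit false
set_option linter.style.haveILetI false

namespace Cfsg.Agent.LeadWork

open Cfsg

universe u

variable {G : Type*} [Group G]

/-- The hypothesis: every noncyclic Sylow subgroup of `E` has all subgroups of some fixed order
strongly closed in their normalizers. -/
def SCHyp (E : Subgroup G) : Prop :=
  ∀ (p : ℕ), p.Prime → ∀ P : Subgroup G, P ≤ E → IsPGroup p P → ¬ p ∣ P.relIndex E → ¬ IsCyclic P →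
    ∃ D : Subgroup G, D ≤ P ∧ 1 < Nat.card D ∧ Nat.card D < Nat.card P ∧
      ∀ F : Subgroup G, F ≤ P → (Nat.card F = Nat.card D ∨ (Nat.card D = 2 ∧ Nat.card F = 4)) →
        ∀ g : G, F.map (MulAut.conj g).toMonoidHom ⊓ Subgroup.normalizer (F : Set G) ≤ F

theorem SCHyp.hasNormalPComplement [Finite G] {E : Subgroup G} (h : SCHyp E) {p : ℕ}
    [hp : Fact p.Prime] (hdiv : p ∣ Nat.card E) (hmin : ∀ q : ℕ, q.Prime → q ∣ Nat.card E → p ≤ q) :
    HasNormalPComplement p E := by
  obtain ⟨P⟩ := (inferInstance : Nonempty (Sylow p E))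
  refine S3031.result hdiv hmin P (or_iff_not_imp_left.mpr fun hnc => ?_)
  set P' := (P : Subgroup E).map E.subtype with hP'
  have hP'E : P' ≤ E := Subgroup.map_subtype_le _
  obtain ⟨D, hDP, hD1, hD2, hD⟩ := h p hp.out P' hP'E (P.2.map _)
    (by rw [Subgroup.relIndex, hP', Subgroup.subgroupOf,
          Subgroup.comap_map_eq_self_of_injective E.subtype_injective]
        exact P.not_dvd_index)
    (fun hc => hnc (((P : Subgroup E).equivMapOfInjective _ E.subtype_injective).isCyclic.mpr hc))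
  have hDE : D ≤ E := hDP.trans hP'E
  have hcD : Nat.card (D.subgroupOf E) = Nat.card D :=
    Nat.card_congr (Subgroup.subgroupOfEquivOfLe hDE).toEquiv
  refine ⟨D.subgroupOf E, fun x hx => ?_, by rwa [hcD], ?_, ?_⟩
  · obtain ⟨y, hy, hyx⟩ := hDP hx
    rwa [← Subtype.ext hyx]
  · rw [hP', Subgroup.card_map_of_injective E.subtype_injective] at hD2
    rwa [hcD]
  intro F hF hc g
  rw [hcD] at hc
  have hcF : Nat.card (F.map E.subtype) = Nat.card F :=
    Subgroup.card_map_of_injective E.subtype_injective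
  rintro x ⟨⟨f, hf, rfl⟩, hxn⟩
  have h1 := hD (F.map E.subtype) (Subgroup.map_mono hF) (hcF.symm ▸ hc) (g : G)
    (x := (g : G) * f * (g : G)⁻¹) ⟨⟨f, ⟨f, hf, rfl⟩, rfl⟩, ?_⟩
  · obtain ⟨y, hy, hye⟩ := h1
    rwa [show (MulAut.conj g).toMonoidHom f = y from Subtype.ext (by simpa using hye.symm)]
  · have h2 := Subgroup.le_normalizer_map E.subtype (Subgroup.mem_map_of_mem E.subtype hxn)
    simpa using h2

theorem SCHyp.of_le {E K : Subgroup G} [Finite G] (h : SCHyp E) (hKE : K ≤ E) {p : ℕ}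
    [hp : Fact p.Prime] (hK : (Nat.card K).Coprime p) {k : ℕ} (hi : K.relIndex E = p ^ k) :
    SCHyp K := by
  intro q hq P hPK hPq hrel hnc
  refine h q hq P (hPK.trans hKE) hPq (fun hd => ?_) hnc
  rw [← Subgroup.relIndex_mul_relIndex P K E hPK hKE, hi] at hd
  rcases (Nat.Prime.dvd_mul hq).mp hd with h1 | h1
  · exact hrel h1
  obtain rfl : q = p := (Nat.prime_dvd_prime_iff_eq hq hp.out).mp (hq.dvd_of_dvd_pow h1)
  have : P = ⊥ := by
    obtain ⟨m, hm⟩ := IsPGroup.iff_card.mp hPq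
    refine Subgroup.card_eq_one.mp (Nat.eq_one_of_dvd_coprimes (hK.pow_right m)
      (Subgroup.card_dvd_of_le hPK) hm.dvd)
  exact hnc (this ▸ inferInstance)

/-- Under the hypothesis some Sylow subgroup of `E` is normal in `G`. -/
theorem SCHyp.exists_normal_sylow [Finite G] : ∀ (n : ℕ) {E : Subgroup G}, Nat.card E = n →
    E.Normal → SCHyp E → E ≠ ⊥ →
      ∃ (q : ℕ) (Q : Subgroup G), q.Prime ∧ Q.Normal ∧ Q ≤ E ∧ Q ≠ ⊥ ∧ IsPGroup q Q ∧
        ¬ q ∣ Q.relIndex E := by
  intro n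
  induction n using Nat.strong_induction_on with
  | _ n ih =>
  intro E hn hE h hne
  have hne1 : Nat.card E ≠ 1 := fun e => hne (Subgroup.card_eq_one.mp e)
  obtain ⟨p, hpp, hp⟩ : ∃ p, p = (Nat.card E).minFac ∧ p.Prime := ⟨_, rfl, Nat.minFac_prime hne1⟩
  haveI := Fact.mk hp
  have hdiv : p ∣ Nat.card E := hpp ▸ Nat.minFac_dvd _
  have hc := h.hasNormalPComplement hdiv
    (fun q hq hd => hpp ▸ Nat.minFac_le_of_dvd hq.two_le hd)
  have hcop := Transfer.hasNormalPComplement_iff_coprime_pResidual.mp hc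
  set K := (pResidual p E).map E.subtype with hK
  haveI := hE
  haveI hKn : K.Normal := hK ▸ Core.normal_map_subtype_of_characteristic _
  have hKE : K ≤ E := Subgroup.map_subtype_le _
  have hKc : (Nat.card K).Coprime p := by
    rwa [hK, Subgroup.card_map_of_injective E.subtype_injective]
  obtain ⟨k, hk⟩ : ∃ k, K.relIndex E = p ^ k := by
    rw [Subgroup.relIndex, hK, Subgroup.subgroupOf,
      Subgroup.comap_map_eq_self_of_injective E.subtype_injective, Subgroup.index_eq_card]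
    exact IsPGroup.iff_card.mp Transfer.isPGroup_quotient_pResidual
  by_cases hKb : K = ⊥
  · rw [hKb, Subgroup.relIndex_bot_left] at hk
    exact ⟨p, E, hp, hE, le_rfl, hne, IsPGroup.of_card hk, by
      rw [Subgroup.relIndex_self, Nat.dvd_one]; exact hp.ne_one⟩
  have hlt : Nat.card K < n := by
    rw [← hn]
    refine lt_of_le_of_ne (Subgroup.card_le_of_le hKE) fun e => ?_
    exact (hp.coprime_iff_not_dvd.mp hKc.symm) (e ▸ hdiv)
  obtain ⟨q, Q, hq, hQn, hQK, hQb, hQq, hQi⟩ := ih _ hlt rfl hKn (h.of_le hKE hKc hk) hKb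
  refine ⟨q, Q, hq, hQn, hQK.trans hKE, hQb, hQq, fun hd => ?_⟩
  rw [← Subgroup.relIndex_mul_relIndex Q K E hQK hKE, hk] at hd
  rcases (Nat.Prime.dvd_mul hq).mp hd with h1 | h1
  · exact hQi h1
  obtain rfl : q = p := (Nat.prime_dvd_prime_iff_eq hq hp).mp (hq.dvd_of_dvd_pow h1)
  obtain ⟨m, hm⟩ := IsPGroup.iff_card.mp hQq
  exact hQb (Subgroup.card_eq_one.mp
    (Nat.eq_one_of_dvd_coprimes (hKc.pow_right m) (Subgroup.card_dvd_of_le hQK) hm.dvd))

theorem SCHyp.quotient [Finite G] {E Q : Subgroup G} [Q.Normal] (h : SCHyp E) (hQE : Q ≤ E) {q : ℕ}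
    [hq : Fact q.Prime] (hQq : IsPGroup q Q) (hQi : ¬ q ∣ Q.relIndex E) :
    SCHyp (E.map (QuotientGroup.mk' Q)) := by
  intro r hr R hRE hRr hri hRnc
  haveI := Fact.mk hr
  set π := QuotientGroup.mk' Q with hπ
  have hsurj : Function.Surjective π := QuotientGroup.mk'_surjective Q
  set W := R.comap π with hW
  have hQW : Q ≤ W := fun x hx => by
    show QuotientGroup.mk' Q x ∈ R
    rw [QuotientGroup.mk'_apply, (QuotientGroup.eq_one_iff x).mpr hx]; exact one_mem R
  have hWE : W ≤ E := by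
    refine (Subgroup.comap_mono hRE).trans ?_
    rw [Subgroup.comap_map_eq, QuotientGroup.ker_mk', sup_eq_left.mpr hQE]
  have hkerW : Nat.card W = Nat.card R * Nat.card Q := by
    have h1 : Nat.card (Q.subgroupOf W) * (Q.subgroupOf W).index = Nat.card W :=
      Subgroup.card_mul_index _
    rw [Nat.card_congr (Subgroup.subgroupOfEquivOfLe hQW).toEquiv] at h1
    have h2 : Q.relIndex W = Nat.card (W.map π) := by
      rw [← Subgroup.relIndex_ker, QuotientGroup.ker_mk']
    rw [← h1, show (Q.subgroupOf W).index = Q.relIndex W from rfl, h2,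
      Subgroup.map_comap_eq_self_of_surjective hsurj, mul_comm]
  have hEQ : Q.relIndex E = Nat.card (E.map π) := by
    rw [← Subgroup.relIndex_ker, QuotientGroup.ker_mk']
  obtain ⟨m, hm⟩ := IsPGroup.iff_card.mp hRr
  obtain ⟨k, hk⟩ := IsPGroup.iff_card.mp hQq
  have hrq : r ≠ q := by
    rintro rfl
    refine hQi (hEQ ▸ (dvd_trans ?_ (Subgroup.card_dvd_of_le hRE)))
    rw [hm]
    refine dvd_pow_self r fun e => hRnc ?_
    rw [e, pow_zero, Subgroup.card_eq_one] at hm
    exact hm ▸ inferInstance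
  -- a Sylow subgroup of `W` maps onto `R`
  obtain ⟨S⟩ := (inferInstance : Nonempty (Sylow r W))
  set S' := (S : Subgroup W).map W.subtype with hS'
  have hS'W : S' ≤ W := Subgroup.map_subtype_le _
  have hScard : Nat.card S' = r ^ m := by
    rw [hS', Subgroup.card_map_of_injective W.subtype_injective, S.card_eq_multiplicity, hkerW,
      hm, hk, Nat.factorization_mul (pow_ne_zero _ hr.ne_zero) (pow_ne_zero _ hq.out.ne_zero)]
    simp [Nat.Prime.factorization_pow hr, Nat.Prime.factorization_pow hq.out, hrq.symm]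
  have hcop : (Nat.card S').Coprime (Nat.card Q) := by
    rw [hScard, hk]; exact Nat.coprime_pow_primes m k hr hq.out hrq
  have hdis : S' ⊓ Q = ⊥ := (Subgroup.disjoint_of_coprime_natCard hcop).eq_bot
  have hinj : Set.InjOn π S' := fun a ha b hb hab => by
    have h1 : a⁻¹ * b ∈ S' ⊓ Q := ⟨S'.mul_mem (S'.inv_mem ha) hb, (QuotientGroup.eq).mp hab⟩
    rw [hdis, Subgroup.mem_bot, inv_mul_eq_one] at h1
    exact h1
  have hSR : S'.map π = R := by
    refine Subgroup.eq_of_le_of_card_ge ?_ ?_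
    · rw [Subgroup.map_le_iff_le_comap]; exact hS'W
    · rw [hm, ← hScard]; exact (Nat.card_image_of_injOn hinj).ge
  have hcardmap : ∀ F : Subgroup G, F ≤ S' → Nat.card (F.map π) = Nat.card F := fun F hF =>
    Nat.card_image_of_injOn (hinj.mono hF)
  have hSi : ¬ r ∣ S'.relIndex E := by
    intro hd
    rw [← Subgroup.relIndex_mul_relIndex S' W E hS'W hWE] at hd
    rcases (Nat.Prime.dvd_mul hr).mp hd with h1 | h1
    · rw [hS', Subgroup.relIndex, Subgroup.subgroupOf,
        Subgroup.comap_map_eq_self_of_injective W.subtype_injective] at h1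
      exact S.not_dvd_index h1
    · refine hri ?_
      rwa [hW, Subgroup.relIndex_comap] at h1
  have hSnc : ¬ IsCyclic S' := fun hc => by
    haveI := hc
    exact hRnc (hSR ▸ isCyclic_of_surjective _ (π.subgroupMap_surjective S'))
  obtain ⟨D, hDS, hD1, hD2, hD⟩ := h r hr S' (hS'W.trans hWE) ((S.2).map _) hSi hSnc
  refine ⟨D.map π, hSR ▸ Subgroup.map_mono hDS, by rwa [hcardmap D hDS],
    by rwa [hcardmap D hDS, ← hSR, hcardmap S' le_rfl], ?_⟩
  intro Fb hFb hFc gb
  rw [hcardmap D hDS] at hFc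
  obtain ⟨g, rfl⟩ := hsurj gb
  set F := S' ⊓ Fb.comap π with hF
  have hFmap : F.map π = Fb := by
    refine le_antisymm (Subgroup.map_le_iff_le_comap.mpr inf_le_right) fun x hx => ?_
    obtain ⟨s, hs, rfl⟩ := (hSR.symm ▸ hFb hx : x ∈ S'.map π)
    exact ⟨s, ⟨hs, hx⟩, rfl⟩
  have hFcard : Nat.card F = Nat.card Fb := by rw [← hFmap, hcardmap F inf_le_left]
  have hFSC := hD F inf_le_left (hFcard.symm ▸ hFc)
  rintro xb ⟨⟨fb, hfb, rfl⟩, hxn⟩
  rw [SetLike.mem_coe, ← hFmap] at hfb
  obtain ⟨f, hf, rfl⟩ := hfb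
  set x := g * f * g⁻¹ with hx
  have hπx : (MulAut.conj (π g)).toMonoidHom (π f) = π x := by simp [hx]
  rw [hπx]
  set M := Fb.comap π with hM
  have hFM : F ≤ M := inf_le_right
  set T := Subgroup.normalizer (M : Set G) with hT
  have hxT : x ∈ T := by
    rw [hT, hM, ← Subgroup.comap_normalizer_eq_of_surjective _ hsurj]
    show π x ∈ Subgroup.normalizer (Fb : Set (G ⧸ Q))
    rw [← hπx]; exact hxn
  have hFr : IsPGroup r F := ((S.2).map _).to_le inf_le_left
  have hfr : IsPGroup r (Subgroup.zpowers x) := by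
    refine (hFr.map (MulAut.conj g).toMonoidHom).to_le (Subgroup.zpowers_le.mpr ?_)
    exact ⟨f, hf, by simp [hx]⟩
  -- Sylow subgroups of `T` containing `F` and `x`
  obtain ⟨S0, hS0⟩ := (hFr.comap_subtype (K := T)).exists_le_sylow
  obtain ⟨S1, hS1⟩ := (hfr.comap_subtype (K := T)).exists_le_sylow
  obtain ⟨t, ht⟩ := MulAction.exists_smul_eq T S0 S1
  have hxS : (t⁻¹ * ⟨x, hxT⟩ * t : T) ∈ (S0 : Subgroup T) := by
    have h1 : (⟨x, hxT⟩ : T) ∈ (S1 : Subgroup T) := hS1 (Subgroup.mem_zpowers x)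
    rw [← ht, Sylow.coe_subgroup_smul] at h1
    obtain ⟨y, hy, hye⟩ := h1
    rw [show t⁻¹ * (⟨x, hxT⟩ : T) * t = y by
      rw [← hye]; simp [MulAut.smul_def, mul_assoc]]
    exact hy
  -- `S0` normalizes `S0 ⊓ M = F`
  have hnorm : (t : G)⁻¹ * x * (t : G) ∈ Subgroup.normalizer (F : Set G) := by
    have hFT : F ≤ T := hFM.trans Subgroup.le_normalizer
    set S0' := (S0 : Subgroup T).map T.subtype with hS0'
    have hFS0 : F ≤ S0' := fun y hy => ⟨⟨y, hFT hy⟩, hS0 hy, rfl⟩
    have heq : S0' ⊓ M = F := by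
      refine (Subgroup.eq_of_le_of_card_ge (le_inf hFS0 hFM) ?_).symm
      have h1 : IsPGroup r (S0' ⊓ M : Subgroup G) := (S0.2.map _).to_le inf_le_left
      obtain ⟨a, ha⟩ := IsPGroup.iff_card.mp h1
      have h2 : Nat.card (S0' ⊓ M : Subgroup G) ∣ Nat.card M := Subgroup.card_dvd_of_le inf_le_right
      have h3 : Nat.card M = Nat.card Fb * Nat.card Q := by
        have h4 : Nat.card (Q.subgroupOf M) * (Q.subgroupOf M).index = Nat.card M :=
          Subgroup.card_mul_index _
        have hQM : Q ≤ M := fun z hz => by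
          show QuotientGroup.mk' Q z ∈ Fb
          rw [QuotientGroup.mk'_apply, (QuotientGroup.eq_one_iff z).mpr hz]; exact one_mem Fb
        rw [Nat.card_congr (Subgroup.subgroupOfEquivOfLe hQM).toEquiv] at h4
        have h5 : Q.relIndex M = Nat.card (M.map π) := by
          rw [← Subgroup.relIndex_ker, QuotientGroup.ker_mk']
        rw [← h4, show (Q.subgroupOf M).index = Q.relIndex M from rfl, h5,
          Subgroup.map_comap_eq_self_of_surjective hsurj, mul_comm]
      refine Nat.le_of_dvd Nat.card_pos ?_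
      rw [hFcard, ha]
      rw [ha, h3, hk] at h2
      exact (Nat.coprime_pow_primes a k hr hq.out hrq).dvd_of_dvd_mul_right h2
    rw [← heq]
    refine Coprime.mem_normalizer_of_conj_mem fun y hy => ⟨?_, ?_⟩
    · have hmem : (t : G)⁻¹ * x * (t : G) ∈ S0' := ⟨_, hxS, by simp⟩
      exact S0'.mul_mem (S0'.mul_mem hmem hy.1) (S0'.inv_mem hmem)
    · have hTm : (t : G)⁻¹ * x * (t : G) ∈ T := mul_mem (mul_mem (inv_mem t.2) hxT) t.2
      exact (Subgroup.mem_normalizer_iff.mp hTm y).mp hy.2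
  have hin : (t : G)⁻¹ * x * (t : G) ∈ F :=
    hFSC ((t : G)⁻¹ * g) ⟨⟨f, hf, by simp [hx, mul_assoc]⟩, hnorm⟩
  have hxM : x ∈ M := by
    have h1 := (Subgroup.mem_normalizer_iff.mp t.2 _).mp (hFM hin)
    simpa [mul_assoc] using h1
  exact hxM

theorem isSupersolvable_of_scHyp_aux : ∀ (n : ℕ) {G : Type u} [Group G] [Finite G],
    Nat.card G = n → ∀ (E : Subgroup G) [E.Normal], IsSupersolvable (G ⧸ E) → SCHyp E →
      IsSupersolvable G := by
  intro n
  induction n using Nat.strong_induction_on with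
  | _ n ih =>
  intro G _ _ hn E _ hss h
  by_cases hE : E = ⊥
  · subst hE
    exact Core.isSupersolvable_of_surjective (f := QuotientGroup.quotientBot.toMonoidHom)
      QuotientGroup.quotientBot.surjective hss
  obtain ⟨q, Q, hq, hQn, hQE, hQb, hQq, hQi⟩ :=
    SCHyp.exists_normal_sylow _ rfl (inferInstance : E.Normal) h hE
  haveI := hQn
  haveI := Fact.mk hq
  haveI : (E.map (QuotientGroup.mk' Q)).Normal :=
    (inferInstance : E.Normal).map _ (QuotientGroup.mk'_surjective Q)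
  have hquot : IsSupersolvable (G ⧸ Q) := by
    refine ih _ ?_ rfl (E.map (QuotientGroup.mk' Q)) ?_ (h.quotient hQE hQq hQi)
    · rw [← hn, Subgroup.card_eq_card_quotient_mul_card_subgroup Q]
      exact lt_mul_of_one_lt_right Nat.card_pos
        (Finite.one_lt_card_iff_nontrivial.mpr ((Subgroup.nontrivial_iff_ne_bot _).2 hQb))
    · exact Core.isSupersolvable_of_surjective
        (f := (QuotientGroup.quotientQuotientEquivQuotient Q E hQE).symm.toMonoidHom)
        (QuotientGroup.quotientQuotientEquivQuotient Q E hQE).symm.surjective hss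
  by_cases hcyc : IsCyclic Q
  · exact Core.isSupersolvable_of_cyclic_normal Q hquot
  obtain ⟨D, hDQ, hD1, hD2, hD⟩ := h q hq Q hQE hQq hQi hcyc
  obtain ⟨j, hj⟩ := IsPGroup.iff_card.mp (hQq.to_le hDQ)
  refine isSupersolvable_of_powComm Q hQq hquot fun y hy hyp =>
    powComm_centralizes hQq (j := j) ?_ (hj ▸ hD2) (fun F hFQ hFc => ⟨fun x hx g => ?_⟩) hy hyp
  · rcases Nat.eq_zero_or_pos j with rfl | h0
    · rw [hj, pow_zero] at hD1; exact absurd hD1 (lt_irrefl 1)
    · exact h0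
  · rw [← hj] at hFc
    have hQN := le_normalizer_of_hyp hQq hFQ (hD F hFQ hFc)
    exact hD F hFQ hFc g ⟨⟨x, hx, by simp⟩, hQN (hQn.conj_mem x (hFQ hx) g)⟩

end Cfsg.Agent.LeadWork
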