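import Cfsg.Agent.Core.PiSeparable
import Cfsg.Agent.Coprime.PxQ
import Cfsg.Agent.Coprime.Generation
import Cfsg.Agent.Chars.Linear
import Cfsg.Agent.Chars.Eigen
import Cfsg.Prelude.Def_Blocks

/-!
A `p`-solvable group with TI Sylow `p`-subgroups and a faithful character of small degree.
-/

set_option autoImplicit false
set_option linter.unusedSectionVars false
set_option linter.style.haveILetI false
set_option linter.unusedVariables false

namespace Cfsg.Agent.LeadWork.TISolvable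

open Cfsg Cfsg.Agent
open scoped Pointwise commutatorElement ComplexConjugate

universe u

variable {G : Type u} [Group G] [Finite G]

theorem mem_normalizer_of_commute {P : Subgroup G}
    (hTI : ∀ g : G, g ∉ Subgroup.normalizer (P : Set G) → P ⊓ (MulAut.conj g • P) = ⊥)
    {y c : G} (hy : y ∈ P) (hy1 : y ≠ 1) (h : c * y = y * c) :
    c ∈ Subgroup.normalizer (P : Set G) := by
  by_contra hc
  have h1 : y ∈ P ⊓ (MulAut.conj c • P) := by
    refine Subgroup.mem_inf.mpr ⟨hy, ?_⟩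
    rw [Subgroup.mem_smul_pointwise_iff_exists]
    exact ⟨y, hy, by simp [MulAut.smul_def, h, mul_assoc]⟩
  rw [hTI c hc, Subgroup.mem_bot] at h1
  exact hy1 h1

theorem normal_of_normal_le {P : Subgroup G}
    (hTI : ∀ g : G, g ∉ Subgroup.normalizer (P : Set G) → P ⊓ (MulAut.conj g • P) = ⊥)
    {N : Subgroup G} [N.Normal] (hN : N ≠ ⊥) (hle : N ≤ P) : P.Normal := by
  rw [← Subgroup.normalizer_eq_top_iff, eq_top_iff]
  intro g _
  by_contra hg
  refine hN (le_bot_iff.mp ?_)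
  rw [← hTI g hg]
  refine le_inf hle fun n hn => ?_
  rw [Subgroup.mem_smul_pointwise_iff_exists]
  exact ⟨g⁻¹ * n * g⁻¹⁻¹, hle (Subgroup.Normal.conj_mem ‹_› n hn g⁻¹),
    by simp [MulAut.smul_def, mul_assoc]⟩

theorem conj_pow_eq {y x c : G} (hxc : y * x * y⁻¹ = x * c) (hc : y * c = c * y) (n : ℕ) :
    y ^ n * x * (y ^ n)⁻¹ = x * c ^ n := by
  induction n with
  | zero => simp
  | succ n ih =>
    have hcn : y * c ^ n * y⁻¹ = c ^ n := by
      rw [(Commute.pow_right hc n).eq, mul_inv_cancel_right]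
    calc y ^ (n + 1) * x * (y ^ (n + 1))⁻¹ = y * (y ^ n * x * (y ^ n)⁻¹) * y⁻¹ := by
          rw [pow_succ']; group
      _ = (y * x * y⁻¹) * (y * c ^ n * y⁻¹) := by rw [ih]; group
      _ = x * c ^ (n + 1) := by rw [hxc, hcn, mul_assoc, ← pow_succ']

/-- A linear character fixed on the centre, killed by the norm. -/
theorem hom_eq_one_of_pow {A : Type*} [Monoid A] {Q : Type*} [Group Q] [Finite Q] (f : Q →* A)
    {c : Q} {m : ℕ} (hm : f c ^ m = 1) (hcop : m.Coprime (Nat.card Q)) : f c = 1 := by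
  have h2 : f c ^ Nat.card Q = 1 := by rw [← map_pow, pow_card_eq_one', map_one]
  have := pow_gcd_eq_one.mpr ⟨hm, h2⟩
  rwa [hcop.gcd_eq_one, pow_one] at this

theorem normSq_rep_scalar {Q : Type*} [Group Q] [Finite Q] {V : Type*} [AddCommGroup V]
    [Module ℂ V] [FiniteDimensional ℂ V] [Nontrivial V] (ρ : Representation ℂ Q V) {x : Q} {a : ℂ}
    (ha : ρ x = a • (1 : Module.End ℂ V)) :
    ρ.character x * conj (ρ.character x) = (Module.finrank ℂ V : ℂ) ^ 2 := by
  have h1 : ρ x ^ Nat.card Q = 1 := by rw [← map_pow, pow_card_eq_one', map_one]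
  rw [ha, smul_pow, one_pow] at h1
  have h2 : a ^ Nat.card Q = 1 := by
    obtain ⟨v, hv⟩ := exists_ne (0 : V)
    have h3 := congrArg (fun T : Module.End ℂ V => T v) h1
    simp only [LinearMap.smul_apply, Module.End.one_apply] at h3
    exact smul_left_injective ℂ hv (by simpa using h3)
  have h4 : ‖a‖ = 1 := Chars.norm_eq_one_of_pow_eq_one Nat.card_pos.ne' h2
  have h5 : ρ.character x = a * (Module.finrank ℂ V : ℂ) := by
    rw [Representation.character, ha, map_smul, LinearMap.trace_one, smul_eq_mul]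
  rw [h5, map_mul, Complex.conj_natCast, mul_mul_mul_comm, Complex.mul_conj', h4]
  simp [sq]

theorem ti_sylow_normal {p : ℕ} [Fact p.Prime] (hsolv : Cfsg.IsPSolvable p G) (S : Sylow p G)
    (hTI : ∀ g : G, g ∉ Subgroup.normalizer ((S : Subgroup G) : Set G) →
      (S : Subgroup G) ⊓ (MulAut.conj g • (S : Subgroup G)) = ⊥)
    {χ : G → ℂ} (hχ : Cfsg.IsCharacter G χ) (hfaith : ∀ g : G, χ g = χ 1 → g = 1)
    (hdeg : Cfsg.charDegree χ ^ 2 ≤ Nat.card (S : Subgroup G)) : (S : Subgroup G).Normal := by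
  classical
  by_cases hcore : pCore p G = ⊥
  swap
  · exact normal_of_normal_le hTI hcore (Core.pCore_le_sylow S)
  by_contra hnn
  set P : Subgroup G := (S : Subgroup G) with hPdef
  have hPbot : P ≠ ⊥ := fun h => hnn (by rw [h]; infer_instance)
  have hPp : IsPGroup p P := S.isPGroup'
  haveI : Group.IsSolvable P := Coprime.isSolvable_of_isPGroup hPp
  set L : Subgroup G := piCore ({p}ᶜ) G with hLdef
  haveI hLn : L.Normal := by
    rw [hLdef]; infer_instance
  have hLc : Subgroup.centralizer (L : Set G) ≤ L :=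
    Core.centralizer_piCore_le (Core.isPiSeparable_compl (Core.isPiSeparable_of_isPSolvable hsolv))
      (by rw [compl_compl, ← Core.pCore_eq_piCore, hcore])
  have hLp : (Nat.card L).Coprime p := by
    rw [hLdef, ← Core.pPrimeCore_eq_piCore]; exact Core.card_pPrimeCore_coprime p G
  obtain ⟨k, hk⟩ := IsPGroup.iff_card.mp hPp
  have hcopPL : (Nat.card P).Coprime (Nat.card L) := by
    rw [hk]; exact (hLp.symm).pow_left k
  have hnc : ¬ L ≤ Subgroup.centralizer (P : Set G) := by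
    intro h
    refine hPbot ?_
    have h1 : P ≤ L := (Subgroup.le_centralizer_iff.mp h).trans hLc
    exact le_bot_iff.mp ((le_inf le_rfl h1).trans
      (inf_comm P L ▸ (Coprime.inf_eq_bot_of_coprime hcopPL)).le)
  have hPL : P ≤ Subgroup.normalizer (L : Set G) := by
    rw [Subgroup.normalizer_eq_top_iff.mpr hLn]; exact le_top
  -- a minimal invariant prime-power subgroup moved by `P`
  obtain ⟨q, hq, Q₀, hQ₀L, hQ₀q, hQ₀P, hQ₀ne⟩ : ∃ q : ℕ, q.Prime ∧ ∃ Q : Subgroup G, Q ≤ L ∧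
      IsPGroup q Q ∧ P ≤ Subgroup.normalizer (Q : Set G) ∧ ⁅Q, P⁆ ≠ ⊥ := by
    by_contra h
    push Not at h
    refine hnc (Coprime.le_of_forall_invariant_sylow fun r hr => ?_)
    haveI := Fact.mk hr
    obtain ⟨R, hRL, hR, hRi, hRP⟩ := Coprime.exists_invariant_sylow hPL hcopPL r
    exact ⟨R, hRL, Subgroup.commutator_eq_bot_iff_le_centralizer.mp (h r hr R hRL hR hRP), hRi⟩
  haveI := Fact.mk hq
  obtain ⟨Q, hQ₀, ⟨⟨hQL, hQq, hQP, hQne⟩, hQmin⟩⟩ := (Set.toFinite
      {Q : Subgroup G | Q ≤ L ∧ IsPGroup q Q ∧ P ≤ Subgroup.normalizer (Q : Set G) ∧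
        ⁅Q, P⁆ ≠ ⊥}).exists_le_minimal (a := Q₀) ⟨hQ₀L, hQ₀q, hQ₀P, hQ₀ne⟩
  have hcop : (Nat.card P).Coprime (Nat.card Q) :=
    hcopPL.coprime_dvd_right (Subgroup.card_dvd_of_le hQL)
  have hQbot : Q ≠ ⊥ := fun h => hQne (by rw [h, Subgroup.commutator_bot_left])
  have hconj : ∀ w ∈ P, ∀ x ∈ Q, w * x * w⁻¹ ∈ Q := fun w hw x hx =>
    (Subgroup.mem_normalizer_iff.mp (hQP hw) x).mp hx
  set C : Subgroup G := Q ⊓ Subgroup.centralizer (P : Set G) with hCdef
  have hfixC : ∀ c ∈ C, ∀ w ∈ P, w * c * w⁻¹ = c := fun c hc w hw => by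
    rw [(Subgroup.mem_centralizer_iff.mp hc.2) w hw, mul_inv_cancel_right]
  have hprop : ∀ R : Subgroup G, R ≤ Q → R ≠ Q → P ≤ Subgroup.normalizer (R : Set G) → R ≤ C := by
    intro R hRQ hne hRP
    refine le_inf hRQ (Subgroup.commutator_eq_bot_iff_le_centralizer.mp ?_)
    by_contra hc
    exact hne (le_antisymm hRQ
      (hQmin ⟨hRQ.trans hQL, hQq.to_le hRQ, hRP, hc⟩ hRQ))
  have hQPQ : ⁅Q, P⁆ = Q := by
    by_contra hne
    have h1 : ⁅Q, P⁆ ≤ C := hprop _ (Coprime.commutator_le_of_le_normalizer hQP) hne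
      (Subgroup.normalizer_commutator_ge_right Q P)
    exact hQne (Coprime.commutator_eq_bot_of_chain hQP hcop le_rfl
      (Subgroup.commutator_eq_bot_iff_le_centralizer.mpr (h1.trans inf_le_right)))
  have hD : ⁅Q, Q⁆ ≤ C := by
    refine hprop _ (Subgroup.commutator_le.mpr fun a ha b hb =>
      Q.mul_mem (Q.mul_mem (Q.mul_mem ha hb) (Q.inv_mem ha)) (Q.inv_mem hb)) ?_ ?_
    · intro h
      haveI : Nontrivial Q := (Subgroup.nontrivial_iff_ne_bot _).mpr hQbot
      haveI : Group.IsSolvable Q := Coprime.isSolvable_of_isPGroup hQq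
      have h1 := Group.IsSolvable.commutator_lt_top_of_nontrivial (G := Q)
      refine h1.ne (Subgroup.map_injective Q.subtype_injective ?_)
      rw [Subgroup.map_subtype_commutator, h, ← MonoidHom.range_eq_map, Subgroup.range_subtype]
    · intro w hw
      rw [Subgroup.mem_normalizer_iff_map_conj_eq, Subgroup.map_commutator,
        Subgroup.mem_normalizer_iff_map_conj_eq.mp (hQP hw)]
  have hcen : ∀ c ∈ C, ∀ x ∈ Q, x * c = c * x := by
    have h0 : ⁅⁅Q, P⁆, C⁆ = ⊥ := by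
      refine Subgroup.commutator_commutator_eq_bot_of_rotate ?_ ?_
      · have : ⁅P, C⁆ = ⊥ := by
          rw [Subgroup.commutator_comm, Subgroup.commutator_eq_bot_iff_le_centralizer]
          exact inf_le_right
        rw [this, Subgroup.commutator_bot_left]
      · rw [Subgroup.commutator_eq_bot_iff_le_centralizer]
        exact ((Subgroup.commutator_mono inf_le_left le_rfl).trans hD).trans inf_le_right
    rw [hQPQ, Subgroup.commutator_eq_bot_iff_le_centralizer] at h0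
    exact fun c hc x hx => ((Subgroup.mem_centralizer_iff.mp (h0 hx)) c hc).symm
  have hdisj : ∀ z : G, z ∈ P → z ∈ Q → z = 1 := by
    intro z hzP hzQ
    have h1 : z ∈ Q ⊓ P := ⟨hzQ, hzP⟩
    rwa [Coprime.inf_eq_bot_of_coprime hcop, Subgroup.mem_bot] at h1
  have hcommC : ∀ y ∈ P, y ≠ 1 → ∀ c ∈ Q, c * y = y * c → c ∈ C := by
    intro y hy hy1 c hc h
    refine Subgroup.mem_inf.mpr ⟨hc, ?_⟩
    have hN := mem_normalizer_of_commute hTI hy hy1 h
    rw [Subgroup.mem_centralizer_iff_commutator_eq_one]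
    intro z hz
    refine hdisj _ ?_ ?_
    · rw [commutatorElement_def,
        show z * c * z⁻¹ * c⁻¹ = z * (c * z⁻¹ * c⁻¹) by group]
      exact P.mul_mem hz ((Subgroup.mem_normalizer_iff.mp hN _).mp (P.inv_mem hz))
    · rw [commutatorElement_def]
      exact Q.mul_mem (hconj z hz c hc) (Q.inv_mem hc)
  have hfix : ∀ y ∈ P, y ≠ 1 → ∀ x ∈ Q, x⁻¹ * (y * x * y⁻¹) ∈ C → x ∈ C := by
    intro y hy hy1 x hx hc
    set c := x⁻¹ * (y * x * y⁻¹) with hcdef
    have hxc : y * x * y⁻¹ = x * c := by rw [hcdef, mul_inv_cancel_left]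
    have hyc : y * c = c * y := (Subgroup.mem_centralizer_iff.mp hc.2) y hy
    have h1 := conj_pow_eq hxc hyc (Nat.card P)
    have h2 : y ^ Nat.card P = 1 :=
      congrArg Subtype.val (pow_card_eq_one' (G := P) (x := ⟨y, hy⟩))
    rw [h2, one_mul, inv_one, mul_one] at h1
    have h3 : c ^ Nat.card P = 1 := mul_eq_left.mp h1.symm
    have h4 : c ^ Nat.card Q = 1 :=
      congrArg Subtype.val (pow_card_eq_one' (G := Q) (x := ⟨c, hc.1⟩))
    have h5 := pow_gcd_eq_one.mpr ⟨h3, h4⟩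
    rw [hcop.gcd_eq_one, pow_one] at h5
    rw [h5, mul_one] at hxc
    exact hcommC y hy hy1 x hx (mul_inv_eq_iff_eq_mul.mp hxc).symm
  -- inside `Q`
  set C' : Subgroup Q := C.subgroupOf Q with hC'def
  have hC'cen : ∀ c ∈ C', ∀ x : Q, x * c = c * x := fun c hc x =>
    Subtype.ext (hcen _ (Subgroup.mem_subgroupOf.mp hc) _ x.2)
  haveI hC'n : C'.Normal := ⟨fun c hc x => by rwa [hC'cen c hc x, mul_inv_cancel_right]⟩
  have hcomm : ∀ a b : Q, ⁅a, b⁆ ∈ C' := fun a b =>
    Subgroup.mem_subgroupOf.mpr (hD (Subgroup.commutator_mem_commutator a.2 b.2))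
  have hqc : ∀ s t : Q ⧸ C', s * t = t * s := by
    intro s t
    induction s using QuotientGroup.induction_on with | _ a => ?_
    induction t using QuotientGroup.induction_on with | _ b => ?_
    rw [← QuotientGroup.mk_mul, ← QuotientGroup.mk_mul, eq_comm, QuotientGroup.eq]
    rw [show (b * a)⁻¹ * (a * b) = ⁅a⁻¹, b⁻¹⁆ by rw [commutatorElement_def]; group]
    exact hcomm _ _
  let cj : P → Q →* Q := fun w =>
    { toFun := fun x => ⟨w * x * (w : G)⁻¹, hconj w w.2 x x.2⟩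
      map_one' := by ext; simp
      map_mul' := fun x y => by ext; simp [mul_assoc] }
  have hcj : ∀ (w : P) (x : Q), ((cj w x : Q) : G) = w * x * (w : G)⁻¹ := fun _ _ => rfl
  have hcjC : ∀ (w : P), ∀ c ∈ C', cj w c = c := fun w c hc =>
    Subtype.ext (hfixC _ (Subgroup.mem_subgroupOf.mp hc) w w.2)
  have hfix' : ∀ w : P, w ≠ 1 → ∀ x : Q, x⁻¹ * cj w x ∈ C' → x ∈ C' := by
    intro w hw x hx
    refine Subgroup.mem_subgroupOf.mpr (hfix w w.2 (fun h => hw (Subtype.ext h)) x x.2 ?_)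
    simpa [hcj] using Subgroup.mem_subgroupOf.mp hx
  obtain ⟨q0, hq0⟩ : ∃ x : Q, x ∉ C' := by
    by_contra h
    push Not at h
    refine hQne (Subgroup.commutator_eq_bot_iff_le_centralizer.mpr fun x hx => ?_)
    exact (Subgroup.mem_subgroupOf.mp (h ⟨x, hx⟩)).2
  haveI : Fintype P := Fintype.ofFinite _
  haveI : Fintype Q := Fintype.ofFinite _
  haveI : Fintype (Q ⧸ C') := Fintype.ofFinite _
  have hindex : Nat.card P < C'.index := by
    rw [Subgroup.index_eq_card, Nat.card_eq_fintype_card, Nat.card_eq_fintype_card]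
    refine Fintype.card_lt_of_injective_of_notMem (fun w : P => (cj w q0 : Q ⧸ C')) ?_ (b := 1) ?_
    · intro w z h
      by_contra hne
      rw [QuotientGroup.eq] at h
      refine hq0 (hfix' (w⁻¹ * z) (fun e => hne (inv_mul_eq_one.mp e)) q0 ?_)
      have h2 := hcjC w⁻¹ _ h
      rw [map_mul, map_inv] at h2
      have e1 : cj w⁻¹ (cj w q0) = q0 := Subtype.ext (by simp [hcj, mul_assoc])
      have e2 : cj w⁻¹ (cj z q0) = cj (w⁻¹ * z) q0 := Subtype.ext (by simp [hcj, mul_assoc])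
      rw [e1, e2] at h2
      rwa [h2]
    · rintro ⟨w, hw⟩
      rw [QuotientGroup.eq_one_iff] at hw
      have h2 := hcjC w⁻¹ _ hw
      rw [show cj w⁻¹ (cj w q0) = q0 from Subtype.ext (by simp [hcj, mul_assoc])] at h2
      exact hq0 (h2 ▸ hw)
  -- the restriction to `Q`
  let χQ : Q → ℂ := fun x => χ x
  have hχQ : IsCharacter Q χQ := Chars.isCharacter_restrict hχ Q
  obtain ⟨m, hm, hsum⟩ := Chars.exists_eq_sum_nsmul hχQ
  obtain ⟨d, hd⟩ := Chars.exists_apply_one_eq hχ
  have hdeg' : charDegree χ = d := by rw [charDegree, hd, Complex.natCast_re, Nat.floor_natCast]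
  rw [hdeg'] at hdeg
  choose nψ hnψ using fun ψ : IrrCharacter Q => Chars.exists_apply_one_eq (Chars.irr_isCharacter ψ)
  have hdsum : d = ∑ ψ : IrrCharacter Q, m ψ * nψ ψ := by
    have h := congrFun hsum 1
    simp only [χQ, OneMemClass.coe_one, hd, Finset.sum_apply, Pi.smul_apply] at h
    simp only [hnψ, nsmul_eq_mul] at h
    exact_mod_cast h
  -- constituents are linear
  have hlin : ∀ ψ : IrrCharacter Q, m ψ ≠ 0 → nψ ψ = 1 := by
    intro ψ hmψ
    have hle : nψ ψ ≤ d := by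
      rw [hdsum]
      exact (Nat.le_mul_of_pos_left _ (Nat.pos_of_ne_zero hmψ)).trans
        (Finset.single_le_sum (f := fun φ => m φ * nψ φ) (fun _ _ => Nat.zero_le _)
          (Finset.mem_univ ψ))
    obtain ⟨n, ρ, hρ, hψ⟩ := ψ.2
    haveI := hρ
    haveI := Chars.nontrivial_of_isIrreducible ρ
    have hn : n = nψ ψ := by
      have h := hnψ ψ
      rw [← hψ, Representation.char_one, Module.finrank_fin_fun] at h
      exact_mod_cast h
    rw [← hn] at hle ⊢
    by_contra hn1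
    have hscal : ∀ x : Q, (∀ y, ρ x * ρ y = ρ y * ρ x) →
        ρ.character x * conj (ρ.character x) = (n : ℂ) ^ 2 := by
      intro x hx
      obtain ⟨a, ha⟩ := Chars.scalar_of_commute ρ (ρ x) hx
      rw [normSq_rep_scalar ρ ha, Module.finrank_fin_fun]
    have hnorm : ∑ x : Q, ρ.character x * conj (ρ.character x) = (Nat.card Q : ℂ) := by
      have h := Chars.classInner_self_irr (Chars.isIrrCharacter_of_rep ρ)
      rw [Chars.classInner_def] at h
      field_simp [Chars.card_ne_zero (G := Q)] at h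
      exact h
    let Z : Subgroup G :=
      { carrier := {g | ∃ hg : g ∈ Q, ∀ y : Q, ρ ⁅(⟨g, hg⟩ : Q), y⁆ = 1}
        one_mem' := ⟨Q.one_mem, fun y => by
          rw [show (⟨1, Q.one_mem⟩ : Q) = 1 from rfl, commutatorElement_one_left, map_one]⟩
        mul_mem' := by
          rintro a b ⟨ha, h1⟩ ⟨hb, h2⟩
          refine ⟨Q.mul_mem ha hb, fun y => ?_⟩
          rw [show (⟨a * b, Q.mul_mem ha hb⟩ : Q) = ⟨a, ha⟩ * ⟨b, hb⟩ from rfl,
            show ⁅(⟨a, ha⟩ : Q) * ⟨b, hb⟩, y⁆ =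
              ⟨a, ha⟩ * ⁅(⟨b, hb⟩ : Q), y⁆ * (⟨a, ha⟩ : Q)⁻¹ * ⁅(⟨a, ha⟩ : Q), y⁆ by
              simp only [commutatorElement_def]; group,
            map_mul, map_mul, map_mul, h2, h1, mul_one, mul_one, ← map_mul, mul_inv_cancel, map_one]
        inv_mem' := by
          rintro a ⟨ha, h1⟩
          refine ⟨Q.inv_mem ha, fun y => ?_⟩
          rw [show (⟨a⁻¹, Q.inv_mem ha⟩ : Q) = (⟨a, ha⟩ : Q)⁻¹ from rfl,
            show ⁅(⟨a, ha⟩ : Q)⁻¹, y⁆ =
              (⟨a, ha⟩ : Q)⁻¹ * ⁅(⟨a, ha⟩ : Q), y⁆⁻¹ * ⟨a, ha⟩ by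
              simp only [commutatorElement_def]; group]
          have h3 : ρ ⁅(⟨a, ha⟩ : Q), y⁆⁻¹ = 1 := by
            have h4 : ρ ⁅(⟨a, ha⟩ : Q), y⁆⁻¹ * ρ ⁅(⟨a, ha⟩ : Q), y⁆ = 1 := by
              rw [← map_mul, inv_mul_cancel, map_one]
            rwa [h1, mul_one] at h4
          rw [map_mul, map_mul, h3, mul_one, ← map_mul, inv_mul_cancel, map_one] }
    have hsplit : ∀ x y : Q, ρ ⁅x, y⁆ = 1 → ρ x * ρ y = ρ y * ρ x := by
      intro x y h
      rw [← map_mul, ← map_mul, show x * y = ⁅x, y⁆ * (y * x) by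
        simp only [commutatorElement_def]; group, map_mul, h, one_mul]
    have hZne : Z ≠ Q := by
      intro hZ
      have hall : ∀ x : Q, ρ.character x * conj (ρ.character x) = (n : ℂ) ^ 2 := by
        intro x
        obtain ⟨hg, h⟩ : (x : G) ∈ Z := by rw [hZ]; exact x.2
        exact hscal x fun y => hsplit _ _ (h y)
      rw [Finset.sum_congr rfl fun x _ => hall x, Finset.sum_const, Finset.card_univ, nsmul_eq_mul,
        ← Nat.card_eq_fintype_card] at hnorm
      have h1 : (n : ℂ) ^ 2 = 1 := mul_left_cancel₀ Chars.card_ne_zero (by rw [hnorm, mul_one])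
      have h2 : n ^ 2 = 1 := by exact_mod_cast h1
      exact hn1 ((Nat.pow_eq_one.mp h2).resolve_right two_ne_zero)
    have hZC : Z ≤ C := by
      refine hprop Z (fun g ⟨hg, _⟩ => hg) hZne fun w hw => ?_
      refine Coprime.mem_normalizer_of_conj_mem fun g ⟨hg, h⟩ => ?_
      refine ⟨hconj w hw g hg, fun y => ?_⟩
      have h1 := h (cj ⟨w, hw⟩⁻¹ y)
      have h2 := hcjC ⟨w, hw⟩ _ (hcomm ⟨g, hg⟩ (cj ⟨w, hw⟩⁻¹ y))
      rw [map_commutatorElement] at h2
      rw [← h2] at h1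
      have e1 : cj ⟨w, hw⟩ (cj ⟨w, hw⟩⁻¹ y) = y := Subtype.ext (by simp [hcj, mul_assoc])
      rw [e1] at h1
      exact h1
    have hvanish : ∀ x : Q, x ∉ C' → ρ.character x = 0 := by
      intro x hx
      by_contra h0
      refine hx (Subgroup.mem_subgroupOf.mpr (hZC ⟨x.2, fun y => ?_⟩))
      obtain ⟨a, ha⟩ := Chars.scalar_of_commute ρ (ρ ⁅x, y⁆) fun z => by
        rw [← map_mul, ← map_mul, hC'cen _ (hcomm x y) z]
      have h1 : ρ.character x = a * ρ.character x := by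
        have e : ρ.character x = ρ.character (⁅x, y⁆⁻¹ * x) := by
          rw [show ⁅x, y⁆⁻¹ * x = y * x * y⁻¹ by simp only [commutatorElement_def]; group,
            Representation.char_conj]
        have e2 : ρ x = a • ρ (⁅x, y⁆⁻¹ * x) := by
          conv_lhs => rw [show x = ⁅x, y⁆ * (⁅x, y⁆⁻¹ * x) from (mul_inv_cancel_left _ _).symm]
          rw [map_mul, ha, smul_mul_assoc, one_mul]
        conv_lhs => rw [Representation.character, e2, map_smul, smul_eq_mul]
        rw [e]; rfl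
      have h2 : a = 1 := (mul_eq_right₀ h0).mp h1.symm
      rw [ha, h2, one_smul]
    have hcount : (Nat.card C' : ℂ) * (n : ℂ) ^ 2 = (Nat.card Q : ℂ) := by
      rw [← hnorm, ← Finset.sum_subset (Finset.subset_univ (Finset.univ.filter fun x => x ∈ C'))
        (fun x _ hx => by rw [hvanish x (by simpa using hx), zero_mul]),
        Finset.sum_congr rfl fun x hx => hscal x fun y => by
          rw [← map_mul, ← map_mul, hC'cen x (Finset.mem_filter.mp hx).2 y],
        Finset.sum_const, nsmul_eq_mul]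
      congr 2
      rw [Nat.card_eq_fintype_card, Fintype.card_subtype]
    have hcount' : Nat.card C' * n ^ 2 = Nat.card Q := by exact_mod_cast hcount
    rw [← Subgroup.card_mul_index C'] at hcount'
    have h5 : n ^ 2 = C'.index := Nat.eq_of_mul_eq_mul_left Nat.card_pos hcount'
    have h6 : n ^ 2 ≤ d ^ 2 := Nat.pow_le_pow_left hle 2
    omega
  -- a nontrivial linear constituent
  obtain ⟨ψ, hψm, hψne⟩ : ∃ ψ : IrrCharacter Q, m ψ ≠ 0 ∧ ∃ x, (ψ : Q → ℂ) x ≠ 1 := by
    by_contra h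
    push Not at h
    refine hQbot (le_bot_iff.mp fun g hg => Subgroup.mem_bot.mpr (hfaith g ?_))
    have h1 : ∀ x : Q, χQ x = (d : ℂ) := fun x => by
      rw [hdsum, congrFun hsum x, Finset.sum_apply, Nat.cast_sum]
      refine Finset.sum_congr rfl fun ψ _ => ?_
      rw [Pi.smul_apply, nsmul_eq_mul, Nat.cast_mul]
      by_cases hmψ : m ψ = 0
      · simp [hmψ]
      · rw [h ψ hmψ x, hlin ψ hmψ, Nat.cast_one]
    exact (h1 ⟨g, hg⟩).trans hd.symm
  obtain ⟨x₁, hx₁⟩ := hψne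
  obtain ⟨μ, hμ⟩ := Chars.exists_hom_of_degree_one (Chars.irr_isCharacter ψ)
    (by rw [hnψ, hlin ψ hψm, Nat.cast_one])
  have hμC : ∀ c ∈ C', μ c = 1 := by
    let Φ : Q →* ℂˣ := ∏ w : P, μ.comp (cj w)
    have hΦ : ∀ x, Φ x = ∏ w : P, μ (cj w x) := fun x => by simp [Φ]
    have hker : (⊤ : Subgroup Q) ≤ Φ.ker := by
      rw [← Subgroup.map_le_map_iff_of_injective Q.subtype_injective, ← MonoidHom.range_eq_map,
        Subgroup.range_subtype]
      conv_lhs => rw [← hQPQ]
      rw [Subgroup.commutator_le]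
      intro x hx b hb
      refine ⟨⟨x, hx⟩ * cj ⟨b, hb⟩ (⟨x, hx⟩ : Q)⁻¹, ?_, ?_⟩
      · rw [SetLike.mem_coe, MonoidHom.mem_ker, map_mul]
        have h1 : Φ (cj ⟨b, hb⟩ (⟨x, hx⟩ : Q)⁻¹) = Φ (⟨x, hx⟩ : Q)⁻¹ := by
          rw [hΦ, hΦ]
          exact Fintype.prod_equiv (Equiv.mulRight (⟨b, hb⟩ : P)) _ _ fun w =>
            congrArg μ (Subtype.ext (by simp [hcj, mul_assoc]))
        rw [h1, ← map_mul, mul_inv_cancel, map_one]
      · simp [commutatorElement_def, hcj, mul_assoc]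
    intro c hc
    refine hom_eq_one_of_pow μ (m := Nat.card P) ?_ hcop
    have h1 : Φ c = 1 := hker trivial
    rw [hΦ, Finset.prod_congr rfl fun w _ => congrArg μ (hcjC w c hc), Finset.prod_const,
      Finset.card_univ] at h1
    rwa [Nat.card_eq_fintype_card]
  let ψw : P → IrrCharacter Q := fun w =>
    ⟨fun x => ((μ.comp (cj w)) x : ℂ), Chars.isIrrCharacter_hom (μ.comp (cj w))⟩
  have hinj : Function.Injective ψw := by
    intro w z h
    by_contra hne
    have hμu : ∀ x, μ (cj (z * w⁻¹) x) = μ x := by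
      intro x
      have h1 : (μ (cj w (cj w⁻¹ x)) : ℂ) = (μ (cj z (cj w⁻¹ x)) : ℂ) :=
        congrFun (congrArg Subtype.val h) (cj w⁻¹ x)
      rw [show cj w (cj w⁻¹ x) = x from Subtype.ext (by simp [hcj, mul_assoc]),
        show cj z (cj w⁻¹ x) = cj (z * w⁻¹) x from Subtype.ext (by simp [hcj, mul_assoc])] at h1
      exact (Units.ext h1).symm
    set v := z * w⁻¹ with hv
    have hv1 : v ≠ 1 := fun e => hne (mul_inv_eq_one.mp e).symm
    let f : Q ⧸ C' → Q ⧸ C' := fun s => ((s.out⁻¹ * cj v s.out : Q) : Q ⧸ C')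
    have hf : Function.Injective f := by
      intro s t hst
      rw [← QuotientGroup.out_eq' s, ← QuotientGroup.out_eq' t]
      set a := s.out with ha
      set b := t.out with hb
      have h2 : ((a⁻¹ * cj v a : Q) : Q ⧸ C') = ((b⁻¹ * cj v b : Q) : Q ⧸ C') := hst
      have h3 : (((a * b⁻¹)⁻¹ * cj v (a * b⁻¹) : Q) : Q ⧸ C') = 1 := by
        simp only [map_mul, map_inv, mul_inv_rev, inv_inv, QuotientGroup.mk_mul,
          QuotientGroup.mk_inv] at h2 ⊢
        rw [hqc ((b : Q ⧸ C')) ((a : Q ⧸ C'))⁻¹, ← mul_assoc,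
          show (a : Q ⧸ C')⁻¹ * (b : Q ⧸ C') * (cj v a : Q ⧸ C') =
            (b : Q ⧸ C') * ((a : Q ⧸ C')⁻¹ * (cj v a : Q ⧸ C')) by
            rw [hqc ((a : Q ⧸ C')⁻¹) (b : Q ⧸ C'), mul_assoc],
          h2, mul_inv_cancel_left, mul_inv_cancel]
      have h4 := hfix' v hv1 _ ((QuotientGroup.eq_one_iff _).mp h3)
      exact (div_eq_one.mp (by rw [div_eq_mul_inv, ← QuotientGroup.mk_inv, ← QuotientGroup.mk_mul,
        (QuotientGroup.eq_one_iff _).mpr h4]))
    refine hx₁ ?_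
    obtain ⟨s, hs⟩ := (Finite.injective_iff_surjective.mp hf) (x₁ : Q ⧸ C')
    have h5 := hμC _ (QuotientGroup.eq.mp hs)
    rw [map_mul, map_inv, map_mul, map_inv, hμu, inv_mul_cancel, inv_one, one_mul] at h5
    rw [hμ]
    simp [h5]
  have hmw : ∀ w, m (ψw w) = m ψ := by
    intro w
    have h1 : classInner χQ (ψw w : Q → ℂ) = classInner χQ (ψ : Q → ℂ) := by
      rw [Chars.classInner_def, Chars.classInner_def]
      congr 1
      refine Fintype.sum_bijective (cj w) ?_ _ _ fun x => ?_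
      · refine Function.bijective_iff_has_inverse.mpr ⟨cj w⁻¹, fun x => ?_, fun x => ?_⟩ <;>
          exact Subtype.ext (by simp [hcj, mul_assoc])
      · simp only [χQ, ψw, hμ, hcj, MonoidHom.coe_comp, Function.comp_apply]
        rw [Chars.isClassFunction_of_isCharacter hχ (x : G) (w : G)]
    rw [hm, hm] at h1
    exact_mod_cast h1
  have hPd : Nat.card P ≤ d := by
    rw [hdsum, Nat.card_eq_fintype_card, Fintype.card, Finset.card_eq_sum_ones]
    refine le_trans (Finset.sum_le_sum (g := fun w => m (ψw w) * nψ (ψw w)) fun w _ => ?_) ?_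
    · have h1 : m (ψw w) ≠ 0 := by rw [hmw]; exact hψm
      rw [hlin _ h1, mul_one]
      omega
    · rw [← Finset.sum_image (f := fun φ => m φ * nψ φ) hinj.injOn]
      exact Finset.sum_le_sum_of_subset (Finset.subset_univ _)
  haveI : Nontrivial P := (Subgroup.nontrivial_iff_ne_bot _).mpr hPbot
  have h2 : 1 < Nat.card P := Finite.one_lt_card
  have h3 : Nat.card P ^ 2 ≤ Nat.card P := (Nat.pow_le_pow_left hPd 2).trans hdeg
  nlinarith

end Cfsg.Agent.LeadWork.TISolvable
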